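import Cfsg.Agent.RV.Defs
import Cfsg.Agent.H42.SylIn

/-! Two essential lines: the linear group is monomial, of one of four types. -/

set_option autoImplicit false

namespace Cfsg.Agent.RV

open Subgroup

variable {p : ℕ} [Fact p.Prime] {W : Subgroup (G2 p)} {E : Set (Vc p)}

namespace C2

theorem dt_ne (g : G2 p) : dt g ≠ 0 := left_ne_zero_of_mul_eq_one (dt_mul_inv g)

/-- a matrix with non-zero determinant -/
noncomputable def mk (a b c d : ZMod p) (h : a * d - b * c ≠ 0) : G2 p :=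
  Matrix.GeneralLinearGroup.mkOfDetNeZero !![a, b; c, d] (by rwa [Matrix.det_fin_two_of])

variable {a b c d : ZMod p} {h : a * d - b * c ≠ 0}

@[simp] theorem mk00 : mk a b c d h 0 0 = a := rfl
@[simp] theorem mk01 : mk a b c d h 0 1 = b := rfl
@[simp] theorem mk10 : mk a b c d h 1 0 = c := rfl
@[simp] theorem mk11 : mk a b c d h 1 1 = d := rfl

theorem mem_conj {k g : G2 p} : g ∈ H42.cj k⁻¹ W ↔ k * g * k⁻¹ ∈ W := by rw [H42.mem_cj, inv_inv]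

/-- change of coordinates -/
theorem good_conj (h : Good W E) (k : G2 p) : Good (H42.cj k⁻¹ W) {x | mv k x ∈ E} where
  pp := H42.card_cj k⁻¹ W ▸ h.pp
  ne v hv e := h.ne _ hv (mv_eq_zero.2 e)
  smul v hv a ha := by simpa only [Set.mem_ofPred_eq, mv_smul] using h.smul _ hv a ha
  inv g hg v hv := by
    have := h.inv _ (mem_conj.1 hg) _ hv
    rwa [mv_mul, mv_inv_mv, mv_mul] at this
  tor v hv a ha := by
    obtain ⟨g, hg, e1, e2⟩ := h.tor _ hv a ha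
    refine ⟨k⁻¹ * g * k, mem_conj.2 (by simpa [mul_assoc] using hg), ?_, ?_⟩
    · rw [mv_mul, mv_mul, ← mv_smul, e1, mv_inv_mv]
    · rw [dt_mul, dt_mul, e2]
      linear_combination a * dt_mul_inv k

theorem frame (h : Good W E) (h3 : ¬ Three E) {k : G2 p} (h0 : mv k ![1, 0] ∈ E) (h1 : mv k ![0, 1] ∈ E)
    (x : Vc p) : mv k x ∈ E ↔ Ax x := by
  constructor
  · refine fun hx => ⟨fun e => h.ne _ hx (mv_eq_zero.2 e), ?_⟩
    by_contra n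
    rw [not_or] at n
    refine h3 ⟨_, h0, _, h1, _, hx, ?_, ?_, ?_⟩ <;> rw [om_mv] <;> simp [om, dt_ne k, n.1, n.2]
  · rintro ⟨n, e | e⟩
    · have := h.smul _ h1 (x 1) fun e' => n (vc_ext e e')
      rwa [← mv_smul, show x 1 • ![0, 1] = x from vc_ext (by simp [e]) (by simp)] at this
    · have := h.smul _ h0 (x 0) fun e' => n (vc_ext e' e)
      rwa [← mv_smul, show x 0 • ![1, 0] = x from vc_ext (by simp) (by simp [e])] at this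

theorem ax0 : Ax (![1, 0] : Vc p) := ⟨by simp, Or.inr rfl⟩
theorem ax1 : Ax (![0, 1] : Vc p) := ⟨by simp, Or.inl rfl⟩

theorem mono (h : Good W E) (hE : ∀ x, x ∈ E ↔ Ax x) {g : G2 p} (hg : g ∈ W) :
    g 0 1 = 0 ∧ g 1 0 = 0 ∨ g 0 0 = 0 ∧ g 1 1 = 0 := by
  have h0 := ((hE _).1 (h.inv g hg _ ((hE _).2 ax0))).2
  have h1 := ((hE _).1 (h.inv g hg _ ((hE _).2 ax1))).2
  have := dt_ne g
  simp only [mv_zero', mv_one', Matrix.cons_val_zero, Matrix.cons_val_one, mul_one, mul_zero, add_zero,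
    zero_add] at h0 h1
  rcases h0 with h0 | h0 <;> rcases h1 with h1 | h1 <;> simp_all [dt]

/-- `W` contains the diagonal matrix -/
def Dg (W : Subgroup (G2 p)) (a b : ZMod p) : Prop := ∃ g ∈ W, g 0 0 = a ∧ g 1 1 = b ∧ g 0 1 = 0 ∧ g 1 0 = 0

theorem Dg.mul {a' b' : ZMod p} (h : Dg W a b) (h' : Dg W a' b') : Dg W (a * a') (b * b') := by
  obtain ⟨g, hg, rfl, rfl, e1, e2⟩ := h
  obtain ⟨g', hg', rfl, rfl, e3, e4⟩ := h'
  exact ⟨g * g', mul_mem hg hg', by simp [g2_mul, e1], by simp [g2_mul, e2], by simp [g2_mul, e1, e3],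
    by simp [g2_mul, e2, e4]⟩

theorem cube (h : Good W E) (hE : ∀ x, x ∈ E ↔ Ax x) {m b : ZMod p} (hm : m ≠ 0) (hb : b ≠ 0) :
    Dg W (m ^ 3 * b) b := by
  have d0 : ∀ a : ZMod p, a ≠ 0 → Dg W a⁻¹ (a ^ 2) := fun a ha => by
    obtain ⟨g, hg, e1, e2⟩ := h.tor _ ((hE _).2 ax0) a ha
    have e3 : a * g 0 0 = 1 := by simpa [mv_zero'] using congrFun e1 0
    obtain ⟨e4, e5⟩ := (mono h hE hg).resolve_right fun e => by simp [e.1] at e3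
    rw [dt, e4, zero_mul, sub_zero] at e2
    exact ⟨g, hg, eq_inv_of_mul_eq_one_right e3, by linear_combination a * e2 - g 1 1 * e3, e4, e5⟩
  have d1 : ∀ a : ZMod p, a ≠ 0 → Dg W (a ^ 2) a⁻¹ := fun a ha => by
    obtain ⟨g, hg, e1, e2⟩ := h.tor _ ((hE _).2 ax1) a ha
    have e3 : a * g 1 1 = 1 := by simpa [mv_one'] using congrFun e1 1
    obtain ⟨e4, e5⟩ := (mono h hE hg).resolve_right fun e => by simp [e.2] at e3
    rw [dt, e4, zero_mul, sub_zero] at e2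
    exact ⟨g, hg, by linear_combination a * e2 - g 0 0 * e3, eq_inv_of_mul_eq_one_right e3, e4, e5⟩
  convert (d0 (m * b) (mul_ne_zero hm hb)).mul (d1 (m ^ 2 * b) (mul_ne_zero (pow_ne_zero 2 hm) hb)) using 1 <;>
    field_simp

theorem full_of (h : Good W E) (hE : ∀ x, x ∈ E ↔ Ax x) (d : Dg W a b) (ha : a ≠ 0) (hb : b ≠ 0)
    (n : ¬ ∃ m, a = m ^ 3 * b) (a' b' : ZMod p) (ha' : a' ≠ 0) (hb' : b' ≠ 0) : Dg W a' b' := by
  obtain ⟨y, hy⟩ := IsCyclic.exists_monoid_generator (α := (ZMod p)ˣ)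
  have g : ∀ x : ZMod p, x ≠ 0 → ∃ i : ℕ, x = (y : ZMod p) ^ i := fun x hx =>
    let ⟨i, e⟩ := hy (Units.mk0 x hx); ⟨i, (congrArg Units.val e).symm⟩
  obtain ⟨i, hi⟩ := g (a * b⁻¹) (mul_ne_zero ha (inv_ne_zero hb))
  obtain ⟨j, hj⟩ := g (a' * b'⁻¹) (mul_ne_zero ha' (inv_ne_zero hb'))
  have d1 : Dg W ((y : ZMod p) ^ i) 1 := by
    simpa [hi, hb] using d.mul (cube h hE one_ne_zero (inv_ne_zero hb))
  have dn : ∀ n, Dg W (((y : ZMod p) ^ i) ^ n) 1 := fun n => by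
    induction n with
    | zero => simpa using cube h hE one_ne_zero one_ne_zero
    | succ n ih => simpa only [pow_succ, mul_one] using ih.mul d1
  obtain ⟨t, ht⟩ : ∃ t, i * i = 3 * t + 1 := by
    have : i % 3 ≠ 0 := fun e => n ⟨y ^ (i / 3), by
      rw [← pow_mul, show i / 3 * 3 = i by omega, ← hi, inv_mul_cancel_right₀ hb]⟩
    refine ⟨i * i / 3, ?_⟩
    have := Nat.mul_mod i i 3
    rcases (by omega : i % 3 = 1 ∨ i % 3 = 2) with e | e <;> rw [e] at this <;> omega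
  have y0 : (y : ZMod p) ^ (t * j) ≠ 0 := pow_ne_zero _ y.ne_zero
  convert (dn (i * j)).mul (cube h hE (inv_ne_zero y0) hb') using 1
  · rw [← pow_mul, ← mul_assoc i, ht, add_mul, one_mul, pow_add, ← hj, mul_assoc 3, pow_mul']
    field_simp
  · rw [one_mul]

theorem core (h : Good W E) (hE : ∀ x, x ∈ E ↔ Ax x)
    (hs : (∃ s ∈ W, s 0 0 = 0) → ∃ s ∈ W, s 0 0 = 0 ∧ ∃ m, s 0 1 = m ^ 3 * s 1 0) (g : G2 p) :
    g ∈ W ↔ P2 (∃ s ∈ W, s 0 0 = 0) (∀ a b, a ≠ 0 → b ≠ 0 → Dg W a b) g := by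
  have dg : ∀ g : G2 p, g 0 1 = 0 → g 1 0 = 0 →
      (g ∈ W ↔ (∀ a b, a ≠ 0 → b ≠ 0 → Dg W a b) ∨ ∃ m, g 0 0 = m ^ 3 * g 1 1) := fun g e1 e2 => by
    have n := dt_ne g
    rw [dt, e1, zero_mul, sub_zero, mul_ne_zero_iff] at n
    refine ⟨fun hg => or_iff_not_imp_right.2 (full_of h hE ⟨g, hg, rfl, rfl, e1, e2⟩ n.1 n.2), fun k => ?_⟩
    obtain ⟨g', hg', a1, a2, a3, a4⟩ : Dg W (g 0 0) (g 1 1) := k.elim (fun k => k _ _ n.1 n.2) fun ⟨m, e⟩ =>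
      e ▸ cube h hE (fun e' => n.1 (by simp [e, e'])) n.2
    exact g2_ext a1 (a3.trans e1.symm) (a4.trans e2.symm) a2 ▸ hg'
  have ad : (∃ s ∈ W, s 0 0 = 0) → g 0 0 = 0 → g 1 1 = 0 →
      (g ∈ W ↔ (∀ a b, a ≠ 0 → b ≠ 0 → Dg W a b) ∨ ∃ m, g 0 1 = m ^ 3 * g 1 0) := fun k e1 e2 => by
    obtain ⟨s, hs, e3, m, e4⟩ := hs k
    have n := dt_ne s
    rw [dt, e3, zero_mul, zero_sub, neg_ne_zero, mul_ne_zero_iff] at n
    have e5 := ((mono h hE hs).resolve_left fun e => n.1 e.1).2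
    have m0 : m ≠ 0 := fun e' => n.1 (by simp [e4, e'])
    rw [← mul_mem_cancel_right hs, dg _ (by simp [g2_mul, e1, e5]) (by simp [g2_mul, e2, e3])]
    simp only [g2_mul, e1, e2, e4, zero_mul, zero_add, add_zero]
    refine or_congr_right ⟨fun ⟨l, e⟩ => ⟨l * m, mul_right_cancel₀ n.2 (by linear_combination e)⟩,
      fun ⟨l, e⟩ => ⟨l * m⁻¹, by rw [e]; field_simp⟩⟩
  refine ⟨fun hg => (mono h hE hg).imp (fun e => ⟨e.1, e.2, (dg g e.1 e.2).1 hg⟩)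
    fun e => ⟨⟨g, hg, e.1⟩, e.1, e.2, (ad ⟨g, hg, e.1⟩ e.1 e.2).1 hg⟩, ?_⟩
  rintro (⟨e1, e2, k⟩ | ⟨s, e1, e2, k⟩)
  exacts [(dg g e1 e2).2 k, (ad s e1 e2).2 k]

end C2

open C2 in
theorem Good.two_case (h : Good W E) (h2 : Two E) (h3 : ¬ Three E) :
    ∃ (k : G2 p) (sw full : Prop), (∀ g, g ∈ W ↔ P2 sw full (k * g * k⁻¹)) ∧
      ∀ v, v ∈ E ↔ Ax (mv k v) := by
  obtain ⟨u, hu, v, hv, n⟩ := h2
  obtain ⟨k0, h0, h1⟩ : ∃ k : G2 p, mv k ![1, 0] ∈ E ∧ mv k ![0, 1] ∈ E :=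
    ⟨C2.mk (u 0) (v 0) (u 1) (v 1) (by rwa [mul_comm (v 0)]),
      by rwa [show mv _ _ = u from vc_ext (by simp [mv_zero']) (by simp [mv_one'])],
      by rwa [show mv _ _ = v from vc_ext (by simp [mv_zero']) (by simp [mv_one'])]⟩
  obtain ⟨k, hE, hs⟩ : ∃ k : G2 p, (∀ x, mv k x ∈ E ↔ Ax x) ∧ ((∃ s ∈ H42.cj k⁻¹ W, s 0 0 = 0) →
      ∃ s ∈ H42.cj k⁻¹ W, s 0 0 = 0 ∧ ∃ m, s 0 1 = m ^ 3 * s 1 0) := by
    have f := frame h h3 h0 h1
    by_cases e : ∃ s ∈ H42.cj k0⁻¹ W, s 0 0 = 0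
    · obtain ⟨s, hs, e1⟩ := e
      have n := dt_ne s
      rw [dt, e1, zero_mul, zero_sub, neg_ne_zero, mul_ne_zero_iff] at n
      have e2 := ((mono (good_conj h k0) f hs).resolve_left fun e => n.1 e.1).2
      have c0 : s 0 1 / s 1 0 ≠ 0 := div_ne_zero n.1 n.2
      obtain ⟨k1, a1, a2, a3, a4⟩ : ∃ k : G2 p, k 0 0 = 1 ∧ k 0 1 = 0 ∧ k 1 0 = 0 ∧ k 1 1 = s 0 1 / s 1 0 :=
        ⟨C2.mk 1 0 0 _ (by simpa using n), rfl, rfl, rfl, rfl⟩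
      obtain ⟨s', b1, b2, b3, b4⟩ : ∃ k : G2 p, k 0 0 = 0 ∧ k 0 1 = s 0 1 * (s 0 1 / s 1 0) ∧
          k 1 0 = s 1 0 / (s 0 1 / s 1 0) ∧ k 1 1 = 0 := ⟨C2.mk 0 (s 0 1 * (s 0 1 / s 1 0)) (s 1 0 / (s 0 1 / s 1 0)) 0
          (by simp [n.1, n.2]), rfl, rfl, rfl, rfl⟩
      have n1 := n.1
      have n2 := n.2
      refine ⟨k0 * k1, frame h h3 ?_ ?_, fun _ => ⟨s', mem_conj.2 ?_, b1, s 0 1 / s 1 0, ?_⟩⟩
      · rw [mv_mul, f]
        exact ⟨mt mv_eq_zero.1 ax0.1, Or.inr (by simp [mv_one', a3])⟩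
      · rw [mv_mul, f]
        exact ⟨mt mv_eq_zero.1 ax1.1, Or.inl (by simp [mv_zero', a2])⟩
      · rw [mul_assoc k0, show k1 * s' = s * k1 from g2_ext ?_ ?_ ?_ ?_]
        · simpa [mul_assoc] using mem_conj.1 hs
        all_goals simp only [g2_mul, a1, a2, a3, a4, b1, b2, b3, b4, e1, e2, zero_mul, mul_zero, add_zero, zero_add,
          one_mul, mul_one]
        field_simp
      · rw [b2, b3]
        field_simp
    · exact ⟨k0, f, fun e' => absurd e' e⟩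
  refine ⟨k⁻¹, _, _, fun g => Iff.trans ?_ (core (good_conj h k) hE hs _), fun v => by rw [← hE, mv_mv_inv]⟩
  simp [mem_conj, mul_assoc]

end Cfsg.Agent.RV
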