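import Cfsg.Agent.RV.Cj
import Mathlib.LinearAlgebra.Matrix.GeneralLinearGroup.Card

/-! The pairs with many lines for the prime three. -/

set_option autoImplicit false

namespace Cfsg.Agent.RV

open Subgroup Cj

variable {W W' : Subgroup (G2 3)} {E E' : Set (Vc 3)}

namespace C3

/-- the monomial group -/
def L8 : List (Q4 3) := ([[], [false], [true], [false, true], [true, false], [false, true, false],
  [true, false, true], [false, true, false, true]] : List (List Bool)).map (ev (2, 0, 0, 4) (0, 2 - 0, 0 - 4, 2 - 0 + 4))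

/-- its normaliser -/
def L16 : List (Q4 3) := [(0, 1, 1, 0), (0, 1, 2, 0), (0, 2, 1, 0), (0, 2, 2, 0), (1, 0, 0, 1), (1, 0, 0, 2),
  (1, 1, 1, 2), (1, 1, 2, 1), (1, 2, 1, 1), (1, 2, 2, 2), (2, 0, 0, 1), (2, 0, 0, 2), (2, 1, 1, 1), (2, 1, 2, 2),
  (2, 2, 1, 2), (2, 2, 2, 1)]

theorem nd8 : L8.Nodup := by decide +kernel

theorem nd16 : L16.Nodup := by decide +kernel

theorem bad : ∀ a : ZMod 3, a = 0 ∨
    (qp (qp (ev (2, 0, 0, 4) (a, 2 - a, a - 4, 2 - a + 4) [false, true]) 2) 3 = q1 ∧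
      qp (ev (2, 0, 0, 4) (a, 2 - a, a - 4, 2 - a + 4) [false, true]) 2 ≠ q1) := by decide +kernel

theorem in16 : ∀ a b c d : ZMod 3, a * d - b * c ≠ 0 → (a, b, c, d) ∈ L16 ∨
    ∃ m ∈ L8, qp (qp (qm (a, b, c, d) m) 2) 3 = q1 ∧ qp (qm (a, b, c, d) m) 2 ≠ q1 := by decide +kernel

theorem orb : ∀ a b : ZMod 3, (a ≠ 0 ∨ b ≠ 0) → ∃ m ∈ L8, (m.1 = a ∧ m.2.2.1 = b) ∨
    (m.1 + m.2.1 = a ∧ m.2.2.1 + m.2.2.2 = b) := by decide +kernel

theorem two : (2 : ZMod 3) * 2 = 1 ∧ (4 : ZMod 3) - 2 ≠ 0 := by decide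

theorem canon (h : Good W E) (h3 : Three E) : ∃ W' E', Eqv W' E' W E ∧ (∀ q ∈ L8, Fr W' q) ∧
    (∀ q, Fr W' q → q ∈ L16) ∧ ∀ v, v ∈ E' ↔ v ≠ 0 := by
  have : Fact (Nat.Prime 3) := ⟨Nat.prime_three⟩
  obtain ⟨W', E', q, g, e0, e1, t, a, s⟩ := nf h h3 (x := 2) two.1 two.2
  obtain rfl : a = 0 := (bad a).resolve_right fun e => e.2 (((t.ev s _).pow _).bad g e.1)
  have m8 : ∀ q ∈ L8, Fr W' q := fun y hy => by
    obtain ⟨w, -, rfl⟩ := List.mem_map.1 hy
    exact t.ev s w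
  refine ⟨W', E', q, m8, ?_, fun v => ⟨g.ne v, fun hv => ?_⟩⟩
  · rintro _ ⟨k, hk, rfl⟩
    refine (in16 _ _ _ _ (left_ne_zero_of_mul_eq_one (dt_mul_inv k))).resolve_right ?_
    rintro ⟨m, hm, e⟩
    exact e.2 (((Fr.mul ⟨k, hk, rfl⟩ (m8 m hm)).pow _).bad g e.1)
  · obtain ⟨m, hm, e⟩ := orb (v 0) (v 1) (by
      by_contra n
      push Not at n
      exact hv (vc_ext n.1 n.2))
    obtain ⟨k, hk, rfl⟩ := m8 m hm
    rcases e with e | e
    · rw [show v = mv k ![1, 0] from vc_ext (by simp [mv_zero', ← e.1, tq]) (by simp [mv_one', ← e.2, tq])]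
      exact g.inv k hk _ e0
    · rw [show v = mv k ![1, 1] from vc_ext (by simp [mv_zero', ← e.1, tq]) (by simp [mv_one', ← e.2, tq])]
      exact g.inv k hk _ e1

end C3

open C3

theorem Good.three_card (h : Good W E) (h3 : Three E) : Nat.card W = 8 ∨ Nat.card W = 16 := by
  have : Fact (Nat.Prime 3) := ⟨Nat.prime_three⟩
  obtain ⟨W', E', q, a, b, -⟩ := canon h h3
  have c1 : 8 ≤ Nat.card W := card_eq q ▸ le_card nd8 a
  have c2 : Nat.card W ≤ 16 := card_eq q ▸ card_le nd16 b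
  have c3 : Nat.card W ∣ 48 := by
    have := card_subgroup_dvd_card W
    rwa [Matrix.card_GL_field, Fin.prod_univ_two, ZMod.card] at this
  have c4 := h.pp
  generalize Nat.card W = n at c1 c2 c3 c4
  interval_cases n <;> simp_all

theorem Good.three_eqv (h : Good W E) (h3 : Three E) (h' : Good W' E') (h3' : Three E')
    (hc : Nat.card W = Nat.card W') : Eqv W E W' E' := by
  have : Fact (Nat.Prime 3) := ⟨Nat.prime_three⟩
  obtain ⟨W1, E1, q1, a1, b1, c1⟩ := canon h h3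
  obtain ⟨W2, E2, q2, a2, b2, c2⟩ := canon h' h3'
  refine trans (symm q1) (trans (of_eq (mem_iff fun q => ?_) fun v => (c1 v).trans (c2 v).symm) q2)
  rcases h.three_card h3 with e | e
  · exact (fr_iff nd8 a1 (by rw [card_eq q1, e]; rfl) q).trans
      (fr_iff nd8 a2 (by rw [card_eq q2, ← hc, e]; rfl) q).symm
  · exact (fr_iff' nd16 b1 (by rw [card_eq q1, e]; rfl) q).trans
      (fr_iff' nd16 b2 (by rw [card_eq q2, ← hc, e]; rfl) q).symm

end Cfsg.Agent.RV
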