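import Cfsg.Agent.RV.Cj

/-! Uniqueness of the pairs with many lines for the primes five and thirteen. -/

set_option autoImplicit false

namespace Cfsg.Agent.RV

open Subgroup Cj

variable {p : ℕ} [Fact p.Prime] {W W' : Subgroup (G2 p)} {E E' : Set (Vc p)}

namespace C5u

/-- words that can have order divisible by `p` -/
def Ws : List (List Bool) := [[false, true], [false, false, false, true],
  [false, false, false, true, false, true], [false, false, false, true, false, true, true, true],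
  [false, false, false, true, false, false, true, true, false, true],
  [false, false, false, true, false, true, false, false, true, true]]

/-- representatives modulo scalars -/
def Rs : List (List Bool) := [[], [false], [true], [false, false], [false, true], [true, false], [true, true],
  [false, false, false], [false, false, true], [false, true, false], [false, true, true], [true, false, false],
  [true, true, false], [true, true, true], [false, false, false, true], [false, false, true, false],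
  [false, false, true, true], [false, true, false, false], [false, true, true, true], [true, false, false, false],
  [true, true, true, false], [false, false, false, true, false], [false, true, false, false, false],
  [false, true, true, true, false]]

/-- a scalar -/
def Zw : List Bool := [false, false, false, true, true, false, false, false, true, true]

/-- the elements -/
def L0 {n : ℕ} (a b : Q4 n) : List (Q4 n) :=
  (List.range (n - 1)).flatMap fun i => Rs.map fun w => qm (qp (ev a b Zw) i) (ev a b w)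

/-- the finite checks -/
structure Ck (n : ℕ) (x a0 : ZMod n) : Prop where
  hx : 2 * x = 1
  h7 : 4 - x ≠ 0
  bad : ∀ a ∈ List.range n, (a : ZMod n) = a0 ∨ ∃ w ∈ Ws,
    qp (qp (ev (x, 0, 0, 4) ((a : ZMod n), x - a, a - 4, x - a + 4) w) (n - 1)) n = q1 ∧
      qp (ev (x, 0, 0, 4) ((a : ZMod n), x - a, a - 4, x - a + 4) w) (n - 1) ≠ q1
  nd : (L0 (x, 0, 0, 4) (a0, x - a0, a0 - 4, x - a0 + 4)).Nodup
  orb : ∀ q ∈ L0 (x, 0, 0, 4) (a0, x - a0, a0 - 4, x - a0 + 4), q.1 * q.2.2.2 - q.2.1 * q.2.2.1 = 2 →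
    q.1 + q.2.2.2 = x + 4 → ∃ r ∈ L0 (x, 0, 0, 4) (a0, x - a0, a0 - 4, x - a0 + 4),
      ((q.1 - x ≠ 0 ∨ q.2.1 ≠ 0) ∧ (q.1 - x) * r.1 + q.2.1 * r.2.2.1 = 0) ∨
      ((q.2.2.1 ≠ 0 ∨ q.2.2.2 - x ≠ 0) ∧ q.2.2.1 * r.1 + (q.2.2.2 - x) * r.2.2.1 = 0)

theorem ck5 : Ck 5 3 1 := ⟨by decide, by decide, by decide +kernel, by decide +kernel, by decide +kernel⟩

theorem ck13 : Ck 13 7 12 := ⟨by decide, by decide, by decide +kernel, by decide +kernel, by decide +kernel⟩

theorem par {u v : Vc p} (hu : u ≠ 0) {α β : ZMod p} (n : α ≠ 0 ∨ β ≠ 0) (a : α * u 0 + β * u 1 = 0)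
    (b : α * v 0 + β * v 1 = 0) : ∃ s : ZMod p, v = s • u := by
  have o : u 0 * v 1 - u 1 * v 0 = 0 := by
    rcases n with n | n
    · exact (mul_eq_zero.1 (by linear_combination v 1 * a - u 1 * b)).resolve_left n
    · exact (mul_eq_zero.1 (by linear_combination u 0 * b - v 0 * a)).resolve_left n
  by_cases e : u 0 = 0
  · have e1 : u 1 ≠ 0 := fun e1 => hu (vc_ext e e1)
    refine ⟨v 1 / u 1, vc_ext ?_ ?_⟩ <;> simp only [Pi.smul_apply, smul_eq_mul] <;> field_simp
    linear_combination -o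
  · refine ⟨v 0 / u 0, vc_ext ?_ ?_⟩ <;> simp only [Pi.smul_apply, smul_eq_mul] <;> field_simp
    linear_combination o

theorem canon {x a0 : ZMod p} (c : Ck p x a0) (h : Good W E) (h3 : Three E) (hc : Nat.card W ≤ 24 * (p - 1)) :
    ∃ W' E', Eqv W' E' W E ∧ Good W' E' ∧ ![1, 0] ∈ E' ∧
      ∀ q, Fr W' q ↔ q ∈ L0 (x, 0, 0, 4) (a0, x - a0, a0 - 4, x - a0 + 4) := by
  obtain ⟨W', E', q, g, e0, -, t, a, s⟩ := nf h h3 c.hx c.h7
  refine ⟨W', E', q, g, e0, ?_⟩
  obtain rfl : a = a0 := by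
    have := c.bad a.val (List.mem_range.2 (ZMod.val_lt a))
    rw [ZMod.natCast_zmod_val] at this
    refine this.resolve_right ?_
    rintro ⟨w, -, e1, e2⟩
    exact e2 (((t.ev s w).pow _).bad g e1)
  refine fr_iff c.nd (fun y hy => ?_) ?_
  · simp only [L0, List.mem_flatMap, List.mem_map] at hy
    obtain ⟨i, -, w, -, rfl⟩ := hy
    exact ((t.ev s _).pow _).mul (t.ev s _)
  · rw [card_eq q]
    refine hc.trans (le_of_eq ?_)
    simp [L0, List.length_flatMap, Rs, mul_comm]

theorem sub {x a0 : ZMod p} (c : Ck p x a0) (h : Good W E) (h' : Good W' E') (e0 : ![1, 0] ∈ E')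
    (m : ∀ q, Fr W q ↔ q ∈ L0 (x, 0, 0, 4) (a0, x - a0, a0 - 4, x - a0 + 4))
    (m' : ∀ q, Fr W' q ↔ q ∈ L0 (x, 0, 0, 4) (a0, x - a0, a0 - 4, x - a0 + 4)) {v : Vc p} (hv : v ∈ E) :
    v ∈ E' := by
  have hx := c.hx
  obtain ⟨g, hg, e1, e2⟩ := h.tor v hv 2 (left_ne_zero_of_mul_eq_one hx)
  have a := congrFun e1 0
  have b := congrFun e1 1
  simp only [Pi.smul_apply, smul_eq_mul, mv_zero', mv_one'] at a b
  have a' : (g 0 0 - x) * v 0 + g 0 1 * v 1 = 0 := by
    linear_combination x * a - (g 0 0 * v 0 + g 0 1 * v 1) * hx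
  have b' : g 1 0 * v 0 + (g 1 1 - x) * v 1 = 0 := by
    linear_combination x * b - (g 1 0 * v 0 + g 1 1 * v 1) * hx
  rw [dt] at e2
  have d : (g 0 0 - x) * (g 1 1 - x) - g 0 1 * g 1 0 = 0 := by
    by_contra n
    refine h.ne v hv (vc_ext ((mul_eq_zero.1 ?_).resolve_left n) ((mul_eq_zero.1 ?_).resolve_left n))
    · linear_combination (g 1 1 - x) * a' - g 0 1 * b'
    · linear_combination (g 0 0 - x) * b' - g 1 0 * a'
  obtain ⟨r, hr, e⟩ := c.orb (tq g) ((m _).1 ⟨g, hg, rfl⟩) e2 (by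
    simp only [tq]
    linear_combination (-2) * d + 2 * e2 - (g 0 0 + g 1 1 - x) * hx)
  obtain ⟨k, hk, rfl⟩ := (m' r).2 hr
  have u := h'.inv k hk _ e0
  have u0 : mv k ![1, 0] 0 = k 0 0 := by simp [mv_zero']
  have u1 : mv k ![1, 0] 1 = k 1 0 := by simp [mv_one']
  obtain ⟨s, rfl⟩ : ∃ s : ZMod p, v = s • mv k ![1, 0] := by
    rcases e with ⟨n, e⟩ | ⟨n, e⟩
    · exact par (h'.ne _ u) n (by rw [u0, u1]; exact e) a'
    · exact par (h'.ne _ u) n (by rw [u0, u1]; exact e) b'
  exact h'.smul _ u s fun e => h.ne _ hv (by rw [e, zero_smul])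

theorem main {x a0 : ZMod p} (c : Ck p x a0) (h : Good W E) (h3 : Three E)
    (hc : Nat.card W ≤ 24 * (p - 1)) (h' : Good W' E') (h3' : Three E')
    (hc' : Nat.card W' ≤ 24 * (p - 1)) : Eqv W E W' E' := by
  obtain ⟨W1, E1, q1, g1, e1, m1⟩ := canon c h h3 hc
  obtain ⟨W2, E2, q2, g2, e2, m2⟩ := canon c h' h3' hc'
  exact trans (symm q1) (trans (of_eq (mem_iff fun q => (m1 q).trans (m2 q).symm)
    fun v => ⟨sub c g1 g2 e2 m1 m2, sub c g2 g1 e1 m2 m1⟩) q2)

end C5u

theorem Good.big_eqv (hp : p = 5 ∨ p = 13) (h : Good W E) (h3 : Three E)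
    (hc : Nat.card W ≤ 24 * (p - 1)) (h' : Good W' E') (h3' : Three E')
    (hc' : Nat.card W' ≤ 24 * (p - 1)) : Eqv W E W' E' := by
  rcases hp with rfl | rfl
  · exact C5u.main C5u.ck5 h h3 hc h' h3' hc'
  · exact C5u.main C5u.ck13 h h3 hc h' h3' hc'

end Cfsg.Agent.RV
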