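import Cfsg.Agent.RV.Defs

/-! Normal form of a pair with three lines, and matrices as quadruples. -/

set_option autoImplicit false

namespace Cfsg.Agent.RV.Cj

open Subgroup Matrix

variable {p : ℕ} {W W' W'' : Subgroup (G2 p)} {E E' E'' : Set (Vc p)}

theorem symm (h : Eqv W E W' E') : Eqv W' E' W E := by
  obtain ⟨k, a, b⟩ := h
  exact ⟨k⁻¹, fun g => by rw [a]; simp [mul_assoc], fun v => by rw [b, mv_mv_inv]⟩

theorem trans (h : Eqv W E W' E') (h' : Eqv W' E' W'' E'') : Eqv W E W'' E'' := by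
  obtain ⟨k, a, b⟩ := h
  obtain ⟨l, c, d⟩ := h'
  exact ⟨l * k, fun g => by rw [a, c]; simp [mul_assoc], fun v => by rw [b, d, mv_mul]⟩

theorem of_eq (a : ∀ g, g ∈ W ↔ g ∈ W') (b : ∀ v, v ∈ E ↔ v ∈ E') : Eqv W E W' E' :=
  ⟨1, fun g => by simp [a], fun v => by rw [mv_one, b]⟩

theorem card_eq (h : Eqv W E W' E') : Nat.card W = Nat.card W' := by
  obtain ⟨k, a, -⟩ := h
  exact Nat.card_congr (Equiv.subtypeEquiv (MulAut.conj k).toEquiv a)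

theorem dt_conj (k g : G2 p) : dt (k * g * k⁻¹) = dt g := by
  rw [dt_mul, dt_mul, mul_right_comm, dt_mul_inv, one_mul]

theorem good (h : Eqv W E W' E') (h' : Good W' E') : Good W E := by
  have c := card_eq h
  obtain ⟨k, a, b⟩ := h
  refine ⟨c ▸ h'.pp, fun v hv e => h'.ne _ ((b v).1 hv) (by rw [e, mv_zero]), fun v hv x hx => ?_,
    fun g hg v hv => ?_, fun v hv x hx => ?_⟩
  · rw [b, mv_smul]; exact h'.smul _ ((b v).1 hv) x hx
  · have := h'.inv _ ((a g).1 hg) _ ((b v).1 hv)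
    rwa [mv_mul, mv_inv_mv, mv_mul, ← b] at this
  · obtain ⟨g, hg, e1, e2⟩ := h'.tor _ ((b v).1 hv) x hx
    refine ⟨k⁻¹ * g * k, by rw [a]; simpa [mul_assoc] using hg, ?_, by simpa using (dt_conj k⁻¹ g).trans e2⟩
    rw [mv_mul, mv_mul, ← mv_smul, e1, mv_inv_mv]

theorem exists_eqv (W : Subgroup (G2 p)) (E : Set (Vc p)) (k : G2 p) : ∃ W' E', Eqv W' E' W E ∧
    (∀ g, g ∈ W' ↔ k * g * k⁻¹ ∈ W) ∧ ∀ v, v ∈ E' ↔ mv k v ∈ E :=
  ⟨W.comap (MulAut.conj k).toMonoidHom, {v | mv k v ∈ E}, ⟨k, fun _ => Iff.rfl, fun _ => Iff.rfl⟩,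
    fun _ => Iff.rfl, fun _ => Iff.rfl⟩

/-- quadruples -/
abbrev Q4 (p : ℕ) : Type := ZMod p × ZMod p × ZMod p × ZMod p

/-- the entries -/
def tq (g : G2 p) : Q4 p := (g 0 0, g 0 1, g 1 0, g 1 1)

/-- the product -/
def qm (a b : Q4 p) : Q4 p := (a.1 * b.1 + a.2.1 * b.2.2.1, a.1 * b.2.1 + a.2.1 * b.2.2.2,
  a.2.2.1 * b.1 + a.2.2.2 * b.2.2.1, a.2.2.1 * b.2.1 + a.2.2.2 * b.2.2.2)

/-- the unit -/
def q1 : Q4 p := (1, 0, 0, 1)

/-- powers -/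
def qp (a : Q4 p) : ℕ → Q4 p
  | 0 => q1
  | n + 1 => qm (qp a n) a

/-- words -/
def ev (a b : Q4 p) : List Bool → Q4 p
  | [] => q1
  | x :: l => qm (if x then b else a) (ev a b l)

theorem tq_inj : Function.Injective (tq : G2 p → Q4 p) := fun g h e => by
  simp only [tq, Prod.mk.injEq] at e
  exact g2_ext e.1 e.2.1 e.2.2.1 e.2.2.2

theorem tq_mul (g h : G2 p) : tq (g * h) = qm (tq g) (tq h) := by simp only [tq, qm, g2_mul]

theorem tq_one : tq (1 : G2 p) = q1 := by simp [tq, q1]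

theorem tq_pow (g : G2 p) (n : ℕ) : tq (g ^ n) = qp (tq g) n := by
  induction n with
  | zero => exact tq_one
  | succ n ih => rw [pow_succ, tq_mul, ih]; rfl

/-- a quadruple that comes from `W` -/
def Fr (W : Subgroup (G2 p)) (q : Q4 p) : Prop := ∃ g ∈ W, tq g = q

theorem Fr.mul {a b : Q4 p} (ha : Fr W a) (hb : Fr W b) : Fr W (qm a b) := by
  obtain ⟨g, hg, rfl⟩ := ha
  obtain ⟨h, hh, rfl⟩ := hb
  exact ⟨_, mul_mem hg hh, tq_mul g h⟩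

theorem Fr.pow {a : Q4 p} (ha : Fr W a) (n : ℕ) : Fr W (qp a n) := by
  obtain ⟨g, hg, rfl⟩ := ha
  exact ⟨_, pow_mem hg n, tq_pow g n⟩

theorem Fr.ev {a b : Q4 p} (ha : Fr W a) (hb : Fr W b) (l : List Bool) : Fr W (ev a b l) := by
  induction l with
  | nil => exact ⟨1, one_mem _, tq_one⟩
  | cons x l ih => cases x; exacts [ha.mul ih, hb.mul ih]

theorem Fr.mem {g : G2 p} (h : Fr W (tq g)) : g ∈ W := by
  obtain ⟨g', hg, e⟩ := h
  exact tq_inj e ▸ hg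

theorem ncard_Fr : {q | Fr W q}.ncard = Nat.card W := by
  rw [show {q | Fr W q} = tq '' (W : Set (G2 p)) from rfl, Set.ncard_image_of_injective _ tq_inj]
  rfl

theorem ncard_list {L : List (Q4 p)} (n : L.Nodup) : {q | q ∈ L}.ncard = L.length := by
  rw [← List.toFinset_card_of_nodup n, ← Set.ncard_coe_finset, List.coe_toFinset]

variable [Fact p.Prime]

theorem le_card {L : List (Q4 p)} (n : L.Nodup) (h : ∀ q ∈ L, Fr W q) : L.length ≤ Nat.card W := by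
  rw [← ncard_Fr, ← ncard_list n]
  exact Set.ncard_le_ncard h

theorem card_le {L : List (Q4 p)} (n : L.Nodup) (h : ∀ q, Fr W q → q ∈ L) : Nat.card W ≤ L.length := by
  rw [← ncard_Fr, ← ncard_list n]
  exact Set.ncard_le_ncard h

theorem fr_iff {L : List (Q4 p)} (n : L.Nodup) (h : ∀ q ∈ L, Fr W q) (c : Nat.card W ≤ L.length) (q : Q4 p) :
    Fr W q ↔ q ∈ L := by
  have : {q | q ∈ L} = {q | Fr W q} := Set.eq_of_subset_of_ncard_le h (by rwa [ncard_Fr, ncard_list n])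
  exact (Set.ext_iff.1 this q).symm

theorem fr_iff' {L : List (Q4 p)} (n : L.Nodup) (h : ∀ q, Fr W q → q ∈ L) (c : L.length ≤ Nat.card W) (q : Q4 p) :
    Fr W q ↔ q ∈ L := by
  have : {q | Fr W q} = {q | q ∈ L} := Set.eq_of_subset_of_ncard_le h (by rwa [ncard_Fr, ncard_list n])
  exact Set.ext_iff.1 this q

theorem mem_iff (h : ∀ q, Fr W q ↔ Fr W' q) (g : G2 p) : g ∈ W ↔ g ∈ W' :=
  ⟨fun hg => ((h _).1 ⟨g, hg, rfl⟩).mem, fun hg => ((h _).2 ⟨g, hg, rfl⟩).mem⟩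

theorem Fr.bad (h : Good W E) {a : Q4 p} (ha : Fr W a) (e : qp a p = q1) : a = q1 := by
  obtain ⟨g, hg, rfl⟩ := ha
  rw [← tq_pow, ← tq_one] at e
  rcases (Nat.dvd_prime Fact.out).1 (orderOf_dvd_of_pow_eq_one (tq_inj e)) with d | d
  · rw [orderOf_eq_one_iff.1 d, tq_one]
  · exact (h.pp (d.symm.dvd.trans (Subgroup.orderOf_dvd_natCard W hg))).elim

/-- a matrix with given entries -/
theorem exists_g {a b c d : ZMod p} (n : a * d - b * c ≠ 0) :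
    ∃ k : G2 p, k 0 0 = a ∧ k 0 1 = b ∧ k 1 0 = c ∧ k 1 1 = d :=
  ⟨GeneralLinearGroup.mkOfDetNeZero !![a, b; c, d] (by rwa [det_fin_two_of]), rfl, rfl, rfl, rfl⟩

theorem step1 (h3 : Three E) (W : Subgroup (G2 p)) : ∃ W' E', Eqv W' E' W E ∧ ![1, 0] ∈ E' ∧ ![0, 1] ∈ E' ∧
    ∃ w ∈ E', w 0 ≠ 0 ∧ w 1 ≠ 0 := by
  obtain ⟨u, hu, v, hv, w, hw, a, b, c⟩ := h3
  obtain ⟨k, e1, e2, e3, e4⟩ := exists_g (a := u 0) (b := v 0) (c := u 1) (d := v 1)
    (by rwa [mul_comm (v 0)])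
  have eu : mv k ![1, 0] = u := vc_ext (by simp [mv_zero', e1]) (by simp [mv_one', e3])
  have ev : mv k ![0, 1] = v := vc_ext (by simp [mv_zero', e2]) (by simp [mv_one', e4])
  obtain ⟨W', E', q, -, m⟩ := exists_eqv W E k
  refine ⟨W', E', q, by rwa [m, eu], by rwa [m, ev], mv k⁻¹ w, by rwa [m, mv_mv_inv], fun e => c ?_, fun e => b ?_⟩
  · rw [← ev, ← mv_mv_inv k w, om_mv, om, e]; simp
  · rw [← eu, ← mv_mv_inv k w, om_mv, om, e]; simp

theorem step2 (h : Good W E) {x : ZMod p} (hx : 2 * x = 1) (h7 : 4 - x ≠ 0) (h0 : ![1, 0] ∈ E) (h1 : ![0, 1] ∈ E)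
    {w : Vc p} (hw : w ∈ E) (w0 : w 0 ≠ 0) (w1 : w 1 ≠ 0) :
    ∃ W' E', Eqv W' E' W E ∧ ![1, 0] ∈ E' ∧ ![1, 1] ∈ E' ∧ Fr W' (x, 0, 0, 4) := by
  have h2 : (2 : ZMod p) ≠ 0 := left_ne_zero_of_mul_eq_one hx
  obtain ⟨t, ht, e1, e2⟩ := h.tor _ h0 2 h2
  have a := congrFun e1 0
  have b := congrFun e1 1
  simp [mv_zero', mv_one', h2] at a b
  have t0 : t 0 0 = x := by linear_combination x * a - t 0 0 * hx
  have t1 : t 1 1 = 4 := by
    rw [dt, b, t0] at e2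
    linear_combination 2 * e2 - t 1 1 * hx
  obtain ⟨γ, hγ⟩ : ∃ γ, x * γ + t 0 1 = 4 * γ := ⟨t 0 1 / (4 - x), by field_simp; ring⟩
  obtain ⟨y, hy, y1, y0⟩ : ∃ y ∈ E, y 1 ≠ 0 ∧ y 0 - γ * y 1 ≠ 0 := by
    by_cases e : γ = 0
    · exact ⟨w, hw, w1, by simpa [e] using w0⟩
    · exact ⟨_, h1, by simp, by simpa using e⟩
  obtain ⟨k, k1, k2, k3, k4⟩ := exists_g (a := y 0 - γ * y 1) (b := γ * y 1) (c := 0) (d := y 1)
    (by simpa using ⟨y0, y1⟩)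
  obtain ⟨d, d1, d2, d3, d4⟩ := exists_g (a := x) (b := 0) (c := 0) (d := 4) (by
    have : x * 4 - 0 * 0 = 2 := by linear_combination 2 * hx
    rwa [this])
  obtain ⟨W', E', q, n, m⟩ := exists_eqv W E k
  refine ⟨W', E', q, ?_, ?_, d, ?_, by rw [tq, d1, d2, d3, d4]⟩
  · rw [m, show mv k ![1, 0] = (y 0 - γ * y 1) • ![1, 0] from
      vc_ext (by simp [mv_zero', k1]) (by simp [mv_one', k3])]
    exact h.smul _ h0 _ y0
  · rwa [m, show mv k ![1, 1] = y from vc_ext (by simp [mv_zero', k1, k2]) (by simp [mv_one', k3, k4])]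
  · rw [n, show k * d = t * k from g2_ext ?_ ?_ ?_ ?_, mul_inv_cancel_right]
    · exact ht
    all_goals simp only [g2_mul, k1, k2, k3, k4, d1, d2, d3, d4, t0, t1, b]
    · ring
    · linear_combination (-y 1) * hγ
    · ring
    · ring

/-- the normal form -/
theorem nf (h : Good W E) (h3 : Three E) {x : ZMod p} (hx : 2 * x = 1) (h7 : 4 - x ≠ 0) :
    ∃ W' E', Eqv W' E' W E ∧ Good W' E' ∧ ![1, 0] ∈ E' ∧ ![1, 1] ∈ E' ∧ Fr W' (x, 0, 0, 4) ∧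
      ∃ a, Fr W' (a, x - a, a - 4, x - a + 4) := by
  obtain ⟨W1, E1, q1, a, b, w, hw, w0, w1⟩ := step1 h3 W
  obtain ⟨W2, E2, q2, c, d, e⟩ := step2 (good q1 h) hx h7 a b hw w0 w1
  have g := good (trans q2 q1) h
  refine ⟨W2, E2, trans q2 q1, g, c, d, e, ?_⟩
  obtain ⟨s, hs, e1, e2⟩ := g.tor _ d 2 (left_ne_zero_of_mul_eq_one hx)
  have a := congrFun e1 0
  have b := congrFun e1 1
  simp [mv_zero', mv_one'] at a b
  have s1 : s 0 1 = x - s 0 0 := by linear_combination x * a - (s 0 0 + s 0 1) * hx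
  have s3 : s 1 1 = x - s 1 0 := by linear_combination x * b - (s 1 0 + s 1 1) * hx
  have s2 : s 1 0 = s 0 0 - 4 := by
    rw [dt, s1, s3] at e2
    linear_combination (-2) * e2 + (s 0 0 - s 1 0) * hx
  exact ⟨s 0 0, s, hs, by rw [tq, s1, s3, s2]; congr 3; ring⟩

theorem mv_tq (g : G2 p) (v : Vc p) : mv g v = ![(tq g).1 * v 0 + (tq g).2.1 * v 1,
    (tq g).2.2.1 * v 0 + (tq g).2.2.2 * v 1] := vc_ext (mv_zero' g v) (mv_one' g v)

end Cfsg.Agent.RV.Cj
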