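import Cfsg.Agent.H91.Maps

/-! Fusion systems on the extraspecial group of order `p ^ 3` and exponent `p`: coordinates. -/

set_option autoImplicit false

namespace Cfsg.Agent.RV

open Matrix Subgroup Cfsg.Agent.H91

/-- the plane -/
abbrev Vc (p : ℕ) : Type := Fin 2 → ZMod p

/-- its linear group -/
abbrev G2 (p : ℕ) : Type := GL (Fin 2) (ZMod p)

variable {p : ℕ}

/-- the alternating form -/
def om (v w : Vc p) : ZMod p := v 0 * w 1 - v 1 * w 0

/-- matrix times vector -/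
def mv (g : G2 p) (v : Vc p) : Vc p := (g : Matrix (Fin 2) (Fin 2) (ZMod p)) *ᵥ v

/-- the determinant -/
def dt (g : G2 p) : ZMod p := g 0 0 * g 1 1 - g 0 1 * g 1 0

theorem mv_zero' (g : G2 p) (v : Vc p) : mv g v 0 = g 0 0 * v 0 + g 0 1 * v 1 := by
  simp [mv, mulVec, dotProduct]

theorem mv_one' (g : G2 p) (v : Vc p) : mv g v 1 = g 1 0 * v 0 + g 1 1 * v 1 := by
  simp [mv, mulVec, dotProduct]

theorem vc_ext {v w : Vc p} (h0 : v 0 = w 0) (h1 : v 1 = w 1) : v = w := by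
  ext i; fin_cases i
  · exact h0
  · exact h1

theorem g2_ext {g h : G2 p} (a : g 0 0 = h 0 0) (b : g 0 1 = h 0 1) (c : g 1 0 = h 1 0)
    (d : g 1 1 = h 1 1) : g = h := by
  ext i j; fin_cases i <;> fin_cases j
  · exact a
  · exact b
  · exact c
  · exact d

theorem g2_mul (g h : G2 p) (i j : Fin 2) : (g * h) i j = g i 0 * h 0 j + g i 1 * h 1 j := by
  simp [Matrix.mul_apply]

theorem dt_eq (g : G2 p) : dt g = (g : Matrix (Fin 2) (Fin 2) (ZMod p)).det := by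
  rw [det_fin_two]; rfl

theorem dt_mul (g h : G2 p) : dt (g * h) = dt g * dt h := by
  simp only [dt_eq, Units.val_mul, det_mul]

theorem dt_one : dt (1 : G2 p) = 1 := by simp [dt_eq]

theorem dt_mul_inv (g : G2 p) : dt g * dt g⁻¹ = 1 := by rw [← dt_mul, mul_inv_cancel, dt_one]

theorem mv_mul (g h : G2 p) (v : Vc p) : mv (g * h) v = mv g (mv h v) := by
  simp only [mv, Units.val_mul, mulVec_mulVec]

theorem mv_one (v : Vc p) : mv (1 : G2 p) v = v := by simp [mv]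

theorem mv_inv_mv (g : G2 p) (v : Vc p) : mv g⁻¹ (mv g v) = v := by
  rw [← mv_mul, inv_mul_cancel, mv_one]

theorem mv_mv_inv (g : G2 p) (v : Vc p) : mv g (mv g⁻¹ v) = v := by
  rw [← mv_mul, mul_inv_cancel, mv_one]

theorem mv_add (g : G2 p) (v w : Vc p) : mv g (v + w) = mv g v + mv g w := mulVec_add _ _ _

theorem mv_smul (g : G2 p) (a : ZMod p) (v : Vc p) : mv g (a • v) = a • mv g v :=
  mulVec_smul _ _ _

theorem mv_zero (g : G2 p) : mv g 0 = 0 := mulVec_zero _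

theorem mv_eq_zero {g : G2 p} {v : Vc p} : mv g v = 0 ↔ v = 0 :=
  ⟨fun h => by rw [← mv_inv_mv g v, h, mv_zero], fun h => by rw [h, mv_zero]⟩

theorem om_mv (g : G2 p) (v w : Vc p) : om (mv g v) (mv g w) = dt g * om v w := by
  simp only [om, dt, mv_zero', mv_one']; ring

/-- the Heisenberg group -/
structure Hz (p : ℕ) where
  /-- image in the plane -/
  v : Vc p
  /-- central coordinate -/
  c : ZMod p

theorem Hz.ext' {x y : Hz p} (h : x.v = y.v) (h' : x.c = y.c) : x = y := by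
  cases x; cases y; simp_all

instance Hz.instGroup : Group (Hz p) where
  mul x y := ⟨x.v + y.v, x.c + y.c + om x.v y.v⟩
  one := ⟨0, 0⟩
  inv x := ⟨-x.v, -x.c⟩
  mul_assoc x y z := Hz.ext' (add_assoc _ _ _) (by
    show x.c + y.c + om x.v y.v + z.c + om (x.v + y.v) z.v =
      x.c + (y.c + z.c + om y.v z.v) + om x.v (y.v + z.v)
    simp only [om, Pi.add_apply]; ring)
  one_mul x := Hz.ext' (zero_add _) (by show 0 + x.c + om 0 x.v = x.c; simp [om])
  mul_one x := Hz.ext' (add_zero _) (by show x.c + 0 + om x.v 0 = x.c; simp [om])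
  inv_mul_cancel x := Hz.ext' (neg_add_cancel _) (by
    show -x.c + x.c + om (-x.v) x.v = 0
    simp only [om, Pi.neg_apply]; ring)

theorem mul_v (x y : Hz p) : (x * y).v = x.v + y.v := rfl
theorem mul_c (x y : Hz p) : (x * y).c = x.c + y.c + om x.v y.v := rfl
theorem inv_v (x : Hz p) : x⁻¹.v = -x.v := rfl
theorem inv_c (x : Hz p) : x⁻¹.c = -x.c := rfl
theorem one_v : (1 : Hz p).v = 0 := rfl
theorem one_c : (1 : Hz p).c = 0 := rfl

theorem conj_v (g x : Hz p) : (g * x * g⁻¹).v = x.v := by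
  simp only [mul_v, inv_v]; abel

theorem conj_c (g x : Hz p) : (g * x * g⁻¹).c = x.c + 2 * om g.v x.v := by
  simp only [mul_v, mul_c, inv_v, inv_c, om, Pi.add_apply, Pi.neg_apply]; ring

theorem pow_eq (x : Hz p) (n : ℕ) : x ^ n = ⟨(n : ZMod p) • x.v, n * x.c⟩ := by
  induction n with
  | zero => exact Hz.ext' (by simp [one_v]) (by simp [one_c])
  | succ n ih =>
    rw [pow_succ, ih]
    refine Hz.ext' ?_ ?_
    · simp [mul_v, add_smul]
    · simp only [mul_c, om, Pi.smul_apply, smul_eq_mul]; push_cast; ring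

theorem pow_p (x : Hz p) : x ^ p = 1 := by
  rw [pow_eq]; exact Hz.ext' (by simp [one_v]) (by simp [one_c])

/-- coordinates -/
def Hz.equivProd : Hz p ≃ Vc p × ZMod p := ⟨fun x => (x.v, x.c), fun y => ⟨y.1, y.2⟩,
  fun _ => rfl, fun _ => rfl⟩

theorem card_Hz : Nat.card (Hz p) = p ^ 3 := by
  rw [Nat.card_congr Hz.equivProd, Nat.card_prod, Nat.card_fun, Nat.card_zmod]; simp [pow_succ]

instance Hz.instFinite [NeZero p] : Finite (Hz p) := Finite.of_equiv _ Hz.equivProd.symm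

/-- the action of the linear group -/
def act (g : G2 p) (x : Hz p) : Hz p := ⟨mv g x.v, dt g * x.c⟩

theorem act_v (g : G2 p) (x : Hz p) : (act g x).v = mv g x.v := rfl
theorem act_c (g : G2 p) (x : Hz p) : (act g x).c = dt g * x.c := rfl

theorem act_mul (g h : G2 p) (x : Hz p) : act (g * h) x = act g (act h x) :=
  Hz.ext' (mv_mul _ _ _) (by simp only [act_c, dt_mul, mul_assoc])

theorem act_one (x : Hz p) : act 1 x = x := Hz.ext' (mv_one _) (by simp [act_c, dt_one])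

theorem act_map_mul (g : G2 p) (x y : Hz p) : act g (x * y) = act g x * act g y :=
  Hz.ext' (mv_add _ _ _) (by simp only [act_c, mul_c, act_v, om_mv]; ring)

/-- the action by automorphisms -/
def actA (g : G2 p) : Hz p ≃* Hz p where
  toFun := act g
  invFun := act g⁻¹
  left_inv x := by rw [← act_mul, inv_mul_cancel, act_one]
  right_inv x := by rw [← act_mul, mul_inv_cancel, act_one]
  map_mul' := act_map_mul g

theorem actA_apply (g : G2 p) (x : Hz p) : actA g x = act g x := rfl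

/-- the linear maps induced by a fusion system -/
def WF (F : FusionSystem (⊤ : Subgroup (Hz p))) : Subgroup (G2 p) where
  carrier := {g | M F ⊤ (act g)}
  one_mem' := (M.id F le_rfl).congr fun x _ => (act_one x).symm
  mul_mem' {a b} ha hb := (M.comp ha hb fun _ _ => mem_top _).congr fun x _ => (act_mul a b x).symm
  inv_mem' {a} ha := by
    have := M.of_left_inv (g := act a⁻¹) ha fun x _ => (actA a).left_inv x
    rwa [show im (act a) ⊤ = ⊤ from eq_top_iff.2 fun y _ => by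
      rw [← (actA a).right_inv y]; exact mem_im_of_mem _ (mem_top _)] at this

/-- the directions that are fused into the centre -/
def EF (F : FusionSystem (⊤ : Subgroup (Hz p))) : Set (Vc p) :=
  {v | v ≠ 0 ∧ ∃ c d, F.IsConjElt ⟨v, c⟩ ⟨0, d⟩}

/-- the linear maps induced by a group -/
def WG {G : Type*} [Group G] (ι : Hz p →* G) : Subgroup (G2 p) where
  carrier := {g | ∃ n : G, ∀ x, n * ι x * n⁻¹ = ι (act g x)}
  one_mem' := ⟨1, fun x => by simp [act_one]⟩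
  mul_mem' := by
    rintro a b ⟨n, hn⟩ ⟨m, hm⟩
    exact ⟨n * m, fun x => by rw [act_mul, ← hn, ← hm]; group⟩
  inv_mem' := by
    rintro a ⟨n, hn⟩
    exact ⟨n⁻¹, fun x => by
      conv_lhs => rw [← (actA a).right_inv x]
      show n⁻¹ * ι (act a (act a⁻¹ x)) * n⁻¹⁻¹ = _
      rw [← hn]; group⟩

theorem mem_WG {G : Type*} [Group G] {ι : Hz p →* G} {g : G2 p} :
    g ∈ WG ι ↔ ∃ n : G, ∀ x, n * ι x * n⁻¹ = ι (act g x) := Iff.rfl

/-- the directions that a group fuses into the centre -/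
def EG {G : Type*} [Group G] (ι : Hz p →* G) : Set (Vc p) :=
  {v | v ≠ 0 ∧ ∃ c d, IsConj (ι ⟨v, c⟩) (ι ⟨0, d⟩)}

/-- the image is a Sylow subgroup -/
def Syl {G : Type*} [Group G] (ι : Hz p →* G) : Prop :=
  Function.Injective ι ∧ ¬ p ^ 4 ∣ Nat.card G

/-- the properties of the pair attached to a saturated system -/
structure Good (W : Subgroup (G2 p)) (E : Set (Vc p)) : Prop where
  pp : ¬ p ∣ Nat.card W
  ne : ∀ v ∈ E, v ≠ 0
  smul : ∀ v ∈ E, ∀ a : ZMod p, a ≠ 0 → a • v ∈ E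
  inv : ∀ g ∈ W, ∀ v ∈ E, mv g v ∈ E
  tor : ∀ v ∈ E, ∀ a : ZMod p, a ≠ 0 → ∃ g ∈ W, a • mv g v = v ∧ dt g = a

/-- at least two lines -/
def Two (E : Set (Vc p)) : Prop := ∃ u ∈ E, ∃ v ∈ E, om u v ≠ 0

/-- at least three lines -/
def Three (E : Set (Vc p)) : Prop :=
  ∃ u ∈ E, ∃ v ∈ E, ∃ w ∈ E, om u v ≠ 0 ∧ om u w ≠ 0 ∧ om v w ≠ 0

/-- conjugate pairs -/
def Eqv (W : Subgroup (G2 p)) (E : Set (Vc p)) (W' : Subgroup (G2 p)) (E' : Set (Vc p)) : Prop :=
  ∃ h : G2 p, (∀ g, g ∈ W ↔ h * g * h⁻¹ ∈ W') ∧ ∀ v, v ∈ E ↔ mv h v ∈ E'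

/-- the two axes -/
def Ax (v : Vc p) : Prop := v ≠ 0 ∧ (v 0 = 0 ∨ v 1 = 0)

/-- the four monomial groups -/
def P2 (sw full : Prop) (g : G2 p) : Prop :=
  (g 0 1 = 0 ∧ g 1 0 = 0 ∧ (full ∨ ∃ m, g 0 0 = m ^ 3 * g 1 1)) ∨
    (sw ∧ g 0 0 = 0 ∧ g 1 1 = 0 ∧ (full ∨ ∃ m, g 0 1 = m ^ 3 * g 1 0))

/-- a Heisenberg subgroup with three directions fused into its centre -/
def Tri (p : ℕ) {G : Type*} [Group G] (a b z : G) : Prop :=
  a ^ p = 1 ∧ b ^ p = 1 ∧ z ^ p = 1 ∧ z ≠ 1 ∧ a * b = b * a * z ∧ a * z = z * a ∧ b * z = z * b ∧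
    (∃ i : ℕ, IsConj a (z ^ i)) ∧ (∃ i : ℕ, IsConj b (z ^ i)) ∧
    ∃ i j k l : ℕ, ¬ p ∣ i ∧ ¬ p ∣ j ∧ IsConj (a ^ i * b ^ j * z ^ k) (z ^ l)

/-- local data: an involution `t` and an element `x` of order `p` with `C(t, x) = ⟨x⟩ × SL₂(3)` -/
structure LH (p : ℕ) {G : Type*} [Group G] (t x a b r d : G) : Prop where
  p3 : p ^ 3 ∣ Nat.card G
  p4 : ¬ p ^ 4 ∣ Nat.card G
  pt : ¬ p ^ 2 ∣ Nat.card (centralizer ({t} : Set G))
  t1 : t ≠ 1
  tt : t * t = 1
  xp : x ^ p = 1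
  x1 : x ≠ 1
  aa : a * a = t
  bb : b * b = t
  ra : r * a * r⁻¹ = b
  rb : r * b * r⁻¹ = a * b
  r3 : r ^ 3 = 1
  xa : x * a = a * x
  xb : x * b = b * x
  xr : x * r = r * x
  dx : d * x * d⁻¹ = x⁻¹
  da : d * a = a * d
  db : d * b = b * d
  dd : d * d = t
  card : Nat.card (centralizer ({t, x} : Set G)) ≤ 24 * p
  fus : ∀ j : G, j * j = 1 → j * x * j⁻¹ = x⁻¹ → IsConj j t

end Cfsg.Agent.RV
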