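import Cfsg.Agent.RV.Defs

/-! The normal Sylow subgroup of the centraliser of `x`. -/

set_option autoImplicit false

namespace Cfsg.Agent.RV

open Subgroup

/-- `S` is the normal Sylow `p`-subgroup of `C(x)`, `t` inverts `S / ⟨x⟩` -/
structure LS (p : ℕ) {G : Type*} [Group G] (t x : G) (S : Subgroup G) : Prop where
  card : Nat.card S = p ^ 3
  xS : x ∈ S
  cen : ∀ s ∈ S, s * x = x * s
  nm : ∀ g : G, g * x * g⁻¹ ∈ zpowers x → ∀ s ∈ S, g * s * g⁻¹ ∈ S
  ex : ∀ s ∈ S, s ^ p = 1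
  inv : ∀ s ∈ S, t * s * t⁻¹ * s ∈ zpowers x
  cm : ∀ s ∈ S, ∀ s' ∈ S, s * s' * s⁻¹ * s'⁻¹ ∈ zpowers x
  uniq : ∀ y : G, y * x = x * y → y ^ p = 1 → y ∈ S

variable {p : ℕ} {G : Type*} [Group G] {t x a b r d : G}

theorem LH.rt (h : LH p t x a b r d) : r * t * r⁻¹ = t := by
  conv_lhs => rw [← h.aa, ← conj_mul, h.ra, h.bb]

theorem LH.abab (h : LH p t x a b r d) : a * b * (a * b) = t := by
  rw [← h.rb, conj_mul, h.bb, h.rt]

theorem LH.bab (h : LH p t x a b r d) : b * (a * b) = a :=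
  mul_left_cancel (a := a) (by rw [← mul_assoc, h.abab, h.aa])

theorem LH.ta (h : LH p t x a b r d) : a * t = t * a := by rw [← h.aa, mul_assoc]

theorem LH.tb (h : LH p t x a b r d) : b * t = t * b := by rw [← h.bb, mul_assoc]

theorem LH.td (h : LH p t x a b r d) : d * t = t * d := by rw [← h.dd, mul_assoc]

theorem LH.tr (h : LH p t x a b r d) : r * t = t * r := mul_inv_eq_iff_eq_mul.1 h.rt

theorem LH.tx (h : LH p t x a b r d) : x * t = t * x := by
  rw [← h.aa, ← mul_assoc, h.xa, mul_assoc, h.xa, mul_assoc]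

theorem LH.inv_a (h : LH p t x a b r d) : a⁻¹ = a * t :=
  inv_eq_of_mul_eq_one_right (by rw [← mul_assoc, h.aa, h.tt])

theorem LH.inv_b (h : LH p t x a b r d) : b⁻¹ = b * t :=
  inv_eq_of_mul_eq_one_right (by rw [← mul_assoc, h.bb, h.tt])

/-- `b a = a b t` -/
theorem LH.ba (h : LH p t x a b r d) : b * a = a * b * t := by
  rw [mul_assoc, ← h.inv_b, eq_mul_inv_iff_mul_eq, mul_assoc, h.bab]

/-- the symmetry of order three -/
theorem LH.rot (h : LH p t x a b r d) : LH p t x b (a * b) r d :=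
  { h with
    aa := h.bb
    bb := h.abab
    ra := h.rb
    rb := by rw [← conj_mul, h.ra, h.rb]
    xa := h.xb
    xb := by rw [← mul_assoc, h.xa, mul_assoc, h.xb, mul_assoc]
    da := h.db
    db := by rw [← mul_assoc, h.da, mul_assoc, h.db, mul_assoc] }

/-- `d a` is an involution inverting `x` -/
theorem LH.j_sq (h : LH p t x a b r d) : d * a * (d * a) = 1 := by
  rw [mul_assoc, ← mul_assoc a, ← h.da, mul_assoc, h.aa, ← mul_assoc, h.dd, h.tt]

theorem LH.j_inv (h : LH p t x a b r d) : d * a * x * (d * a)⁻¹ = x⁻¹ := by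
  rw [← h.dx, mul_assoc d a, ← h.xa]; group

end Cfsg.Agent.RV
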