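import Cfsg.Agent.RV.Hom
import Cfsg.Agent.H91.Normal

/-! Saturated fusion systems on the Heisenberg group: the maps on `S` and on the planes. -/

set_option autoImplicit false

namespace Cfsg.Agent.RV

open Matrix Subgroup Cfsg.Agent.H91 Cfsg.FusionSystem

variable {p : ℕ} [hp : Fact p.Prime] {F : FusionSystem (⊤ : Subgroup (Hz p))}

theorem pgrp : IsPGroup p (⊤ : Subgroup (Hz p)) := fun g => ⟨1, Subtype.ext (by
  rw [pow_one]; exact pow_p g.1)⟩

theorem comm_iff (h2 : p ≠ 2) {x y : Hz p} : x * y = y * x ↔ om x.v y.v = 0 := by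
  have t := two_ne h2
  refine ⟨fun h => ?_, fun h => Hz.ext' (add_comm _ _) ?_⟩
  · have := congrArg Hz.c h
    simp only [mul_c, om] at this ⊢
    apply mul_left_cancel₀ t; linear_combination this
  · simp only [mul_c, om] at h ⊢; linear_combination 2 * h

theorem ne_zero_iff {v : Vc p} : v ≠ 0 ↔ v 0 ≠ 0 ∨ v 1 ≠ 0 := by
  rw [← not_and_or]
  exact not_congr ⟨fun h => by simp [h], fun h => vc_ext h.1 h.2⟩

theorem exists_smul {v w : Vc p} (hv : v ≠ 0) (h : om v w = 0) : ∃ s : ZMod p, w = s • v := by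
  rw [om] at h
  rcases ne_zero_iff.1 hv with e | e
  · exact ⟨w 0 / v 0, vc_ext (by simp [e]) (by simp; field_simp; linear_combination h)⟩
  · exact ⟨w 1 / v 1, vc_ext (by simp; field_simp; linear_combination -h) (by simp [e])⟩

theorem exists_om {v : Vc p} (hv : v ≠ 0) (k : ZMod p) : ∃ w : Vc p, om w v = k := by
  rcases ne_zero_iff.1 hv with e | e
  · exact ⟨![0, -(k / v 0)], by simp [om, e]⟩
  · exact ⟨![k / v 1, 0], by simp [om, e]⟩

theorem smul_inj {v : Vc p} (hv : v ≠ 0) {s t : ZMod p} (h : s • v = t • v) : s = t :=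
  smul_left_injective _ hv h

/-- the plane over a line -/
def Ln (v : Vc p) : Subgroup (Hz p) where
  carrier := {x | om v x.v = 0}
  one_mem' := by simp [one_v, om]
  mul_mem' {a b} ha hb := by
    simp only [Set.mem_ofPred_eq, mul_v, om, Pi.add_apply] at ha hb ⊢; linear_combination ha + hb
  inv_mem' {a} ha := by
    simp only [Set.mem_ofPred_eq, inv_v, om, Pi.neg_apply] at ha ⊢; linear_combination -ha

theorem mem_Ln {v : Vc p} {x : Hz p} : x ∈ Ln v ↔ om v x.v = 0 := Iff.rfl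

theorem el_mem (v : Vc p) (s c : ZMod p) : (⟨s • v, c⟩ : Hz p) ∈ Ln v := by
  simp [mem_Ln, om]; ring

theorem exists_el {v : Vc p} (hv : v ≠ 0) {x : Hz p} (hx : x ∈ Ln v) :
    ∃ s c : ZMod p, x = ⟨s • v, c⟩ :=
  let ⟨s, hs⟩ := exists_smul hv hx; ⟨s, x.c, Hz.ext' hs rfl⟩

theorem Ln_norm (v : Vc p) : (⊤ : Subgroup (Hz p)) ≤ normalizer (Ln v : Set (Hz p)) := fun g _ =>
  mem_normalizer_iff.2 fun x => by rw [mem_Ln, mem_Ln, conj_v]

theorem Ln_eq {v w : Vc p} (hv : v ≠ 0) (hw : w ≠ 0) (h : om v w = 0) : Ln v = Ln w := by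
  obtain ⟨s, rfl⟩ := exists_smul hv h
  have hs : s ≠ 0 := fun e => hw (by simp [e])
  ext x
  have : om (s • v) x.v = s * om v x.v := by simp [om]; ring
  simp [mem_Ln, this, hs]

theorem el_pow (v : Vc p) (s c : ZMod p) :
    (⟨s • v, c⟩ : Hz p) = ⟨(1 : ZMod p) • v, 0⟩ ^ s.val * ⟨(0 : ZMod p) • v, 1⟩ ^ c.val :=
  Hz.ext' (by simp [pow_eq, mul_v]) (by simp [pow_eq, mul_c, om])

/-- `f` acts on the plane over `v` by a matrix -/
def Lin (v : Vc p) (f : Hz p → Hz p) (a b c d : ZMod p) : Prop :=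
  ∀ s t : ZMod p, f ⟨s • v, t⟩ = ⟨(a * s + b * t) • v, c * s + d * t⟩

theorem exists_lin {v : Vc p} (hv : v ≠ 0) {f : Hz p → Hz p} (hf : HomOn (Ln v) f)
    (hm : ∀ x ∈ Ln v, f x ∈ Ln v) : ∃ a b c d, Lin v f a b c d := by
  obtain ⟨a, c, e1⟩ := exists_el hv (hm _ (el_mem v 1 0))
  obtain ⟨b, d, e2⟩ := exists_el hv (hm _ (el_mem v 0 1))
  refine ⟨a, b, c, d, fun s t => ?_⟩
  rw [el_pow, hf.map_mul (pow_mem (el_mem _ _ _) _) (pow_mem (el_mem _ _ _) _),
    hf.map_pow (el_mem _ _ _), hf.map_pow (el_mem _ _ _), e1, e2]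
  refine Hz.ext' (vc_ext ?_ ?_) ?_ <;> simp [pow_eq, mul_v, mul_c, om] <;> ring

/-- the matrix belongs to a map of the system -/
def In (F : FusionSystem (⊤ : Subgroup (Hz p))) (v : Vc p) (a b c d : ZMod p) : Prop :=
  ∃ f, M F (Ln v) f ∧ Lin v f a b c d

theorem Lin.mem {v : Vc p} (hv : v ≠ 0) {f : Hz p → Hz p} {a b c d : ZMod p} (h : Lin v f a b c d)
    (x : Hz p) (hx : x ∈ Ln v) : f x ∈ Ln v := by
  obtain ⟨s, t, rfl⟩ := exists_el hv hx
  rw [h]; exact el_mem _ _ _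

theorem In.toM {v : Vc p} (hv : v ≠ 0) {f : Hz p → Hz p} {a b c d : ZMod p} (h : In F v a b c d)
    (h' : Lin v f a b c d) : M F (Ln v) f := by
  obtain ⟨g, hg, e⟩ := h
  refine hg.congr fun x hx => ?_
  obtain ⟨s, t, rfl⟩ := exists_el hv hx
  rw [e, h']

theorem In.mul {v : Vc p} (hv : v ≠ 0) {a b c d a' b' c' d' a'' b'' c'' d'' : ZMod p}
    (h : In F v a b c d) (h' : In F v a' b' c' d') (e1 : a'' = a * a' + b * c')
    (e2 : b'' = a * b' + b * d') (e3 : c'' = c * a' + d * c') (e4 : d'' = c * b' + d * d') :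
    In F v a'' b'' c'' d'' := by
  obtain ⟨f, hf, e⟩ := h
  obtain ⟨g, hg, e'⟩ := h'
  refine ⟨_, hf.comp hg (e'.mem hv), fun s t => ?_⟩
  show f (g _) = _
  rw [e', e, e1, e2, e3, e4]
  congr 1
  · congr 1; ring
  · ring

theorem in_low (h2 : p ≠ 2) {v : Vc p} (hv : v ≠ 0) (k : ZMod p) : In F v 1 0 k 1 := by
  have t := two_ne h2
  obtain ⟨w, hw⟩ := exists_om hv (k / 2)
  refine ⟨_, M.conj F le_top (mem_top (⟨w, 0⟩ : Hz p)), fun s t => Hz.ext' ?_ ?_⟩
  · simp [conj_v]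
  · have : om w (s • v) = s * om w v := by simp [om]; ring
    rw [conj_c]; simp only [this, hw]; field_simp; ring

theorem In.inv {v : Vc p} (hv : v ≠ 0) {a b c d : ZMod p} (h : In F v a b c d) :
    ∃ a' b' c' d', In F v a' b' c' d' ∧ a * a' + b * c' = 1 ∧ a * b' + b * d' = 0 ∧
      c * a' + d * c' = 0 ∧ c * b' + d * d' = 1 := by
  obtain ⟨f, hf, e⟩ := h
  obtain ⟨g, hg, -, -, h1, h2⟩ := hf.exists_inv' (hf.im_eq_self (e.mem hv))
  obtain ⟨a', b', c', d', e'⟩ := exists_lin hv hg.homOn h1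
  have k1 := h2 _ (el_mem v 1 0)
  have k2 := h2 _ (el_mem v 0 1)
  rw [e', e] at k1 k2
  have k3 := smul_inj hv (congrArg Hz.v k1)
  have k4 := smul_inj hv (congrArg Hz.v k2)
  have k5 := congrArg Hz.c k1
  have k6 := congrArg Hz.c k2
  simp only at k5 k6
  exact ⟨a', b', c', d', ⟨g, hg, e'⟩, by linear_combination k3, by linear_combination k4,
    by linear_combination k5, by linear_combination k6⟩

/-- some map of the system on the plane over `v` moves the centre -/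
def Mv (F : FusionSystem (⊤ : Subgroup (Hz p))) (v : Vc p) : Prop :=
  ∃ a b c d, In F v a b c d ∧ b ≠ 0

theorem Mv.up (h2 : p ≠ 2) {v : Vc p} (hv : v ≠ 0) (h : Mv F v) (n : ZMod p) : In F v 1 n 0 1 := by
  obtain ⟨a, b, c, d, h, hb⟩ := h
  have h1 : In F v a b (c - d / b * a) 0 :=
    (in_low h2 hv (-(d / b))).mul hv h (by ring) (by ring) (by ring) (by field_simp; ring)
  generalize c - d / b * a = c at h1
  obtain ⟨a', b', c', d', h3, e1, e2, e3, e4⟩ := h1.inv hv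
  have hc : c ≠ 0 := fun e => by simp [e] at e4
  have ha : a' = 0 := by simpa [hc] using e3
  subst ha
  refine (h1.mul hv (in_low h2 hv (n * c / b)) rfl rfl rfl rfl).mul hv h3 ?_ ?_ ?_ ?_
  · linear_combination -e1
  · field_simp; linear_combination -e2 - n * e4
  · ring
  · linear_combination -e4

theorem Mv.diag (h2 : p ≠ 2) {v : Vc p} (hv : v ≠ 0) (h : Mv F v) {a : ZMod p} (ha : a ≠ 0) :
    In F v a⁻¹ 0 0 a := by
  have w : ∀ a : ZMod p, a ≠ 0 → In F v 0 a (-a⁻¹) 0 := fun a ha =>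
    ((h.up h2 hv a).mul hv (in_low h2 hv (-a⁻¹)) rfl rfl rfl rfl).mul hv (h.up h2 hv a)
      (by field_simp; ring) (by field_simp; ring) (by ring) (by field_simp; ring)
  exact (w a⁻¹ (inv_ne_zero ha)).mul hv (w (-1) (by simp)) (by simp) (by simp) (by simp) (by simp)

theorem aut_top (h2 : p ≠ 2) {f : Hz p → Hz p} (hf : M F ⊤ f) :
    ∃ g ∈ WF F, ∃ y : Hz p, ∀ x, f x = y * act g x * y⁻¹ := by
  obtain ⟨g, y, e⟩ := exists_act h2 (MonoidHom.mk' f fun a b => hf.map_mul (mem_top a) (mem_top b))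
    fun a b h => hf.injOn (mem_top a) (mem_top b) h
  refine ⟨g, (hf.conj_comp (mem_top y⁻¹)).congr fun x _ => ?_, y, e⟩
  rw [show f x = _ from e x]; group

theorem M_of_W {g : G2 p} (hg : g ∈ WF F) (y : Hz p) {f : Hz p → Hz p} {P : Subgroup (Hz p)}
    (e : ∀ x ∈ P, f x = y * act g x * y⁻¹) : M F P f :=
  ((M.conj_comp (show M F ⊤ (act g) from hg) (mem_top y)).restrict le_top).congr fun x hx => (e x hx).symm

theorem Mv.act {v : Vc p} (hv : v ≠ 0) (h : Mv F v) {g : G2 p} (hg : g ∈ WF F) : Mv F (mv g v) := by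
  obtain ⟨a, b, c, d, ⟨f, hf, e⟩, hb⟩ := h
  have h0 := dt_mul_inv g
  have h1 : M F ⊤ (RV.act g) := hg
  have h3 : M F ⊤ (RV.act g⁻¹) := (WF F).inv_mem hg
  refine ⟨a, b * dt g⁻¹, dt g * c, d, ⟨_, h1.comp (hf.comp (h3.restrict (Q := Ln (mv g v)) le_top)
    fun x hx => ?_) fun _ _ => mem_top _, fun s t => ?_⟩,
    mul_ne_zero hb (right_ne_zero_of_mul_eq_one h0)⟩
  · rw [mem_Ln, act_v, ← mv_inv_mv g v, om_mv, mem_Ln.1 hx, mul_zero]
  · have : RV.act g⁻¹ ⟨s • mv g v, t⟩ = ⟨s • v, dt g⁻¹ * t⟩ :=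
      Hz.ext' (by rw [act_v, mv_smul, mv_inv_mv]) rfl
    show RV.act g (f (RV.act g⁻¹ _)) = _
    rw [this, e]
    refine Hz.ext' (by rw [act_v, mv_smul, mul_assoc]) ?_
    show dt g * (c * s + d * (dt g⁻¹ * t)) = dt g * c * s + d * t
    linear_combination d * t * h0

variable (h2 : p ≠ 2) (hF : F.IsSaturated p)
include h2 hF

theorem In.extend {v : Vc p} (hv : v ≠ 0) {a c d : ZMod p} (h : In F v a 0 c d) :
    ∃ f, M F ⊤ f ∧ Lin v f a 0 c d := by
  obtain ⟨a', b', c', d', -, e1, -⟩ := h.inv hv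
  have ha : a ≠ 0 := fun e => by simp [e] at e1
  obtain ⟨f, hf, e⟩ := h
  obtain ⟨f', hf', e'⟩ := hf.extend (hf.im_eq_self (e.mem hv))
    (sat_receptive' pgrp hF (isFullyNormalized_of_normal F le_top (Ln_norm v))) (R := ⊤) fun g hg =>
      mem_extSub.2 ⟨⟨hg, Ln_norm v hg⟩, ⟨(d / a) • g.v, 0⟩, mem_top _, fun x hx => by
        obtain ⟨s, t, rfl⟩ := exists_el hv hx
        have : g * ⟨s • v, t⟩ * g⁻¹ = ⟨s • v, t + 2 * om g.v (s • v)⟩ := Hz.ext' (conj_v _ _) (conj_c _ _)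
        rw [this, e, e]
        refine Hz.ext' (by simp [conj_v]) ?_
        rw [conj_c]
        simp only [om, Pi.smul_apply, smul_eq_mul]; field_simp; ring⟩
  rw [sup_top_eq] at hf'
  exact ⟨f', hf', fun s t => by rw [e' _ (el_mem _ _ _), e]⟩

theorem ess_Ln {R : Subgroup (Hz p)} (hR : F.IsEssential p R) : ∃ v, v ≠ 0 ∧ R = Ln v ∧ Mv F v := by
  have hlt := essential_lt pgrp hF hR
  have hc := centric_centralizerIn_le hR.1
  obtain ⟨y, hy, hv⟩ : ∃ y ∈ R, y.v ≠ 0 := by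
    by_contra hcon
    push Not at hcon
    exact hlt.not_ge fun g hg => hc (mem_centralizerIn.2 ⟨hg, fun x hx => (central (hcon x hx) g).symm⟩)
  have hZ : ∀ x : Hz p, x.v = 0 → x ∈ R := fun x hx =>
    hc (mem_centralizerIn.2 ⟨mem_top _, fun g _ => central hx g⟩)
  have sm : ∀ x ∈ R, ∀ (s : ZMod p) (w : Hz p), w.v = s • x.v → w ∈ R := fun x hx s w hw => by
    have := mul_mem (pow_mem hx s.val) (hZ ((x ^ s.val)⁻¹ * w) (by simp [mul_v, inv_v, pow_eq, hw]))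
    rwa [mul_inv_cancel_left] at this
  have hRL : R = Ln y.v := le_antisymm (fun x hx => by
      by_contra h
      refine hlt.not_ge fun g _ => ?_
      have h' : om y.v x.v ≠ 0 := h
      have := mul_mem (sm y hy (om g.v x.v / om y.v x.v) ⟨_, 0⟩ rfl)
        (sm 1 (one_mem _) 0 ((⟨(om g.v x.v / om y.v x.v) • y.v, 0⟩ : Hz p)⁻¹ * g *
          (⟨(om y.v g.v / om y.v x.v) • x.v, 0⟩ : Hz p)⁻¹) (by
            refine vc_ext ?_ ?_ <;>
            · simp only [mul_v, inv_v, Pi.add_apply, Pi.neg_apply, Pi.smul_apply, smul_eq_mul]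
              field_simp; simp only [om]; ring))
      have := mul_mem this (sm x hx (om y.v g.v / om y.v x.v) ⟨_, 0⟩ rfl)
      simpa [mul_assoc] using this)
    fun x hx => let ⟨s, hs⟩ := exists_smul hv hx; sm y hy s x hs
  refine ⟨y.v, hv, hRL, ?_⟩
  generalize y.v = v at hv hRL
  subst hRL
  by_contra hcon
  refine ((isEssential_iff pgrp hF).1 hR).2.2 (le_antisymm (extAut_le_autGroup F _) fun α hα => ?_)
  have hf := (mem_autGroup_iff le_top).1 hα
  obtain ⟨a, b, c, d, e⟩ := exists_lin hv hf.homOn fun x hx => efn_mem α hx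
  obtain rfl : b = 0 := by_contra fun hb => hcon ⟨a, b, c, d, ⟨_, hf, e⟩, hb⟩
  obtain ⟨f, hf', e'⟩ := In.extend h2 hF hv ⟨_, hf, e⟩
  refine subset_closure ⟨⊤, f, hlt, hf', fun x hx => ?_⟩
  obtain ⟨s, t, rfl⟩ := exists_el hv hx
  rw [e, e']

omit hF in
theorem Mv.mem {v : Vc p} (hv : v ≠ 0) (h : Mv F v) : v ∈ EF F := by
  obtain ⟨f, hf, e⟩ := h.up h2 hv (-1)
  have := hf.isConjElt (el_mem v 1 1)
  rw [e] at this
  exact ⟨hv, 1, 1, by simpa using this⟩

theorem mv_of_mem {v : Vc p} (h : v ∈ EF F) : Mv F v := by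
  obtain ⟨hv, c, d, h⟩ := h
  obtain ⟨f, hf, e⟩ := isConjElt_iff.1 h
  by_contra hcon
  have := alperin_induction pgrp hF (P := zpowers (⟨v, c⟩ : Hz p))
    (C := fun f => (f ⟨v, c⟩).v ≠ 0 ∧ ¬ Mv F (f ⟨v, c⟩).v)
    (fun f e => by rw [e _ (mem_zpowers _)]; exact ⟨hv, hcon⟩) (by
      rintro f g R α - ⟨h3, h4⟩ (rfl | hR) hα hm eg
      · obtain ⟨k, hk, y, ek⟩ := aut_top h2 ((mem_autGroup_iff le_rfl).1 hα)
        rw [eg _ (mem_zpowers _), ek, conj_v, act_v]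
        have h5 : mv k (f ⟨v, c⟩).v ≠ 0 := by rwa [Ne, mv_eq_zero]
        exact ⟨h5, fun h6 => h4 (by simpa only [mv_inv_mv] using h6.act h5 ((WF F).inv_mem hk))⟩
      · obtain ⟨w, hw, rfl, a, b, c', d, ⟨k, hk, ek⟩, hb⟩ := ess_Ln h2 hF hR
        obtain ⟨s, hs⟩ := exists_smul hw (hm _ (mem_zpowers _))
        have hs0 : s ≠ 0 := fun e => h3 (by rw [hs, e, zero_smul])
        refine absurd ⟨a, b / s, c' * s, d, ⟨k, ?_, fun s' t => ?_⟩, div_ne_zero hb hs0⟩ h4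
        · rwa [← Ln_eq hw h3 (hm _ (mem_zpowers _))]
        · rw [hs, smul_smul, ek, smul_smul]
          congr 1
          · congr 1; field_simp
          · ring) hf
  rw [e] at this
  exact this.1 rfl

end Cfsg.Agent.RV
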