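import Cfsg.Agent.RV.Fus
import Cfsg.Agent.H92.Iso3
import Cfsg.Agent.H92.GroupFS
import Cfsg.Agent.H92.Model

/-! A saturated system on the Heisenberg group is determined by its pair. -/

set_option autoImplicit false

namespace Cfsg.Agent.RV

open Matrix Subgroup Cfsg.Agent.H91 Cfsg.FusionSystem

variable {p : ℕ} [hp : Fact p.Prime] {F F' : FusionSystem (⊤ : Subgroup (Hz p))}

theorem lin_act {v : Vc p} {f : Hz p → Hz p} {a c d : ZMod p} (e : Lin v f a 0 c d) {g : G2 p}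
    {y : Hz p} (h : ∀ x, f x = y * act g x * y⁻¹) : mv g v = a • v ∧ dt g = d := by
  have h1 := congrArg Hz.v ((e 1 0).symm.trans (h _))
  have h2 := congrArg Hz.c ((e 0 1).symm.trans (h _))
  rw [conj_v, act_v] at h1
  rw [conj_c, act_v, act_c] at h2
  exact ⟨by simpa using h1.symm, by simpa [mv_zero, om] using h2.symm⟩

theorem good_F (h2 : p ≠ 2) (hF : F.IsSaturated p) : Good (WF F) (EF F) where
  pp h := by
    obtain ⟨g, hg⟩ := exists_prime_orderOf_dvd_card' p h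
    have hM : M F ⊤ (act g.1) := g.2
    obtain ⟨α, hα, e⟩ := hM.exists_aut (hM.im_eq_self fun _ _ => mem_top _)
    have ek : ∀ (n : ℕ) x, efn (α ^ n) x = act (g.1 ^ n) x := fun n => by
      induction n with
      | zero => intro x; rw [pow_zero, pow_zero, efn_one (mem_top x), act_one]
      | succ n ih => intro x; rw [pow_succ, pow_succ, efn_mul _ _ (mem_top x), act_mul, ih, e _ (mem_top x)]
    have := finite_autGroup F (le_refl ⊤)
    obtain ⟨l, -, hl⟩ := (sat_sylIn pgrp hF (isFullyNormalized_top F)).exists_conj_mem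
      (H := zpowers α) (isPGroup_zpowers_of_pow ⟨1, mulAut_ext_efn fun x hx => by
        have hgp : g ^ p = 1 := orderOf_dvd_iff_pow_eq_one.1 hg.dvd
        rw [pow_one, ek, efn_one hx, ← coe_pow, hgp, coe_one, act_one]⟩)
      (zpowers_le.2 hα)
    obtain ⟨y, -, ey⟩ := mem_autInducedBy_iff'.1 (hl _ (mem_zpowers α))
    have : g.1 = 1 := act_eq_conj (y := efn l⁻¹ y) fun x => by
      have := ey (efn l x) (mem_top _)
      rw [efn_mul _ _ (mem_top _), efn_mul _ _ (mem_top _), efn_inv_efn l (mem_top _),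
        e _ (mem_top _)] at this
      have := congrArg (efn l⁻¹) this
      rwa [efn_inv_efn l (mem_top _), (homOn_efn l⁻¹).map_conj (mem_top _) (mem_top _),
        efn_inv_efn l (mem_top _)] at this
    rw [show g = 1 from Subtype.ext this, orderOf_one] at hg
    exact hp.out.one_lt.ne hg
  ne v hv := hv.1
  smul v hv a ha := by
    obtain ⟨f, hf, e⟩ := (mv_of_mem h2 hF hv).up h2 hv.1 (-a)
    have := hf.isConjElt (el_mem v a 1)
    rw [e] at this
    exact ⟨smul_ne_zero ha hv.1, 1, 1, by simpa using this⟩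
  inv g hg v hv := ((mv_of_mem h2 hF hv).act hv.1 hg).mem h2 (by rw [Ne, mv_eq_zero]; exact hv.1)
  tor v hv a ha := by
    obtain ⟨f, hf, e⟩ := ((mv_of_mem h2 hF hv).diag h2 hv.1 ha).extend h2 hF hv.1
    obtain ⟨g, hg, y, ey⟩ := aut_top h2 hf
    obtain ⟨h3, h4⟩ := lin_act e ey
    exact ⟨g, hg, by rw [h3, smul_smul, mul_inv_cancel₀ ha, one_smul], h4⟩

theorem le_of_pair (h2 : p ≠ 2) (hF : F.IsSaturated p) (hF' : F'.IsSaturated p) (hW : WF F ≤ WF F')
    (hE : EF F ⊆ EF F') : F ≤ F' := by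
  refine le_iff_M.2 (alperin_sub pgrp hF ?_)
  rintro P (rfl | hP) α hα
  · obtain ⟨g, hg, y, e⟩ := aut_top h2 ((mem_autGroup_iff le_rfl).1 hα)
    exact M_of_W (hW hg) y fun x _ => e x
  obtain ⟨v, hv, rfl, hm⟩ := ess_Ln h2 hF hP
  have hm' := mv_of_mem h2 hF' (hE (hm.mem h2 hv))
  have N : ∀ {a c d}, In F v a 0 c d → In F' v a 0 c d := fun h => by
    obtain ⟨f, hf, e⟩ := h.extend h2 hF hv
    obtain ⟨g, hg, y, ey⟩ := aut_top h2 hf
    exact ⟨f, M_of_W (hW hg) y fun x _ => ey x, e⟩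
  have hf := (mem_autGroup_iff le_top).1 hα
  obtain ⟨a, b, c, d, e⟩ := exists_lin hv hf.homOn fun x hx => efn_mem α hx
  refine In.toM hv ?_ e
  have h : In F v a b c d := ⟨_, hf, e⟩
  by_cases hb : b = 0
  · subst hb; exact N h
  have h3 : In F v (a - (c + (1 - d / b) * a)) 0 (c + (1 - d / b) * a) b :=
    ((hm.up h2 hv (-1)).mul hv (in_low h2 hv (1 - d / b)) rfl rfl rfl rfl).mul hv h (by ring)
      (by field_simp; ring) (by ring) (by field_simp; ring)
  exact ((in_low h2 hv (-(1 - d / b))).mul hv (hm'.up h2 hv 1) rfl rfl rfl rfl).mul hv (N h3)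
    (by ring) (by ring) (by ring) (by field_simp; ring)

theorem eq_of_pair (h2 : p ≠ 2) (hF : F.IsSaturated p) (hF' : F'.IsSaturated p) (hW : WF F = WF F')
    (hE : EF F = EF F') : F = F' :=
  fs_le_antisymm (le_of_pair h2 hF hF' hW.le hE.le) (le_of_pair h2 hF' hF hW.ge hE.ge)

theorem constrained_of (h2 : p ≠ 2) (hF : F.IsSaturated p) (h : ¬ Two (EF F)) : F.IsConstrained p := by
  by_cases hex : ∃ v, v ∈ EF F
  swap
  · refine ⟨hF, ⊤, normal_of_essential pgrp hF le_rfl ?_, centric_top F⟩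
    rintro R (rfl | hR)
    · exact ⟨le_rfl, fun α _ => im_efn α⟩
    · obtain ⟨v, hv, -, hm⟩ := ess_Ln h2 hF hR
      exact absurd ⟨v, hm.mem h2 hv⟩ hex
  obtain ⟨v, hv⟩ := hex
  have k : ∀ w ∈ EF F, om v w = 0 := fun w hw => by_contra fun e => h ⟨v, hv, w, hw, e⟩
  refine ⟨hF, Ln v, normal_of_essential pgrp hF le_top ?_, centric_of_fullyCentralized
    (sat_receptive' pgrp hF (isFullyNormalized_of_normal F le_top (Ln_norm v))) fun g hg => ?_⟩
  · rintro R (rfl | hR)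
    · refine ⟨le_top, fun α hα => ?_⟩
      have hf := (mem_autGroup_iff le_rfl).1 hα
      obtain ⟨g, hg, y, e⟩ := aut_top h2 hf
      refine (hf.restrict le_top).im_eq_self fun x hx => ?_
      have h0 : mv g v ≠ 0 := by rw [Ne, mv_eq_zero]; exact hv.1
      rw [Ln_eq hv.1 h0 (k _ ((good_F h2 hF).inv g hg v hv)), mem_Ln, e, conj_v, act_v, om_mv,
        mem_Ln.1 hx, mul_zero]
    · obtain ⟨w, hw, rfl, hm⟩ := ess_Ln h2 hF hR
      rw [Ln_eq hv.1 hw (k w (hm.mem h2 hw))]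
      exact ⟨le_rfl, fun α _ => im_efn α⟩
  · have := (comm_iff h2).1 ((mem_centralizerIn.1 hg).2 _ (el_mem v 1 0))
    simpa [mem_Ln] using this

/-- `F` is the fusion system of `G` -/
def RB {Ω : Type*} [Group Ω] {S : Subgroup Ω} (F : FusionSystem S) (p : ℕ) (G : Type*) [Group G] :
    Prop := ∃ ι : S →* G, F.IsRealizedBy ι ∧ ∃ T : Sylow p G, (T : Subgroup G) = ι.range

section
variable {Ω : Type*} [Group Ω] {S : Subgroup Ω} {E : FusionSystem S} {G : Type*} [Group G]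

omit hp in
theorem RB.of_fIso {Ω' : Type*} [Group Ω'] {S' : Subgroup Ω'} {E' : FusionSystem S'}
    {j : Ω → Ω'} {k : Ω' → Ω} (h' : RB E' p G) (h : H92.FIso E E' j k) : RB E p G := by
  obtain ⟨ι, h1, T, hT⟩ := h'
  exact ⟨_, (h.isRealizedBy h1).1, T, hT.trans (h.isRealizedBy h1).2.symm⟩

theorem RB.of_equiv {G' : Type*} [Group G'] [Finite G] (h : RB E p G) (e : G ≃* G') : RB E p G' := by
  obtain ⟨ι, ⟨h1, h2⟩, T, hT⟩ := h
  refine ⟨e.toMonoidHom.comp ι, ⟨e.injective.comp h1, fun P hP φ hφ => (h2 P hP φ hφ).trans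
    ⟨fun ⟨g, hg⟩ => ⟨e g, fun x => ?_⟩, fun ⟨g, hg⟩ => ⟨e.symm g, fun x => e.injective ?_⟩⟩⟩,
    T.mapSurjective (f := e.toMonoidHom) e.surjective, ?_⟩
  · simp [hg x]
  · simpa using hg x
  · refine (Sylow.coe_mapSurjective _ _).trans ?_
    rw [hT, MonoidHom.range_comp]

end

universe u

theorem RB.realizable {Ω : Type u} [Group Ω] {S : Subgroup Ω} {E : FusionSystem S}
    {G : Type} [Group G] [Finite G] (h : RB E p G) : E.IsRealizable p := by
  obtain ⟨ι, h1, h2⟩ := h.of_equiv (MulEquiv.ulift.symm : G ≃* ULift.{u} G)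
  exact ⟨ULift.{u} G, inferInstance, inferInstance, ι, h1, h2⟩

variable {G : Type*} [Group G] [Finite G] {ι : Hz p →* G}

theorem Syl.sylow (h : Syl ι) : ∃ T : Sylow p G, (T : Subgroup G) = ι.range := by
  have hc : Nat.card ι.range = p ^ 3 := by
    rw [← card_Hz]; exact (Nat.card_congr (MonoidHom.ofInjective h.1).toEquiv).symm
  refine ⟨(IsPGroup.of_card hc).toSylow fun hd => h.2 ?_, rfl⟩
  rw [← ι.range.card_mul_index, hc, pow_succ p 3]
  exact Nat.mul_dvd_mul_left _ hd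

theorem Syl.exists_fs (h : Syl ι) : ∃ F : FusionSystem (⊤ : Subgroup (Hz p)), F.IsSaturated p ∧
    RB F p G ∧ WF F = WG ι ∧ EF F = EG ι := by
  obtain ⟨T, hT⟩ := h.sylow
  obtain ⟨k, hk⟩ := H92.gIso_of_injOn (homOn_hom ⊤ ι) h.1.injOn
  rw [im_hom, ← MonoidHom.range_eq_map, ← hT] at hk
  obtain ⟨F, hF⟩ := H92.exists_fIso hk.symm (groupFusionSystem (T : Subgroup G))
  have key := (H92.fIso_group_iff hk).1 hF.symm
  refine ⟨F, hF.isSaturated (H92.saturated_group T), RB.of_fIso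
    ⟨_, H92.realizedBy_subtype _, T, (range_subtype _).symm⟩ hF.symm, ?_, ?_⟩
  · ext g
    exact (key ⊤ (act g)).trans ⟨fun ⟨_, _, n, hn⟩ => ⟨n, fun x => (hn x (mem_top x)).symm⟩,
      fun ⟨n, hn⟩ => ⟨le_rfl, fun _ _ => mem_top _, n, fun x _ => (hn x).symm⟩⟩
  · ext v
    refine and_congr_right fun _ => exists₂_congr fun c d => ⟨fun h => ?_, fun h' => ?_⟩
    · obtain ⟨f, hf, e⟩ := isConjElt_iff.1 h
      obtain ⟨-, -, n, hn⟩ := (key _ _).1 hf
      exact isConj_iff.2 ⟨n, by rw [← hn _ (mem_zpowers _), e]⟩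
    · obtain ⟨n, hn⟩ := isConj_iff.1 h'
      have e : ∀ x ∈ zpowers (⟨v, c⟩ : Hz p), ι (k (n * ι x * n⁻¹)) = n * ι x * n⁻¹ := by
        rintro _ ⟨i, rfl⟩
        refine hk.jk _ ?_
        rw [hT]
        exact ⟨⟨0, d⟩ ^ i, by simp only [map_zpow]; rw [← hn, conj_zpow]⟩
      refine isConjElt_iff.2 ⟨fun x => k (n * ι x * n⁻¹),
        (key _ _).2 ⟨le_top, fun _ _ => mem_top _, n, e⟩, h.1 ?_⟩
      rw [e _ (mem_zpowers _), hn]

theorem Syl.good (h2 : p ≠ 2) (h : Syl ι) : Good (WG ι) (EG ι) := by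
  obtain ⟨F, hF, -, e1, e2⟩ := h.exists_fs
  exact e1 ▸ e2 ▸ good_F h2 hF

theorem rb_of_eqv (h2 : p ≠ 2) (hF : F.IsSaturated p) (h : Syl ι)
    (e : Eqv (WF F) (EF F) (WG ι) (EG ι)) : RB F p G := by
  obtain ⟨k, e1, e2⟩ := e
  have h' : Syl (ι.comp (actA k).toMonoidHom) := ⟨h.1.comp (actA k).injective, h.2⟩
  obtain ⟨F', hF', r, e3, e4⟩ := h'.exists_fs
  have h0 := dt_mul_inv k
  rwa [eq_of_pair h2 hF hF' ?_ ?_]
  · ext g
    rw [e1, e3, mem_WG, mem_WG]
    refine exists_congr fun n => ⟨fun hn x => ?_, fun hn x => ?_⟩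
    · show n * ι (act k x) * n⁻¹ = ι (act k (act g x))
      rw [hn, ← act_mul, ← act_mul, inv_mul_cancel_right]
    · have : n * ι (act k (act k⁻¹ x)) * n⁻¹ = ι (act k (act g (act k⁻¹ x))) := hn _
      rwa [← act_mul, mul_inv_cancel, act_one, ← act_mul, ← act_mul] at this
  · ext v
    rw [e2, e4]
    refine and_congr (by rw [Ne, mv_eq_zero]) ⟨fun ⟨c, d, h⟩ => ⟨dt k⁻¹ * c, dt k⁻¹ * d, ?_⟩,
      fun ⟨c, d, h⟩ => ⟨dt k * c, dt k * d, ?_⟩⟩
    · show IsConj (ι ⟨mv k v, dt k * (dt k⁻¹ * c)⟩) (ι ⟨mv k 0, dt k * (dt k⁻¹ * d)⟩)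
      rwa [mv_zero, ← mul_assoc, ← mul_assoc, h0, one_mul, one_mul]
    · rw [← mv_zero k]; exact h

end Cfsg.Agent.RV
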