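import Cfsg.Agent.RV.Defs
import Mathlib.GroupTheory.SemidirectProduct
import Mathlib.LinearAlgebra.Matrix.GeneralLinearGroup.Card

/-! The linear groups of degree three realise the pairs with two lines. -/

set_option autoImplicit false

namespace Cfsg.Agent.RV

open Subgroup Matrix

namespace GL3

/-- matrices of degree three -/
abbrev M3 (p : ℕ) : Type := Matrix (Fin 3) (Fin 3) (ZMod p)

/-- the linear group of degree three -/
abbrev G3 (p : ℕ) : Type := GL (Fin 3) (ZMod p)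

variable {p : ℕ}

/-- reflection in the second diagonal -/
def rv (A : M3 p) : M3 p := Aᵀ.submatrix Fin.revPerm Fin.revPerm

theorem rv_mul (A B : M3 p) : rv (A * B) = rv B * rv A := by
  simp only [rv, transpose_mul, submatrix_mul_equiv]

theorem rv_one : rv (1 : M3 p) = 1 := by simp only [rv, transpose_one, submatrix_one_equiv]

theorem rv_rv (A : M3 p) : rv (rv A) = A := by
  ext i j
  simp [rv]

theorem rv_det (A : M3 p) : (rv A).det = A.det := by
  simp only [rv, det_submatrix_equiv_self, det_transpose]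

/-- the inverse transpose map -/
def tau (g : G3 p) : G3 p :=
  ⟨rv (g⁻¹ : G3 p).val, rv g.val, by rw [← rv_mul, Units.mul_inv, rv_one],
    by rw [← rv_mul, Units.inv_mul, rv_one]⟩

theorem tau_tau (g : G3 p) : tau (tau g) = g := Units.ext (rv_rv _)

/-- the graph automorphism -/
def tA : MulAut (G3 p) where
  toFun := tau
  invFun := tau
  left_inv := tau_tau
  right_inv := tau_tau
  map_mul' g h := Units.ext (by
    change rv ((g * h)⁻¹ : G3 p).val = rv (g⁻¹ : G3 p).val * rv (h⁻¹ : G3 p).val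
    rw [_root_.mul_inv_rev, Units.val_mul, rv_mul])

theorem tA_sq : (tA : MulAut (G3 p)) ^ 2 = 1 := MulEquiv.ext tau_tau

theorem tau_det (g : G3 p) : (tau g).val.det * g.val.det = 1 := by
  change (rv (g⁻¹ : G3 p).val).det * _ = 1
  rw [rv_det, ← det_mul, Units.inv_mul, det_one]

theorem two_cases (e : zpowers (tA : MulAut (G3 p))) : e = 1 ∨ e.1 = tA := by
  obtain ⟨_, k, rfl⟩ := e
  have h2 : (tA : MulAut (G3 p)) ^ (2 : ℤ) = 1 := by rw [← tA_sq]; rfl
  rcases Int.even_or_odd' k with ⟨m, rfl | rfl⟩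
  · exact Or.inl (Subtype.ext (by simp only [_root_.zpow_mul, h2, _root_.one_zpow]; rfl))
  · exact Or.inr (by simp only [_root_.zpow_add, _root_.zpow_mul, h2, _root_.one_zpow, one_mul, zpow_one])

/-- the extension by the graph automorphism -/
abbrev BB (p : ℕ) : Type := G3 p ⋊[(zpowers (tA : MulAut (G3 p))).subtype] zpowers (tA : MulAut (G3 p))

theorem conj_inl (n : BB p) (u : G3 p) :
    n * SemidirectProduct.inl u * n⁻¹ = SemidirectProduct.inl (n.left * n.right.1 u * n.left⁻¹) := by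
  have := SemidirectProduct.inl_aut (φ := (zpowers (tA : MulAut (G3 p))).subtype) n.right u
  rw [map_mul, map_mul, map_inv]
  erw [this]
  conv_lhs => rw [← SemidirectProduct.inl_left_mul_inr_right n]
  rw [map_inv]
  group

/-- the four groups -/
def GG (p : ℕ) (sw full : Prop) : Subgroup (BB p) where
  carrier := {n | (full ∨ n.left.val.det = 1) ∧ (sw ∨ n.right = 1)}
  one_mem' := ⟨Or.inr det_one, Or.inr rfl⟩
  mul_mem' := by
    rintro a b ⟨h1, h2⟩ ⟨h3, h4⟩
    refine ⟨or_iff_not_imp_left.2 fun n => ?_, or_iff_not_imp_left.2 fun n => ?_⟩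
    · rw [SemidirectProduct.mul_left, Units.val_mul, det_mul, h1.resolve_left n, one_mul]
      rcases two_cases a.right with e | e
      · rw [e, map_one]; exact h3.resolve_left n
      · have := tau_det b.left
        rw [h3.resolve_left n, mul_one] at this
        rw [coe_subtype, e]; exact this
    · rw [SemidirectProduct.mul_right, h2.resolve_left n, h4.resolve_left n, mul_one]
  inv_mem' := by
    rintro a ⟨h1, h2⟩
    refine ⟨or_iff_not_imp_left.2 fun n => ?_, or_iff_not_imp_left.2 fun n => ?_⟩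
    · have hi : (a.left⁻¹ : G3 p).val.det = 1 := by
        rw [← mul_one (det _), ← h1.resolve_left n, ← det_mul, Units.inv_mul, det_one, h1.resolve_left n]
      rw [SemidirectProduct.inv_left]
      rcases two_cases a.right⁻¹ with e | e
      · rw [e, map_one]; exact hi
      · have := tau_det a.left⁻¹
        rw [hi, mul_one] at this
        rw [coe_subtype, e]; exact this
    · rw [SemidirectProduct.inv_right, h2.resolve_left n, inv_one]

/-- the unitriangular matrix of an element of the Heisenberg group -/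
def um (x : Hz p) : M3 p := !![1, x.v 0, (x.c + x.v 0 * x.v 1) * 2⁻¹; 0, 1, x.v 1; 0, 0, 1]

theorem um_one : um (1 : Hz p) = 1 := by
  rw [um, one_fin_three]
  simp [one_v, one_c]

theorem um_det (x : Hz p) : (um x).det = 1 := by simp [um, det_fin_three]

variable [Fact p.Prime]

theorem two_ne (hp : p ≠ 2) : (2 : ZMod p) ≠ 0 := fun e =>
  hp ((Nat.prime_dvd_prime_iff_eq Fact.out Nat.prime_two).1 ((ZMod.natCast_eq_zero_iff 2 p).1 (by exact_mod_cast e)))

theorem um_mul (hp : p ≠ 2) (x y : Hz p) : um (x * y) = um x * um y := by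
  have := two_ne hp
  ext i j
  fin_cases i <;> fin_cases j <;> simp [um, mul_v, mul_c, om, mul_apply, Fin.sum_univ_three]
  · exact add_comm _ _
  · field_simp; ring
  · exact add_comm _ _

/-- the embedding of the Heisenberg group -/
def io (hp : p ≠ 2) : Hz p →* G3 p where
  toFun x := ⟨um x, um x⁻¹, by rw [← um_mul hp, mul_inv_cancel, um_one], by rw [← um_mul hp, inv_mul_cancel, um_one]⟩
  map_one' := Units.ext um_one
  map_mul' x y := Units.ext (um_mul hp x y)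

theorem io_inj (hp : p ≠ 2) : Function.Injective (io hp) := (injective_iff_map_eq_one _).2 fun x e => by
  have := two_ne hp
  have k0 : um x = 1 := congrArg Units.val e
  have k : ∀ i j, um x i j = (1 : M3 p) i j := fun i j => by rw [k0]
  have a := k 0 1
  have b := k 1 2
  have c := k 0 2
  simp [um] at a b c
  refine Hz.ext' (vc_ext a b) ?_
  simpa [a, this, one_c] using c

/-- the linear map induced by the graph automorphism -/
def sg : G2 p := ⟨!![0, -1; -1, 0], !![0, -1; -1, 0], by simp [one_fin_two], by simp [one_fin_two]⟩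

theorem sg_sg : (sg : G2 p) * sg = 1 := sg.val_inv |> Units.ext

theorem tau_io (hp : p ≠ 2) (x : Hz p) : tA (io hp x) = io hp (act sg x) := Units.ext (by
  change rv (um x⁻¹) = um (act sg x)
  ext i j
  fin_cases i <;> fin_cases j <;>
    simp [rv, um, inv_v, inv_c, act_v, act_c, mv_zero', mv_one', dt, sg, Fin.revPerm, Fin.rev, mul_comm])

theorem dt_ne (g : G2 p) : dt g ≠ 0 := left_ne_zero_of_mul_eq_one (dt_mul_inv g)

theorem ent (hp : p ≠ 2) {h : G3 p} {x y : Hz p} (e : h * io hp x * h⁻¹ = io hp y) : h.val * um x = um y * h.val :=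
  congrArg Units.val (mul_inv_eq_iff_eq_mul.1 e)

theorem of_conj (hp : p ≠ 2) {h : G3 p} {g : G2 p} (e : ∀ x, h * io hp x * h⁻¹ = io hp (act g x)) :
    g 0 1 = 0 ∧ g 1 0 = 0 ∧ (h.val.det = 1 → ∃ m, g 0 0 = m ^ 3 * g 1 1) := by
  have t := two_ne hp
  have d := dt_ne g
  have k : ∀ x i j, (h.val * um x) i j = (um (act g x) * h.val) i j := fun x i j => by rw [ent hp (e x)]
  have a1 := k ⟨0, 1⟩ 1 2
  have a2 := k ⟨0, 1⟩ 2 2
  have a3 := k ⟨0, 1⟩ 0 1
  simp [um, act_v, act_c, mv_zero, mul_apply, Fin.sum_univ_three, t, d] at a1 a2 a3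
  have hd : h.val.det = h.val 0 0 * h.val 1 1 * h.val 2 2 := by simp [det_fin_three, a1, a2, a3]
  have hn : h.val.det ≠ 0 := (isUnit_iff_isUnit_det _ |>.1 h.isUnit).ne_zero
  rw [hd] at hn
  have n1 : h.val 1 1 ≠ 0 := right_ne_zero_of_mul (left_ne_zero_of_mul hn)
  have n2 : h.val 2 2 ≠ 0 := right_ne_zero_of_mul hn
  have b1 := k ⟨![1, 0], 0⟩ 0 1
  have b2 := k ⟨![1, 0], 0⟩ 1 2
  have c1 := k ⟨![0, 1], 0⟩ 0 1
  have c2 := k ⟨![0, 1], 0⟩ 1 2
  simp [um, act_v, act_c, mv_zero', mv_one', mul_apply, Fin.sum_univ_three, a1, a2, a3, n1, n2] at b1 b2 c1 c2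
  refine ⟨c1, b2, fun e1 => ⟨(h.val 1 1)⁻¹, ?_⟩⟩
  rw [hd] at e1
  field_simp
  linear_combination (-h.val 1 1 ^ 2) * b1 + h.val 0 0 * h.val 1 1 * c2 + g 1 1 * e1

theorem of_cen (hp : p ≠ 2) {h : G3 p} {x : Hz p} {d : ZMod p} (e : h * io hp x * h⁻¹ = io hp ⟨0, d⟩) :
    x.v 0 = 0 ∨ x.v 1 = 0 := by
  have k := ent hp e
  have k1 : h.val * (um x - 1) = (um ⟨0, d⟩ - 1) * h.val := by rw [Matrix.mul_sub, Matrix.sub_mul, k, mul_one, one_mul]
  have z : (um (⟨0, d⟩ : Hz p) - 1) * (um ⟨0, d⟩ - 1) = 0 := by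
    ext i j
    fin_cases i <;> fin_cases j <;> simp [um, mul_apply, Fin.sum_univ_three, one_apply]
  have k2 : h.val * ((um x - 1) * (um x - 1)) = 0 := by
    rw [← mul_assoc, k1, mul_assoc, k1, ← mul_assoc, z, zero_mul]
  have k3 := congrFun (congrFun ((Units.mul_right_eq_zero h).1 k2) 0) 2
  simpa [um, mul_apply, Fin.sum_univ_three, one_apply] using k3

theorem diag (hp : p ≠ 2) {g : G2 p} {f : Prop} (a : g 0 1 = 0) (b : g 1 0 = 0)
    (c : f ∨ ∃ m, g 0 0 = m ^ 3 * g 1 1) :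
    ∃ h : G3 p, (f ∨ h.val.det = 1) ∧ ∀ x, h * io hp x * h⁻¹ = io hp (act g x) := by
  have d := dt_ne g
  rw [dt, a, zero_mul, sub_zero] at d
  have d0 := left_ne_zero_of_mul d
  have d1 := right_ne_zero_of_mul d
  have key : ∀ m : ZMod p, m ≠ 0 → ∃ h : G3 p, h.val.det * m ^ 3 * g 1 1 = g 0 0 ∧
      ∀ x, h * io hp x * h⁻¹ = io hp (act g x) := fun m hm => by
    have hd : (!![g 0 0 * m⁻¹, 0, 0; 0, m⁻¹, 0; 0, 0, m⁻¹ * (g 1 1)⁻¹] : M3 p).det * m ^ 3 * g 1 1 = g 0 0 := by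
      simp [det_fin_three]; field_simp
    refine ⟨GeneralLinearGroup.mkOfDetNeZero _ (fun e => d0 (by rw [← hd, e]; simp)), hd, fun x => ?_⟩
    refine mul_inv_eq_iff_eq_mul.2 (Units.ext ?_)
    change _ * um x = um (act g x) * _
    ext i j
    fin_cases i <;> fin_cases j <;>
      simp [um, act_v, act_c, mv_zero', mv_one', dt, a, b, mul_apply, Fin.sum_univ_three] <;> field_simp
  rcases c with c | ⟨m, c⟩
  · obtain ⟨h, -, e⟩ := key 1 one_ne_zero
    exact ⟨h, Or.inl c, e⟩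
  · have hm : m ≠ 0 := fun e => d0 (by rw [c, e]; simp)
    obtain ⟨h, e1, e⟩ := key m hm
    refine ⟨h, Or.inr (mul_right_cancel₀ d0 ?_), e⟩
    rw [one_mul]
    nth_rewrite 1 [c]
    rw [← mul_assoc, e1]

theorem axis (hp : p ≠ 2) {v : Vc p} (hv : v 0 = 0 ∨ v 1 = 0) :
    ∃ (h : G3 p) (d : ZMod p), h.val.det = 1 ∧ h * io hp ⟨v, 0⟩ * h⁻¹ = io hp ⟨0, d⟩ := by
  have t := two_ne hp
  rcases hv with e | e
  · have hd : (!![0, 1, 0; -1, 0, 0; 0, 0, 1] : M3 p).det = 1 := by simp [det_fin_three]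
    refine ⟨GeneralLinearGroup.mkOfDetNeZero _ (hd.trans_ne one_ne_zero), 2 * v 1, hd,
      mul_inv_eq_iff_eq_mul.2 (Units.ext ?_)⟩
    change _ * um _ = um _ * _
    ext i j
    fin_cases i <;> fin_cases j <;> simp [um, e, mul_apply, Fin.sum_univ_three] <;> field_simp
  · have hd : (!![1, 0, 0; 0, 0, 1; 0, -1, 0] : M3 p).det = 1 := by simp [det_fin_three]
    refine ⟨GeneralLinearGroup.mkOfDetNeZero _ (hd.trans_ne one_ne_zero), -2 * v 0, hd,
      mul_inv_eq_iff_eq_mul.2 (Units.ext ?_)⟩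
    change _ * um _ = um _ * _
    ext i j
    fin_cases i <;> fin_cases j <;> simp [um, e, mul_apply, Fin.sum_univ_three] <;> field_simp

theorem card_BB (hp : p ≠ 2) : ¬ p ^ 4 ∣ Nat.card (BB p) := by
  have P : p.Prime := Fact.out
  have nd : ∀ k, 0 < k → ¬ p ∣ p ^ k - 1 := fun k hk e =>
    P.one_lt.ne' (Nat.dvd_one.1 ((Nat.dvd_add_right e).1 (by
      rw [Nat.sub_add_cancel (Nat.one_le_pow _ _ P.pos)]; exact dvd_pow_self p hk.ne')))
  intro e
  have e2 : p ^ 4 ∣ Nat.card (G3 p) * 2 := e.trans (by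
    rw [SemidirectProduct.card, Nat.card_zpowers]
    exact Nat.mul_dvd_mul_left _ (orderOf_dvd_of_pow_eq_one tA_sq))
  rw [card_GL_field, Fin.prod_univ_three, ZMod.card] at e2
  have f1 : p ^ 3 - p ^ 1 = p * (p ^ 2 - 1) := by rw [Nat.mul_sub, mul_one, pow_one, ← pow_succ']
  have f2 : p ^ 3 - p ^ 2 = p ^ 2 * (p ^ 1 - 1) := by rw [Nat.mul_sub, mul_one, ← pow_add]
  change p ^ 4 ∣ (p ^ 3 - 1) * (p ^ 3 - p ^ 1) * (p ^ 3 - p ^ 2) * 2 at e2
  rw [f1, f2, show (p ^ 3 - 1) * (p * (p ^ 2 - 1)) * (p ^ 2 * (p ^ 1 - 1)) * 2 =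
    p ^ 3 * ((p ^ 3 - 1) * (p ^ 2 - 1) * (p ^ 1 - 1) * 2) by ring, pow_succ] at e2
  have e3 := Nat.dvd_of_mul_dvd_mul_left (pow_pos P.pos 3) e2
  simp only [P.dvd_mul] at e3
  rcases e3 with ((e3 | e3) | e3) | e3
  · exact nd 3 (by omega) e3
  · exact nd 2 (by omega) e3
  · exact nd 1 (by omega) e3
  · exact hp ((Nat.prime_dvd_prime_iff_eq P Nat.prime_two).1 e3)

end GL3

open GL3

theorem real_two {p : ℕ} [Fact p.Prime] (hp : p ≠ 2) (sw full : Prop) :
    ∃ (G : Type) (_ : Group G) (_ : Finite G) (ι : Hz p →* G), Syl ι ∧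
      (∀ g, g ∈ WG ι ↔ P2 sw full g) ∧ ∀ v, v ∈ EG ι ↔ Ax v := by
  have fin : Finite (BB p) := Finite.of_equiv _ SemidirectProduct.equivProd.symm
  let ι : Hz p →* GG p sw full :=
    ((SemidirectProduct.inl : G3 p →* BB p).comp (io hp)).codRestrict _ fun x => ⟨Or.inr (um_det x), Or.inr rfl⟩
  have cj : ∀ (n : GG p sw full) (x y : Hz p), n * ι x * n⁻¹ = ι y ↔
      n.1.left * n.1.right.1 (io hp x) * n.1.left⁻¹ = io hp y := fun n x y => by
    rw [Subtype.ext_iff, ← SemidirectProduct.inl_inj (φ := (zpowers (tA : MulAut (G3 p))).subtype), ← conj_inl]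
    rfl
  have s0 : ∀ g : G2 p, (g * sg : G2 p) 0 0 = -g 0 1 ∧ (g * sg : G2 p) 0 1 = -g 0 0 ∧
      (g * sg : G2 p) 1 0 = -g 1 1 ∧ (g * sg : G2 p) 1 1 = -g 1 0 := fun g => by simp [g2_mul, sg]
  refine ⟨GG p sw full, inferInstance, inferInstance, ι, ⟨fun x y e => io_inj hp ?_, fun e => card_BB hp ?_⟩,
    fun g => ⟨?_, ?_⟩, fun v => ⟨?_, ?_⟩⟩
  · exact SemidirectProduct.inl_injective (congrArg Subtype.val e)
  · exact e.trans (card_subgroup_dvd_card _)
  · rintro ⟨n, hn⟩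
    simp only [cj] at hn
    by_cases e : n.1.right = 1
    · rw [e] at hn
      obtain ⟨a, b, c⟩ := of_conj hp hn
      exact Or.inl ⟨a, b, n.2.1.imp_right c⟩
    · rw [(two_cases _).resolve_left e] at hn
      obtain ⟨a, b, c⟩ := of_conj hp (h := n.1.left) (g := g * sg) fun x => by
        rw [act_mul, ← hn, tau_io, ← act_mul, sg_sg, act_one]
      obtain ⟨e1, e2, e3, e4⟩ := s0 g
      rw [e1, e4] at c
      refine Or.inr ⟨n.2.2.resolve_right e, neg_eq_zero.1 (e2 ▸ a), neg_eq_zero.1 (e3 ▸ b), n.2.1.imp_right fun d => ?_⟩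
      obtain ⟨m, hm⟩ := c d
      exact ⟨m, neg_injective (by rw [hm, mul_neg])⟩
  · rintro (⟨a, b, c⟩ | ⟨s, a, b, c⟩)
    · obtain ⟨h, d, e⟩ := diag hp a b c
      exact ⟨⟨⟨h, 1⟩, d, Or.inr rfl⟩, fun x => (cj _ _ _).2 (e x)⟩
    · obtain ⟨e1, e2, e3, e4⟩ := s0 g
      obtain ⟨h, d, e⟩ := diag hp (g := g * sg) (f := full) (by rw [e2, a, neg_zero]) (by rw [e3, b, neg_zero])
        (c.imp_right fun ⟨m, hm⟩ => ⟨m, by rw [e1, e4, hm, mul_neg]⟩)
      refine ⟨⟨⟨h, ⟨tA, mem_zpowers _⟩⟩, d, Or.inl s⟩, fun x => (cj _ _ _).2 ?_⟩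
      change h * tA (io hp x) * h⁻¹ = _
      rw [tau_io, e, ← act_mul, mul_assoc, sg_sg, mul_one]
  · rintro ⟨v0, c, d, e⟩
    obtain ⟨n, hn⟩ := isConj_iff.1 e
    rw [cj] at hn
    refine ⟨v0, ?_⟩
    rcases two_cases n.1.right with e | e
    · rw [e] at hn
      exact of_cen hp hn
    · rw [e, tau_io] at hn
      simpa [act_v, mv_zero', mv_one', sg, or_comm] using of_cen hp hn
  · rintro ⟨v0, hv⟩
    obtain ⟨h, d, e1, e⟩ := axis hp hv
    exact ⟨v0, 0, d, isConj_iff.2 ⟨⟨⟨h, 1⟩, Or.inr e1, Or.inr rfl⟩, (cj _ _ _).2 e⟩⟩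

end Cfsg.Agent.RV
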