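import Cfsg.Agent.RV.Defs

/-! Homomorphisms from the Heisenberg group. -/

set_option autoImplicit false

namespace Cfsg.Agent.RV

open Matrix Subgroup

variable {p : ℕ} [hp : Fact p.Prime] {G : Type*} [Group G]

/-- powers with exponents modulo `p` -/
def pw (g : G) (k : ZMod p) : G := g ^ k.val

theorem pw_nat {g : G} (h : g ^ p = 1) (n : ℕ) : pw g (n : ZMod p) = g ^ n := by
  rw [pw, ZMod.val_natCast, ← pow_eq_pow_mod n h]

theorem pw_add {g : G} (h : g ^ p = 1) (k l : ZMod p) : pw g (k + l) = pw g k * pw g l := by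
  rw [pw, pw, pw, ← pow_add, ZMod.val_add, ← pow_eq_pow_mod _ h]

theorem pw_zero (g : G) : pw g (0 : ZMod p) = 1 := by simp [pw]

theorem pw_one {g : G} (h : g ^ p = 1) : pw g (1 : ZMod p) = g := by
  simpa using pw_nat h 1

theorem pw_eq_one {g : G} (h : g ^ p = 1) (h1 : g ≠ 1) {k : ZMod p} (e : pw g k = 1) : k = 0 := by
  have := orderOf_dvd_of_pow_eq_one e
  rw [orderOf_eq_prime h h1] at this
  rw [← ZMod.natCast_zmod_val k, ZMod.natCast_eq_zero_iff]; exact this

omit hp in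
theorem pw_comm {g z : G} (h : g * z = z * g) (k l : ZMod p) : pw g k * pw z l = pw z l * pw g k :=
  (Commute.pow_pow h _ _).eq

omit hp in
theorem swap_pow {a b z : G} (hab : a * b = b * a * z) (az : a * z = z * a) (bz : b * z = z * b)
    (i j : ℕ) : a ^ i * b ^ j = b ^ j * a ^ i * z ^ (i * j) := by
  have h1 : ∀ j : ℕ, a * b ^ j = b ^ j * a * z ^ j := fun j => by
    induction j with
    | zero => simp
    | succ j ih =>
      rw [pow_succ, ← mul_assoc, ih, mul_assoc, ← (Commute.pow_right bz j).eq, ← mul_assoc,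
        mul_assoc _ a, hab, pow_succ' z]
      simp only [mul_assoc]
  induction i with
  | zero => simp
  | succ i ih =>
    rw [pow_succ' a, mul_assoc, ih, ← mul_assoc, ← mul_assoc, h1, mul_assoc _ (z ^ j),
      ← (Commute.pow_pow az i j).eq, add_mul, one_mul, add_comm, pow_add]
    simp only [mul_assoc]

theorem pw_swap {a b z : G} (hz : z ^ p = 1) (hab : a * b = b * a * z) (az : a * z = z * a)
    (bz : b * z = z * b) (k l : ZMod p) : pw b l * pw a k = pw a k * pw b l * pw z (-(k * l)) := by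
  have := swap_pow hab az bz k.val l.val
  rw [← pw_nat hz, Nat.cast_mul, ZMod.natCast_zmod_val, ZMod.natCast_zmod_val] at this
  rw [pw, pw, this, mul_assoc, ← pw_add hz, add_neg_cancel, pw_zero, mul_one]

/-- first generator -/
def gA : Hz p := ⟨![1, 0], 0⟩
/-- second generator -/
def gB : Hz p := ⟨![0, 1], 0⟩
/-- their commutator -/
def gZ : Hz p := ⟨0, 2⟩

theorem two_ne (h2 : p ≠ 2) : (2 : ZMod p) ≠ 0 := fun h => h2 <|
  (Nat.prime_dvd_prime_iff_eq hp.out Nat.prime_two).1 ((ZMod.natCast_eq_zero_iff 2 p).1 h)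

theorem gZ_eq : (gZ : Hz p) = gA * gB * gA⁻¹ * gB⁻¹ :=
  Hz.ext' (by simp [gZ, mul_v, inv_v]) (by
    simp [gZ, gA, gB, mul_c, mul_v, inv_v, inv_c, om]; norm_num)

theorem nf (h2 : p ≠ 2) (x : Hz p) : x = gA ^ (x.v 0).val * gB ^ (x.v 1).val *
    gZ ^ (2⁻¹ * (x.c - x.v 0 * x.v 1)).val := by
  have := two_ne h2
  refine Hz.ext' (vc_ext ?_ ?_) ?_
  · simp [pow_eq, mul_v, gA, gB, gZ]
  · simp [pow_eq, mul_v, gA, gB, gZ]
  · simp [pow_eq, mul_v, mul_c, gA, gB, gZ, om]; field_simp; ring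

theorem hom_ext (h2 : p ≠ 2) {φ ψ : Hz p →* G} (ha : φ gA = ψ gA) (hb : φ gB = ψ gB) : φ = ψ := by
  ext x
  rw [nf h2 x, gZ_eq]
  simp only [map_mul, map_pow, map_inv, ha, hb]

theorem central {x : Hz p} (h : x.v = 0) (y : Hz p) : y * x = x * y :=
  Hz.ext' (by simp [mul_v, h]) (by simp [mul_c, h, om, add_comm])

theorem inj_of_Z (h2 : p ≠ 2) {φ : Hz p →* G} (h : φ gZ ≠ 1) : Function.Injective φ := by
  have t := two_ne h2
  have hz : φ gZ ^ p = 1 := by rw [← map_pow, pow_p, map_one]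
  have k : ∀ c : ZMod p, φ ⟨0, c⟩ = 1 → c = 0 := fun c hc => by
    have e : (⟨0, c⟩ : Hz p) = gZ ^ (2⁻¹ * c).val :=
      Hz.ext' (by simp [pow_eq, gZ]) (by simp [pow_eq, gZ]; field_simp)
    rw [e, map_pow] at hc
    simpa [t] using pw_eq_one hz h hc
  refine (injective_iff_map_eq_one φ).2 fun x hx => ?_
  have c : ∀ g : Hz p, om g.v x.v = 0 := fun g => by
    have : g * x * g⁻¹ * x⁻¹ = ⟨0, 2 * om g.v x.v⟩ :=
      Hz.ext' (by simp [mul_v, inv_v]) (by
        rw [mul_c, conj_c, conj_v, inv_c, inv_v]; simp [om]; ring)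
    have := k _ (by rw [← this]; simp [hx])
    simpa [t] using this
  have h0 := c gB
  have h1 := c gA
  simp [om, gA, gB] at h0 h1
  have hv : x.v = 0 := vc_ext h0 h1
  obtain ⟨v, c'⟩ := x
  obtain rfl : v = 0 := hv
  rw [k c' hx]; rfl

theorem exists_hom (h2 : p ≠ 2) {a b z : G} (ha : a ^ p = 1) (hb : b ^ p = 1) (hz : z ^ p = 1)
    (z1 : z ≠ 1) (hab : a * b = b * a * z) (az : a * z = z * a) (bz : b * z = z * b) :
    ∃ ι : Hz p →* G, Function.Injective ι ∧ ι gA = a ∧ ι gB = b ∧ ι gZ = z := by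
  have t := two_ne h2
  let ι : Hz p →* G := MonoidHom.mk'
    (fun x => pw a (x.v 0) * pw b (x.v 1) * pw z (2⁻¹ * (x.c - x.v 0 * x.v 1))) fun x y => by
      have e : 2⁻¹ * ((x * y).c - (x * y).v 0 * (x * y).v 1) = -(y.v 0 * x.v 1) +
          2⁻¹ * (x.c - x.v 0 * x.v 1) + 2⁻¹ * (y.c - y.v 0 * y.v 1) := by
        simp only [mul_c, mul_v, om, Pi.add_apply]; field_simp; ring
      rw [e, mul_v, Pi.add_apply, Pi.add_apply, pw_add ha, pw_add hb, pw_add hz, pw_add hz]
      generalize 2⁻¹ * (x.c - x.v 0 * x.v 1) = k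
      generalize 2⁻¹ * (y.c - y.v 0 * y.v 1) = l
      calc _ = pw a (x.v 0) * (pw a (y.v 0) * pw b (x.v 1) * pw z (-(y.v 0 * x.v 1))) *
            (pw b (y.v 1) * pw z k) * pw z l := by
            simp only [mul_assoc]
            rw [← mul_assoc (pw b (y.v 1)), pw_comm bz, mul_assoc]
        _ = _ := by
            rw [← pw_swap hz hab az bz, pw_comm bz]
            simp only [mul_assoc]
            rw [← mul_assoc (pw a (y.v 0)), pw_comm az, mul_assoc]
  have e3 : ι gZ = z := by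
    show pw a _ * pw b _ * pw z _ = z
    simp [gZ, pw_zero, inv_mul_cancel₀ t, pw_one hz]
  refine ⟨ι, inj_of_Z h2 (e3 ▸ z1), ?_, ?_, e3⟩
  · show pw a _ * pw b _ * pw z _ = a
    simp [gA, pw_zero, pw_one ha]
  · show pw a _ * pw b _ * pw z _ = b
    simp [gB, pw_zero, pw_one hb]

theorem Tri.exists_hom (h2 : p ≠ 2) {a b z : G} (h : Tri p a b z) :
    ∃ ι : Hz p →* G, Function.Injective ι ∧ Three (EG ι) ∧ ι gA = a ∧ ι gB = b := by
  obtain ⟨ha, hb, hz, z1, hab, az, bz, ⟨i1, h1⟩, ⟨i2, h2'⟩, i, j, k, l, hi, hj, h3⟩ := h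
  obtain ⟨ι, hι, ea, eb, ez⟩ := RV.exists_hom h2 ha hb hz z1 hab az bz
  have zz : ∀ n : ℕ, z ^ n = ι ⟨0, n * 2⟩ := fun n => by
    rw [← ez, ← map_pow, pow_eq]; simp [gZ]
  have hi' : (i : ZMod p) ≠ 0 := by rwa [Ne, ZMod.natCast_eq_zero_iff]
  have hj' : (j : ZMod p) ≠ 0 := by rwa [Ne, ZMod.natCast_eq_zero_iff]
  have ev : (gA ^ i * gB ^ j * gZ ^ k : Hz p).v = ![(i : ZMod p), (j : ZMod p)] :=
    vc_ext (by simp [pow_eq, mul_v, gA, gB, gZ]) (by simp [pow_eq, mul_v, gA, gB, gZ])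
  refine ⟨ι, hι, ⟨![1, 0], ⟨by simp, 0, i1 * 2, by rw [← zz]; exact ea ▸ h1⟩, ![0, 1],
    ⟨by simp, 0, i2 * 2, by rw [← zz]; exact eb ▸ h2'⟩, ![i, j], ⟨by simp [hi'],
      (gA ^ i * gB ^ j * gZ ^ k : Hz p).c, l * 2, ?_⟩, by simp [om], by simpa [om], by simpa [om]⟩, ea, eb⟩
  rw [← zz l, ← ev]
  show IsConj (ι (gA ^ i * gB ^ j * gZ ^ k)) _
  simpa only [map_mul, map_pow, ea, eb, ez] using h3

/-- every injective endomorphism is a linear map followed by a conjugation -/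
theorem exists_act (h2 : p ≠ 2) (f : Hz p →* Hz p) (hf : Function.Injective f) :
    ∃ (g : G2 p) (y : Hz p), ∀ x, f x = y * act g x * y⁻¹ := by
  have t := two_ne h2
  have hd : om (f gA).v (f gB).v ≠ 0 := fun h => by
    have : f gZ = 1 := by
      rw [gZ_eq, map_mul, map_mul, map_mul, map_inv, map_inv]
      refine Hz.ext' (by simp [mul_v, inv_v, one_v]) ?_
      rw [mul_c, conj_c, conj_v, inv_c, inv_v, h, one_c]; simp [om]; ring
    have := congrArg Hz.c (hf (this.trans f.map_one.symm))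
    exact t this
  let g : G2 p := GeneralLinearGroup.mkOfDetNeZero
    !![(f gA).v 0, (f gB).v 0; (f gA).v 1, (f gB).v 1] (by
      rw [det_fin_two_of]; intro h; apply hd; rw [om, ← h]; ring)
  have e0 : mv g gA.v = (f gA).v := vc_ext (by simp [mv_zero', g, gA]) (by simp [mv_one', g, gA])
  have e1 : mv g gB.v = (f gB).v := vc_ext (by simp [mv_zero', g, gB]) (by simp [mv_one', g, gB])
  let δ := om (f gA).v (f gB).v
  let y : Hz p := ⟨((f gB).c / (2 * δ)) • (f gA).v - ((f gA).c / (2 * δ)) • (f gB).v, 0⟩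
  refine ⟨g, y, fun x => ?_⟩
  have : f = (MulAut.conj y).toMonoidHom.comp (actA g).toMonoidHom := by
    refine hom_ext h2 (Hz.ext' ?_ ?_) (Hz.ext' ?_ ?_)
    · exact e0.symm.trans (conj_v y (act g gA)).symm
    · show _ = (y * act g gA * y⁻¹).c
      rw [conj_c, act_v, e0, act_c]
      have : δ ≠ 0 := hd
      simp only [gA, y, om, Pi.sub_apply, Pi.smul_apply, smul_eq_mul, δ] at this ⊢
      field_simp; ring
    · exact e1.symm.trans (conj_v y (act g gB)).symm
    · show _ = (y * act g gB * y⁻¹).c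
      rw [conj_c, act_v, e1, act_c]
      have : δ ≠ 0 := hd
      simp only [gB, y, om, Pi.sub_apply, Pi.smul_apply, smul_eq_mul, δ] at this ⊢
      field_simp; ring
  rw [this]; rfl

theorem act_eq_conj {g : G2 p} {y : Hz p} (h : ∀ x, act g x = y * x * y⁻¹) : g = 1 := by
  have e0 := congrArg Hz.v (h gA)
  have e1 := congrArg Hz.v (h gB)
  rw [conj_v, act_v] at e0 e1
  have a := congrFun e0 0
  have b := congrFun e0 1
  have c := congrFun e1 0
  have d := congrFun e1 1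
  simp [mv_zero', mv_one', gA, gB] at a b c d
  exact g2_ext a c b d

end Cfsg.Agent.RV
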