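import Cfsg.Agent.RV.Defs2

/-! Normal form of the elements of `C(t, x)`. -/

set_option autoImplicit false
set_option linter.unusedSimpArgs false
set_option linter.unusedSectionVars false

namespace Cfsg.Agent.RV

open Subgroup

namespace L0

variable {p : ℕ} {G : Type*} [Group G] {t x a b r d : G}

/-- the eight elements of the quaternion group -/
def InQ (t a b k : G) : Prop :=
  k = 1 ∨ k = t ∨ k = a ∨ k = a * t ∨ k = b ∨ k = b * t ∨ k = a * b ∨ k = a * b * t

theorem r1 (h : LH p t x a b r d) (y : G) : t * (t * y) = y := by rw [← mul_assoc, h.tt, one_mul]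
theorem r2 (h : LH p t x a b r d) (y : G) : a * (a * y) = t * y := by rw [← mul_assoc, h.aa]
theorem r3 (h : LH p t x a b r d) (y : G) : b * (b * y) = t * y := by rw [← mul_assoc, h.bb]
theorem r4 (h : LH p t x a b r d) (y : G) : b * (a * y) = a * (b * (t * y)) := by
  rw [← mul_assoc, h.ba, mul_assoc, mul_assoc]
theorem r5 (h : LH p t x a b r d) (y : G) : t * (a * y) = a * (t * y) := by
  rw [← mul_assoc, ← h.ta, mul_assoc]
theorem r6 (h : LH p t x a b r d) (y : G) : t * (b * y) = b * (t * y) := by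
  rw [← mul_assoc, ← h.tb, mul_assoc]
theorem r7 (h : LH p t x a b r d) : b * a = a * (b * t) := by rw [h.ba, mul_assoc]

theorem mul_inQ (h : LH p t x a b r d) {u v : G} (hu : InQ t a b u) (hv : InQ t a b v) :
    InQ t a b (u * v) := by
  rcases hu with hu | hu | hu | hu | hu | hu | hu | hu <;>
  rcases hv with hv | hv | hv | hv | hv | hv | hv | hv <;>
  rw [hu, hv] <;>
  simp only [InQ, mul_assoc, one_mul, mul_one, r1 h, r2 h, r3 h, r4 h, r5 h, r6 h, r7 h, h.tt,
    h.aa, h.bb, ← h.ta, ← h.tb, true_or, or_true]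

theorem sq_inQ (h : LH p t x a b r d) {u : G} (hu : InQ t a b u) :
    ((u = 1 ∨ u = t) ∧ u * u = 1) ∨
      ((u = a ∨ u = a * t ∨ u = b ∨ u = b * t ∨ u = a * b ∨ u = a * b * t) ∧ u * u = t) := by
  rcases hu with hu | hu | hu | hu | hu | hu | hu | hu <;>
  rw [hu] <;>
  simp only [mul_assoc, one_mul, mul_one, r1 h, r2 h, r3 h, r4 h, r5 h, r6 h, r7 h, h.tt,
    h.aa, h.bb, ← h.ta, ← h.tb, true_or, or_true, and_self]

theorem pow_four (h : LH p t x a b r d) {u : G} (hu : InQ t a b u) : u ^ 4 = 1 := by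
  have : u ^ 4 = u * u * (u * u) := by simp only [pow_succ, pow_zero, one_mul, mul_assoc]
  rcases sq_inQ h hu with ⟨-, e⟩ | ⟨-, e⟩ <;> rw [this, e]
  · exact mul_one _
  · exact h.tt

/-- the quaternion group -/
def Q (h : LH p t x a b r d) : Subgroup G where
  carrier := {k | InQ t a b k}
  one_mem' := Or.inl rfl
  mul_mem' hu hv := mul_inQ h hu hv
  inv_mem' {u} hu := by
    have e : u⁻¹ = u * (u * u) := inv_eq_of_mul_eq_one_right (by
      rw [← pow_four h hu]; simp only [pow_succ, pow_zero, one_mul, mul_assoc])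
    rw [e]; exact mul_inQ h hu (mul_inQ h hu hu)

theorem mem_Q (h : LH p t x a b r d) {k : G} : k ∈ Q h ↔ InQ t a b k := Iff.rfl

theorem a_mem (h : LH p t x a b r d) : a ∈ Q h := by simp [mem_Q, InQ]
theorem b_mem (h : LH p t x a b r d) : b ∈ Q h := by simp [mem_Q, InQ]
theorem t_mem (h : LH p t x a b r d) : t ∈ Q h := by simp [mem_Q, InQ]

theorem Q_ind (h : LH p t x a b r d) {M : Subgroup G} (ha : a ∈ M) (hb : b ∈ M) : Q h ≤ M := by
  have ht : t ∈ M := h.aa ▸ M.mul_mem ha ha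
  intro k hk
  rcases hk with e | e | e | e | e | e | e | e <;> rw [e]
  · exact M.one_mem
  · exact ht
  · exact ha
  · exact M.mul_mem ha ht
  · exact hb
  · exact M.mul_mem hb ht
  · exact M.mul_mem ha hb
  · exact M.mul_mem (M.mul_mem ha hb) ht

theorem ab_ne (h : LH p t x a b r d) : a * b ≠ b * a := fun e => h.t1 (by
  have := h.ba; rw [← e] at this; exact (mul_eq_left.1 this.symm))

theorem x_comm (h : LH p t x a b r d) {q : G} (hq : q ∈ Q h) : Commute x q := by
  have : Q h ≤ centralizer ({x} : Set G) :=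
    Q_ind h (mem_centralizer_singleton_iff.2 h.xa.symm) (mem_centralizer_singleton_iff.2 h.xb.symm)
  exact (mem_centralizer_singleton_iff.1 (this hq)).symm

theorem r_conj (h : LH p t x a b r d) {q : G} (hq : q ∈ Q h) : r * q * r⁻¹ ∈ Q h := by
  have : Q h ≤ (Q h).comap (MulAut.conj r).toMonoidHom := Q_ind h
    (by show r * a * r⁻¹ ∈ Q h; rw [h.ra]; exact b_mem h)
    (by show r * b * r⁻¹ ∈ Q h; rw [h.rb]; exact (Q h).mul_mem (a_mem h) (b_mem h))
  exact this hq

theorem mem_K {k : G} : k ∈ centralizer ({t, x} : Set G) ↔ k * t = t * k ∧ k * x = x * k := by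
  simp only [mem_centralizer_iff, Set.mem_insert_iff, Set.mem_singleton_iff, forall_eq_or_imp,
    forall_eq]
  exact ⟨fun h => ⟨h.1.symm, h.2.symm⟩, fun h => ⟨h.1.symm, h.2.symm⟩⟩

theorem r_ne (h : LH p t x a b r d) : r ≠ 1 := fun e => ab_ne h (by
  have := h.ra; rw [e] at this; simp only [one_mul, inv_one, mul_one] at this; rw [this])

variable [Fact p.Prime] [Finite G]

theorem order_y (h : LH p t x a b r d) (hp : 5 ≤ p) : orderOf (x * r) = p * 3 := by
  have : Fact (Nat.Prime 3) := ⟨Nat.prime_three⟩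
  have hx : orderOf x = p := orderOf_eq_prime h.xp h.x1
  have hr : orderOf r = 3 := orderOf_eq_prime h.r3 (r_ne h)
  have hc : Commute x r := h.xr
  rw [hc.orderOf_mul_eq_mul_orderOf_of_coprime, hx, hr]
  rw [hx, hr]
  exact (Nat.coprime_primes Fact.out Nat.prime_three).2 (by omega)

omit [Fact p.Prime] in
theorem eight_dvd (h : LH p t x a b r d) : 8 ∣ Nat.card (Q h) := by
  have : Fact (Nat.Prime 2) := ⟨Nat.prime_two⟩
  have hP : IsPGroup 2 (Q h) := fun q => ⟨2, Subtype.ext (by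
    simpa using pow_four h q.2)⟩
  obtain ⟨n, hn⟩ := IsPGroup.iff_card.1 hP
  have ha : orderOf a = 2 ^ (1 + 1) := orderOf_eq_prime_pow
    (by rw [pow_one, pow_two, h.aa]; exact h.t1) (by simpa using pow_four h (a_mem h))
  have hlt : zpowers a < Q h := lt_of_le_of_ne (zpowers_le.2 (a_mem h)) fun e => by
    have hb := b_mem h
    rw [← e] at hb
    obtain ⟨i, hi⟩ := mem_zpowers_iff.1 hb
    exact ab_ne h (by rw [← hi]; exact (Commute.refl a).zpow_right i)
  have h4 : Nat.card (zpowers a) < Nat.card (Q h) :=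
    lt_of_le_of_ne (card_le_of_le hlt.le) fun e => hlt.ne (eq_of_le_of_card_ge hlt.le e.ge)
  rw [Nat.card_zpowers, ha, hn] at h4
  rw [hn]
  have : 2 < n := (Nat.pow_lt_pow_iff_right (by norm_num)).1 h4
  exact pow_dvd_pow 2 (show 3 ≤ n by omega)

theorem sup_eq (h : LH p t x a b r d) (hp : 5 ≤ p) :
    zpowers (x * r) ⊔ Q h = centralizer ({t, x} : Set G) ∧
      Nat.card (centralizer ({t, x} : Set G)) = 24 * p := by
  have hle : zpowers (x * r) ⊔ Q h ≤ centralizer ({t, x} : Set G) := by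
    refine sup_le (zpowers_le.2 (mul_mem ?_ ?_)) (Q_ind h ?_ ?_)
    · exact mem_K.2 ⟨h.tx, rfl⟩
    · exact mem_K.2 ⟨h.tr, h.xr.symm⟩
    · exact mem_K.2 ⟨h.ta, h.xa.symm⟩
    · exact mem_K.2 ⟨h.tb, h.xb.symm⟩
  have d1 : p * 3 ∣ Nat.card ↥(zpowers (x * r) ⊔ Q h) := by
    rw [← order_y h hp, ← Nat.card_zpowers]; exact card_dvd_of_le le_sup_left
  have d2 : 8 ∣ Nat.card ↥(zpowers (x * r) ⊔ Q h) :=
    (eight_dvd h).trans (card_dvd_of_le le_sup_right)
  have hc : Nat.Coprime (p * 3) 8 := by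
    refine Nat.Coprime.mul_left ?_ (by norm_num)
    exact Nat.Coprime.pow_right 3 ((Nat.coprime_primes Fact.out Nat.prime_two).2 (by omega))
  have d3 := Nat.le_of_dvd Nat.card_pos (hc.mul_dvd_of_dvd_of_dvd d1 d2)
  have h1 := h.card
  have h2 := card_le_of_le hle
  exact ⟨eq_of_le_of_card_ge hle (by omega), by omega⟩

theorem nf (h : LH p t x a b r d) (hp : 5 ≤ p) {k : G} (h1 : k * t = t * k) (h2 : k * x = x * k) :
    ∃ n : ℕ, ∃ q ∈ Q h, k = (x * r) ^ n * q := by
  have hk : k ∈ zpowers (x * r) ⊔ Q h := by rw [(sup_eq h hp).1]; exact mem_K.2 ⟨h1, h2⟩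
  have hn : zpowers (x * r) ≤ normalizer (Q h) := zpowers_le.2 (mul_mem
    (mem_normalizer_fintype fun q hq => by
      rw [(x_comm h hq).eq, mul_inv_cancel_right]; exact hq)
    (mem_normalizer_fintype fun q hq => r_conj h hq))
  have := coe_mul_of_left_le_normalizer_right _ _ hn
  have hk' : k ∈ ((zpowers (x * r) ⊔ Q h : Subgroup G) : Set G) := hk
  rw [this] at hk'
  obtain ⟨u, hu, q, hq, e⟩ := hk'
  obtain ⟨n, hn⟩ := (mem_powers_iff_mem_zpowers.2 hu)
  exact ⟨n, q, hq, by rw [← e, ← hn]⟩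

theorem y_conj (h : LH p t x a b r d) (n : ℕ) {q : G} (hq : q ∈ Q h) :
    ((x * r) ^ n)⁻¹ * q * (x * r) ^ n ∈ Q h := by
  have hn : x * r ∈ normalizer (Q h) := mul_mem
    (mem_normalizer_fintype fun q hq => by
      rw [(x_comm h hq).eq, mul_inv_cancel_right]; exact hq)
    (mem_normalizer_fintype fun q hq => r_conj h hq)
  exact (mem_normalizer_iff''.1 (pow_mem hn n) q).1 hq

theorem mem_of_sq (h : LH p t x a b r d) (hp : 5 ≤ p) {k : G} (h1 : k * t = t * k)
    (h2 : k * x = x * k) (hk : k * k ∈ Q h) : k ∈ Q h := by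
  obtain ⟨n, q, hq, e⟩ := nf h hp h1 h2
  set y := (x * r) ^ n with hy
  have e2 : y * y = k * k * ((y⁻¹ * q * y) * q)⁻¹ := by rw [e]; group
  have m : y * y ∈ Q h := by
    rw [e2]; exact mul_mem hk (inv_mem (mul_mem (y_conj h n hq) hq))
  have e8 : y ^ 8 = 1 := by
    have := pow_four h m
    rw [← pow_two, ← pow_mul] at this; exact this
  have e3 : y ^ (p * 3) = 1 := by
    rw [hy, ← pow_mul, mul_comm n, pow_mul, ← order_y h hp, pow_orderOf_eq_one, one_pow]
  have hc : Nat.Coprime (p * 3) 8 := by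
    refine Nat.Coprime.mul_left ?_ (by norm_num)
    exact Nat.Coprime.pow_right 3 ((Nat.coprime_primes Fact.out Nat.prime_two).2 (by omega))
  have : y = 1 := by
    have := pow_gcd_eq_one.2 ⟨e3, e8⟩
    rwa [hc, pow_one] at this
  rw [e, this, one_mul]; exact hq

end L0

variable {p : ℕ} [Fact p.Prime] {G : Type*} [Group G] [Finite G] {t x a b r d : G}

theorem LH.card_K (h : LH p t x a b r d) (hp : 5 ≤ p) :
    Nat.card (centralizer ({t, x} : Set G)) = 24 * p := (L0.sup_eq h hp).2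

theorem LH.inv_eq (h : LH p t x a b r d) (hp : 5 ≤ p) {k : G} (h1 : k * t = t * k)
    (h2 : k * x = x * k) (hk : k * k = 1) : k = 1 ∨ k = t := by
  have := L0.mem_of_sq h hp h1 h2 (by rw [hk]; exact one_mem _)
  rcases L0.sq_inQ h this with ⟨e, -⟩ | ⟨-, e⟩
  · exact e
  · exact absurd (e.symm.trans hk) h.t1

theorem LH.sq_t (h : LH p t x a b r d) (hp : 5 ≤ p) {k : G} (h2 : k * x = x * k) (hk : k * k = t) :
    k = a ∨ k = a * t ∨ k = b ∨ k = b * t ∨ k = a * b ∨ k = a * b * t := by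
  have h1 : k * t = t * k := by rw [← hk, mul_assoc]
  have := L0.mem_of_sq h hp h1 h2 (by rw [hk]; exact L0.t_mem h)
  rcases L0.sq_inQ h this with ⟨-, e⟩ | ⟨e, -⟩
  · exact absurd (hk.symm.trans e) h.t1
  · exact e

theorem LH.odd_mem (h : LH p t x a b r d) (hp : 5 ≤ p) {k : G} (h1 : k * t = t * k)
    (h2 : k * x = x * k) (ho : Odd (orderOf k)) (ho' : Odd (orderOf (k * a * k⁻¹ * a⁻¹))) :
    k ∈ zpowers x := by
  obtain ⟨n, q, hq, e⟩ := L0.nf h hp h1 h2
  have hxr : Commute x r := h.xr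
  have odd1 : ∀ u ∈ L0.Q h, Odd (orderOf u) → u = 1 := fun u hu hodd => by
    have h4 : orderOf u ∣ 4 := orderOf_dvd_of_pow_eq_one (L0.pow_four h hu)
    have hc : Nat.Coprime (orderOf u) 4 :=
      Nat.Coprime.pow_right 2 ((Nat.coprime_two_right).2 hodd)
    exact orderOf_eq_one_iff.1 (Nat.Coprime.eq_one_of_dvd hc h4)
  -- conjugation by `k`
  have hr3 : r ^ n = r ^ (n % 3) := by
    conv_lhs => rw [← Nat.div_add_mod n 3, pow_add, pow_mul, h.r3, one_pow, one_mul]
  have hqa : q * a * q⁻¹ = a ∨ q * a * q⁻¹ = a * t := by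
    simp only [mul_inv_eq_iff_eq_mul]
    rcases hq with e | e | e | e | e | e | e | e <;> rw [e] <;>
    simp only [mul_assoc, one_mul, mul_one, L0.r1 h, L0.r2 h, L0.r3 h, L0.r4 h, L0.r5 h, L0.r6 h,
      L0.r7 h, h.tt, h.aa, h.bb, ← h.ta, ← h.tb, true_or, or_true]
  have hrn : ∀ (m : ℕ) (u : G), u ∈ L0.Q h → r ^ m * u * (r ^ m)⁻¹ ∈ L0.Q h := fun m u hu => by
    induction m with
    | zero => simpa using hu
    | succ m ih =>
      have := L0.r_conj h ih
      rwa [show r * (r ^ m * u * (r ^ m)⁻¹) * r⁻¹ = r ^ (m + 1) * u * (r ^ (m + 1))⁻¹ by group]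
        at this
  have hka : k * a * k⁻¹ = r ^ n * (q * a * q⁻¹) * (r ^ n)⁻¹ := by
    have m := hrn n _ (mul_mem (mul_mem hq (L0.a_mem h)) (inv_mem hq))
    have c := ((L0.x_comm h m).pow_left n).eq
    rw [e, hxr.mul_pow]
    calc x ^ n * r ^ n * q * a * (x ^ n * r ^ n * q)⁻¹
        = x ^ n * (r ^ n * (q * a * q⁻¹) * (r ^ n)⁻¹) * (x ^ n)⁻¹ := by group
      _ = _ := by rw [c, mul_inv_cancel_right]
  have hc : k * a * k⁻¹ = a := by
    have m : k * a * k⁻¹ * a⁻¹ ∈ L0.Q h := by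
      rw [hka]
      exact mul_mem (hrn n _ (mul_mem (mul_mem hq (L0.a_mem h)) (inv_mem hq)))
        (inv_mem (L0.a_mem h))
    exact mul_inv_eq_one.1 (odd1 _ m ho')
  have hab := L0.ab_ne h
  have hrt : ∀ m : ℕ, r ^ m * t * (r ^ m)⁻¹ = t := fun m => by
    have : Commute r t := h.tr
    rw [(this.pow_left m).eq, mul_inv_cancel_right]
  have key : r ^ n * a * (r ^ n)⁻¹ = a ∨ r ^ n * a * (r ^ n)⁻¹ = a * t := by
    rw [hc] at hka
    rcases hqa with e1 | e1 <;> rw [e1] at hka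
    · exact Or.inl hka.symm
    · right
      rw [← conj_mul, hrt] at hka
      conv_rhs => rw [hka]
      rw [mul_assoc _ t t, h.tt, mul_one]
  have hcomm : Commute a (r ^ n * a * (r ^ n)⁻¹) := by
    rcases key with e1 | e1
    · rw [e1]
    · rw [e1]; exact (Commute.refl a).mul_right h.ta
  have hn0 : n % 3 = 0 := by
    have : n % 3 = 0 ∨ n % 3 = 1 ∨ n % 3 = 2 := by omega
    rcases this with e1 | e1 | e1
    · exact e1
    · rw [hr3, e1, pow_one, h.ra] at hcomm
      exact absurd hcomm.eq hab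
    · rw [hr3, e1, show r ^ 2 * a * (r ^ 2)⁻¹ = r * (r * a * r⁻¹) * r⁻¹ by rw [pow_two]; group, h.ra, h.rb]
        at hcomm
      have := hcomm.eq
      rw [mul_assoc] at this
      exact absurd (mul_left_cancel this) hab
  rw [hn0, pow_zero] at hr3
  rw [hxr.mul_pow, hr3, mul_one] at e
  have cq : Commute (x ^ n) q := (L0.x_comm h hq).pow_left n
  have e1 : k ^ p = q ^ p := by
    rw [e, cq.mul_pow, ← pow_mul, mul_comm n, pow_mul, h.xp, one_pow, one_mul]
  have e2 : q ^ p = 1 := by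
    refine odd1 _ (pow_mem hq p) ?_
    rw [← e1]
    exact ho.of_dvd_nat (orderOf_pow_dvd p)
  have hc4 : Nat.Coprime p 4 :=
    Nat.Coprime.pow_right 2 ((Nat.coprime_primes Fact.out Nat.prime_two).2 (by omega))
  have e3 : q = 1 := by
    have := pow_gcd_eq_one.2 ⟨e2, L0.pow_four h hq⟩
    rwa [hc4, pow_one] at this
  rw [e, e3, mul_one]
  exact pow_mem (mem_zpowers x) n

end Cfsg.Agent.RV
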