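import Cfsg.Agent.RV.L0
import Cfsg.Agent.H42.ZStar
import Cfsg.Agent.H44.Cores

/-! The normal Sylow subgroup of the centraliser of `x`. -/

set_option autoImplicit false
set_option linter.unusedSectionVars false

namespace Cfsg.Agent.RV

open Subgroup

namespace L1

theorem abs {D : Type*} [Group D] [Finite D] {p : ℕ} [hF : Fact p.Prime] (hp : 5 ≤ p) {t x a b : D}
    {O : Subgroup D} [hO : O.Normal] (xc : ∀ g, g * x = x * g) (xp : x ^ p = 1) (x1 : x ≠ 1) (tt : t * t = 1)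
    (hodd : Odd (Nat.card O)) (xO : x ∈ O) (hz : ∀ g, t * g * t⁻¹ * g⁻¹ ∈ O)
    (hC : ∀ k ∈ O, k * t = t * k → k ∈ zpowers x) (h24 : ∀ k, k * t = t * k → k ^ 24 ∈ zpowers x)
    (ta : a * t = t * a) (tb : b * t = t * b) (ba : b * a = a * b * t)
    (hy : ∃ y : D, ∃ k : ℕ, y ^ p ^ k = 1 ∧ y ∉ zpowers x) (p4 : ¬ p ^ 4 ∣ Nat.card D) :
    ∃ P : Subgroup D, Nat.card P = p ^ 3 ∧ (∀ y, y ∈ P ↔ y ^ p = 1) ∧
      (∀ s ∈ P, t * s * t⁻¹ * s ∈ zpowers x) ∧ ∀ s ∈ P, ∀ s' ∈ P, s * s' * s⁻¹ * s'⁻¹ ∈ zpowers x := by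
  have zc : ∀ z ∈ zpowers x, ∀ g, g * z = z * g := by
    rintro _ ⟨i, rfl⟩ g
    exact (Commute.zpow_right (xc g) i).eq
  have zt : ∀ z ∈ zpowers x, t * z * t⁻¹ = z := fun z hz => by rw [zc z hz t, mul_inv_cancel_right]
  have zO : zpowers x ≤ O := zpowers_le.2 xO
  have ox : orderOf x = p := orderOf_eq_prime xp x1
  have od : ∀ u ∈ O, u ^ (Nat.card O) = 1 := fun u hu =>
    congrArg Subtype.val (pow_card_eq_one' (x := (⟨u, hu⟩ : O)))
  obtain ⟨m, hm⟩ := hodd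
  have sq1 : ∀ u ∈ O, u * u = 1 → u = 1 := fun u hu e => by
    have := od u hu
    rwa [hm, pow_succ, pow_mul, pow_two, e, one_pow, one_mul] at this
  have inv1 : ∀ u ∈ O, u = u⁻¹ → u = 1 := fun u hu e => sq1 u hu (mul_eq_one_iff_eq_inv.2 e)
  have ti : t⁻¹ = t := inv_eq_of_mul_eq_one_right tt
  have dec : ∀ g, ∃ c ∈ O, t * c * t⁻¹ = c⁻¹ ∧ c * g * t = t * (c * g) := fun g => by
    have hu := hz g
    have iu : t * (t * g * t⁻¹ * g⁻¹) * t⁻¹ = (t * g * t⁻¹ * g⁻¹)⁻¹ := by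
      calc _ = t * t * g * t⁻¹ * g⁻¹ * t⁻¹ := by group
        _ = g * t * g⁻¹ * t⁻¹ := by rw [tt, one_mul, ti]
        _ = _ := by group
    have eg : g * t = (t * g * t⁻¹ * g⁻¹)⁻¹ * t * g := by group
    generalize t * g * t⁻¹ * g⁻¹ = u at hu iu eg
    have ib : t * u ^ (m + 1) * t⁻¹ = (u ^ (m + 1))⁻¹ := by rw [← conj_pow, iu, inv_pow]
    have b2 : u = u ^ (m + 1) * u ^ (m + 1) := by
      rw [← pow_add, show m + 1 + (m + 1) = 2 * m + 1 + 1 by ring, pow_succ, ← hm, od u hu, one_mul]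
    have hb := pow_mem hu (m + 1)
    generalize u ^ (m + 1) = c at ib b2 hb
    refine ⟨c, hb, ib, ?_⟩
    rw [mul_assoc, eg, b2, ← mul_assoc t, mul_inv_eq_iff_eq_mul.1 ib]; group
  have decO : ∀ n ∈ O, ∃ z ∈ zpowers x, ∃ c ∈ O, t * c * t⁻¹ = c⁻¹ ∧ n = z * c := fun n hn => by
    obtain ⟨c, hc, ic, e⟩ := dec n
    have hz := hC _ (mul_mem hc hn) e
    exact ⟨_, hz, c⁻¹, inv_mem hc, by rw [← conj_inv, ic], by rw [← zc _ hz]; group⟩
  have inv : ∀ n ∈ O, t * n * t⁻¹ * n ∈ zpowers x := fun n hn => by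
    obtain ⟨z, hz, c, -, ic, rfl⟩ := decO n hn
    rw [← conj_mul, ic, zt z hz, mul_assoc, ← mul_assoc c⁻¹, zc z hz c⁻¹, mul_assoc, inv_mul_cancel, mul_one]
    exact mul_mem hz hz
  have cm : ∀ s ∈ O, ∀ s' ∈ O, s * s' * s⁻¹ * s'⁻¹ ∈ zpowers x := fun s hs s' hs' => by
    obtain ⟨z, hz, c, hc, ic, rfl⟩ := decO s hs
    obtain ⟨z', hz', c', hc', ic', rfl⟩ := decO s' hs'
    have := inv _ (mul_mem (inv_mem hc) (inv_mem hc'))
    rw [← conj_mul, ← conj_inv, ← conj_inv, ic, ic', inv_inv, inv_inv] at this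
    have e : z * c * (z' * c') * (z * c)⁻¹ * (z' * c')⁻¹ = c * c' * (c⁻¹ * c'⁻¹) := by
      calc _ = z * (c * (z' * c') * c⁻¹) * z⁻¹ * (z' * c')⁻¹ := by group
        _ = c * (z' * (c' * c⁻¹ * c'⁻¹) * z'⁻¹) := by rw [← zc z hz, mul_inv_cancel_right]; group
        _ = _ := by rw [← zc z' hz', mul_inv_cancel_right]; group
    rwa [e]
  have cop : ∀ k, Nat.Coprime (p ^ k) 24 := fun k => Nat.Coprime.pow_left k
    ((Nat.Prime.coprime_iff_not_dvd hF.out).2 fun h => by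
      have h1 : p ∣ 2 ^ 3 * 3 := h
      rcases (Nat.Prime.dvd_mul hF.out).1 h1 with h2 | h2
      · have := Nat.le_of_dvd (by norm_num) (hF.out.dvd_of_dvd_pow h2); omega
      · have := Nat.le_of_dvd (by norm_num) h2; omega)
  have pO : ∀ (y : D) (k : ℕ), y ^ p ^ k = 1 → y ∈ O := fun y k hy => by
    obtain ⟨c, hc, -, e⟩ := dec y
    have h1 : QuotientGroup.mk' O y ^ 24 = 1 := by
      have : QuotientGroup.mk' O (c * y) = QuotientGroup.mk' O y := by
        rw [map_mul, show QuotientGroup.mk' O c = 1 from (QuotientGroup.eq_one_iff c).2 hc, one_mul]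
      rw [← this, ← map_pow]
      exact (QuotientGroup.eq_one_iff _).2 (zO (h24 _ e))
    have h2 : QuotientGroup.mk' O y ^ p ^ k = 1 := by rw [← map_pow, hy, map_one]
    have := pow_gcd_eq_one.2 ⟨h2, h1⟩
    rw [(cop k).gcd_eq_one, pow_one] at this
    exact (QuotientGroup.eq_one_iff y).1 this
  obtain ⟨P⟩ : Nonempty (Sylow p D) := inferInstance
  have pz : ∀ (y : D) (k : ℕ), y ^ p ^ k = 1 → IsPGroup p (zpowers y) := by
    rintro y k hy ⟨_, i, rfl⟩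
    refine ⟨k, Subtype.ext ?_⟩
    change (y ^ i) ^ p ^ k = 1
    rw [← zpow_natCast, ← zpow_mul, mul_comm, zpow_mul, zpow_natCast, hy, one_zpow]
  have zn : (zpowers x).Normal := ⟨fun z hz g => by rwa [zc z hz g, mul_inv_cancel_right]⟩
  have xP : zpowers x ≤ P := (pz x 1 (by rwa [pow_one])).le_sylow_of_normal P
  have PO : (P : Subgroup D) ≤ O := fun s hs => by
    obtain ⟨k, hk⟩ := P.isPGroup' ⟨s, hs⟩
    exact pO s k (congrArg Subtype.val hk)
  have cP : ∀ n ∈ O, ∀ s ∈ (P : Subgroup D), n * s * n⁻¹ ∈ (P : Subgroup D) := fun n hn s hs => by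
    simpa using mul_mem (xP (cm n hn s (PO hs))) hs
  have pP : ∀ (y : D) (k : ℕ), y ^ p ^ k = 1 → y ∈ (P : Subgroup D) := fun y k hy => by
    have h1 : y ∈ zpowers y ⊓ normalizer ((P : Subgroup D) : Set D) := ⟨mem_zpowers y,
      mem_normalizer_iff.2 fun s => ⟨cP y (pO y k hy) s, fun h => by
        simpa [mul_assoc] using cP _ (inv_mem (pO y k hy)) _ h⟩⟩
    exact ((pz y k hy).inf_normalizer_sylow P ▸ h1 :).2
  have A : ∀ c ∈ (P : Subgroup D), t * c * t⁻¹ = c⁻¹ → c ≠ 1 → orderOf c * p < Nat.card P := by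
    intro c hc ic c1
    by_contra hle
    have iu : ∀ u ∈ zpowers c, t * u * t⁻¹ = u⁻¹ := by
      rintro _ ⟨i, rfl⟩
      rw [← conj_zpow, ic, inv_zpow]
    have cP' : zpowers c ≤ P := zpowers_le.2 hc
    let f : zpowers c × zpowers x → P := fun w => ⟨w.1 * w.2, mul_mem (cP' w.1.2) (xP w.2.2)⟩
    have fi : Function.Injective f := by
      rintro ⟨u, v⟩ ⟨u', v'⟩ e
      have e1 : (u : D) * v = u' * v' := congrArg Subtype.val e
      have e2 : (u' : D)⁻¹ * u = v' * (v : D)⁻¹ := by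
        rw [inv_mul_eq_iff_eq_mul, ← mul_assoc, ← e1, mul_inv_cancel_right]
      have m1 := mul_mem (inv_mem u'.2) u.2
      have e3 := iu _ m1
      rw [e2, zt _ (mul_mem v'.2 (inv_mem v.2))] at e3
      have e4 := inv1 _ (zO (mul_mem v'.2 (inv_mem v.2))) e3
      rw [e4] at e2
      exact Prod.ext (Subtype.ext (inv_mul_eq_one.1 e2).symm) (Subtype.ext (mul_inv_eq_one.1 e4).symm)
    have fs := (fi.bijective_of_nat_card_le (by
      rw [Nat.card_prod, Nat.card_zpowers, Nat.card_zpowers, ox]; exact not_lt.1 hle)).2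
    have nc : ∀ g, g * t = t * g → ∃ i : ℤ, g * c * g⁻¹ = c ^ i := fun g hg => by
      obtain ⟨k, hk⟩ := P.isPGroup' ⟨c, hc⟩
      have hk' : c ^ p ^ k = 1 := congrArg Subtype.val hk
      obtain ⟨⟨u, v⟩, e⟩ := fs ⟨g * c * g⁻¹, pP _ k (by rw [conj_pow, hk']; group)⟩
      have e1 : (u : D) * v = g * c * g⁻¹ := congrArg Subtype.val e
      have e2 : t * (g * c * g⁻¹) * t⁻¹ = (g * c * g⁻¹)⁻¹ := by
        calc _ = (t * g) * c * (t * g)⁻¹ := by group
          _ = g * (t * c * t⁻¹) * g⁻¹ := by rw [← hg]; group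
          _ = _ := by rw [ic]; group
      rw [← e1, ← conj_mul, iu _ u.2, zt _ v.2, zc _ v.2, mul_inv_rev, mul_left_inj] at e2
      rw [inv1 _ (zO v.2) e2, mul_one] at e1
      obtain ⟨i, hi⟩ := u.2
      exact ⟨i, e1.symm.trans hi.symm⟩
    obtain ⟨i, hi⟩ := nc a ta
    obtain ⟨j, hj⟩ := nc b tb
    have e1 : a * b * c * (a * b)⁻¹ = c ^ (i * j) := by
      calc _ = a * (b * c * b⁻¹) * a⁻¹ := by group
        _ = _ := by rw [hj, ← conj_zpow, hi, zpow_mul]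
    have e2 : b * a * c * (b * a)⁻¹ = c ^ (i * j) := by
      calc _ = b * (a * c * a⁻¹) * b⁻¹ := by group
        _ = _ := by rw [hi, ← conj_zpow, hj, mul_comm i, zpow_mul]
    have e3 : a * b * c⁻¹ * (a * b)⁻¹ = a * b * c * (a * b)⁻¹ := by
      rw [e1, ← e2, ba, ← ic]; group
    exact c1 (inv1 c (PO hc) (by simpa using e3.symm))
  obtain ⟨e, he⟩ := IsPGroup.iff_card.1 P.isPGroup'
  have e3 : e ≤ 3 := by
    by_contra h
    exact p4 ((pow_dvd_pow p (by omega : 4 ≤ e)).trans (he ▸ card_subgroup_dvd_card (P : Subgroup D)))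
  have B : ∀ c ∈ (P : Subgroup D), t * c * t⁻¹ = c⁻¹ → c ≠ 1 → c ^ p = 1 ∧ e = 3 := fun c hc ic c1 => by
    obtain ⟨k, hk⟩ := IsPGroup.iff_orderOf.1 P.isPGroup' ⟨c, hc⟩
    rw [← Subgroup.orderOf_coe] at hk
    have h1 := A c hc ic c1
    change orderOf c = _ at hk
    rw [hk, he, ← pow_succ, Nat.pow_lt_pow_iff_right hF.out.one_lt] at h1
    have k0 : k ≠ 0 := by rintro rfl; exact c1 (orderOf_eq_one_iff.1 hk)
    obtain rfl : k = 1 := by omega
    exact ⟨by rw [← pow_one p, ← hk, pow_orderOf_eq_one], by omega⟩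
  have cP2 : ∀ z ∈ zpowers x, ∀ c, z * c ∈ (P : Subgroup D) → c ∈ (P : Subgroup D) := fun z hz c h =>
    (mul_mem_cancel_left (xP hz)).1 h
  refine ⟨P, ?_, fun y => ⟨fun hy => ?_, fun hy => pP y 1 (by rwa [pow_one])⟩, fun s hs => inv s (PO hs),
    fun s hs s' hs' => cm s (PO hs) s' (PO hs')⟩
  · obtain ⟨y, k, hy, hy'⟩ := hy
    obtain ⟨z, hz, c, -, ic, rfl⟩ := decO y (pO y k hy)
    rw [he, (B c (cP2 z hz c (pP _ k hy)) ic (by rintro rfl; exact hy' (by rwa [mul_one]))).2]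
  · obtain ⟨z, hz, c, -, ic, rfl⟩ := decO y (PO hy)
    have c1 : c ^ p = 1 := by
      by_cases c1 : c = 1
      · rw [c1, one_pow]
      · exact (B c (cP2 z hz c hy) ic c1).1
    obtain ⟨i, rfl⟩ := hz
    rw [Commute.mul_pow (zc _ ⟨i, rfl⟩ c).symm, c1, mul_one]
    change (x ^ i) ^ p = 1
    rw [← zpow_natCast, ← zpow_mul, mul_comm, zpow_mul, zpow_natCast, xp, one_zpow]

theorem gen {G : Type*} [Group G] [Finite G] {p : ℕ} [Fact p.Prime] {x z : G} (xp : x ^ p = 1)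
    (hz : z ∈ zpowers x) (z1 : z ≠ 1) : x ∈ zpowers z := by
  have x1 : x ≠ 1 := by rintro rfl; exact z1 (by simpa using hz)
  obtain ⟨i, hi⟩ := mem_zpowers_of_prime_card (G := zpowers x) (p := p)
    (by rw [Nat.card_zpowers, orderOf_eq_prime xp x1]) (g := ⟨z, hz⟩) (g' := ⟨x, mem_zpowers x⟩)
    (fun e => z1 (congrArg Subtype.val e))
  exact ⟨i, congrArg Subtype.val hi⟩

theorem exists_y {G : Type*} [Group G] [Finite G] {p : ℕ} [hF : Fact p.Prime] {x : G} (xp : x ^ p = 1)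
    (x1 : x ≠ 1) (p3 : p ^ 3 ∣ Nat.card G) : ∃ y : G, y * x = x * y ∧ ∃ k : ℕ, y ^ p ^ k = 1 ∧ y ∉ zpowers x := by
  have ox : orderOf x = p := orderOf_eq_prime xp x1
  have hp : IsPGroup p (zpowers x) := IsPGroup.of_card (n := 1) (by rw [Nat.card_zpowers, ox, pow_one])
  obtain ⟨P, hP⟩ := hp.exists_le_sylow
  have xP : x ∈ (P : Subgroup G) := hP (mem_zpowers x)
  have : Nontrivial P := ⟨⟨⟨x, xP⟩, 1, fun e => x1 (congrArg Subtype.val e)⟩⟩
  have := P.isPGroup'.center_nontrivial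
  obtain ⟨z, z1⟩ := exists_ne (1 : center P)
  have zc : ∀ y ∈ (P : Subgroup G), y * z = z * y := fun y hy =>
    congrArg Subtype.val (mem_center_iff.1 z.2 ⟨y, hy⟩)
  have pw : ∀ y ∈ (P : Subgroup G), ∃ k : ℕ, y ^ p ^ k = 1 := fun y hy =>
    (P.isPGroup' ⟨y, hy⟩).imp fun k hk => congrArg Subtype.val hk
  by_cases hz : ((z : P) : G) ∈ zpowers x
  · obtain ⟨i, hi⟩ := gen xp hz fun e => z1 (Subtype.ext (Subtype.ext e))
    have : ¬ (P : Subgroup G) ≤ zpowers x := fun h => by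
      have h1 := (P.pow_dvd_card_of_pow_dvd_card p3).trans (card_dvd_of_le h)
      rw [Nat.card_zpowers, ox] at h1
      have h2 := Nat.le_of_dvd hF.out.pos h1
      have h3 : p ^ 1 < p ^ 3 := Nat.pow_lt_pow_right hF.out.one_lt (by norm_num)
      rw [pow_one] at h3
      omega
    obtain ⟨y, hy, hy'⟩ := SetLike.not_le_iff_exists.1 this
    obtain ⟨k, hk⟩ := pw y hy
    exact ⟨y, by rw [← hi]; exact (Commute.zpow_right (zc y hy) i).eq, k, hk, hy'⟩
  · obtain ⟨k, hk⟩ := pw _ (z : P).2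
    exact ⟨_, (zc x xP).symm, k, hk, hz⟩

end L1

variable {p : ℕ} [Fact p.Prime] {G : Type*} [Group G] [Finite G] {t x a b r d : G}

theorem LH.exists_S (h : LH p t x a b r d) (hp : 5 ≤ p) : ∃ S : Subgroup G, LS p t x S := by
  have hF : p.Prime := Fact.out
  let D := centralizer ({x} : Set G)
  have mD : ∀ {g : G}, g ∈ D ↔ g * x = x * g := mem_centralizer_singleton_iff
  let t' : D := ⟨t, mD.2 h.tx.symm⟩
  let x' : D := ⟨x, mD.2 rfl⟩
  let a' : D := ⟨a, mD.2 h.xa.symm⟩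
  let b' : D := ⟨b, mD.2 h.xb.symm⟩
  have ox : orderOf x = p := orderOf_eq_prime h.xp h.x1
  have mz : ∀ {k : D}, k ∈ zpowers x' ↔ (k : G) ∈ zpowers x := fun {k} =>
    ⟨fun ⟨i, e⟩ => ⟨i, congrArg Subtype.val e⟩, fun ⟨i, e⟩ => ⟨i, Subtype.ext e⟩⟩
  have tt : t' * t' = 1 := Subtype.ext h.tt
  have t1 : t' ≠ 1 := fun e => h.t1 (congrArg Subtype.val e)
  have iso : IsIsolatedInvolution t' := by
    refine ⟨orderOf_eq_prime (by rw [pow_two, tt]) t1, fun g hg => ?_⟩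
    rcases h.inv_eq hp (k := (g * t' * g⁻¹ : D)) (congrArg Subtype.val hg.eq.symm) (mD.1 (g * t' * g⁻¹).2)
      (by rw [← coe_mul, conj_mul, tt]; simp) with e | e
    · exact absurd (by simpa using (Subtype.ext e : g * t' * g⁻¹ = 1)) t1
    · exact Subtype.ext e
  obtain ⟨N, hN, oN, hz⟩ := H42.zstar iso
  have xc : ∀ g : D, g * x' = x' * g := fun g => Subtype.ext (mD.1 g.2)
  have po : Odd p := hF.odd_of_ne_two (by omega)
  have zn : (zpowers x').Normal := ⟨by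
    rintro _ ⟨i, rfl⟩ g
    rw [(Commute.zpow_right (xc g) i).eq, mul_inv_cancel_right]
    exact zpow_mem_zpowers _ _⟩
  have oO : Odd (Nat.card (pPrimeCore 2 D)) := Nat.coprime_two_right.1 H44.pPrimeCore_coprime
  have oe : ∀ k ∈ pPrimeCore 2 D, Odd (orderOf (k : G)) := fun k hk => by
    rw [Subgroup.orderOf_coe]
    exact oO.of_dvd_nat (orderOf_dvd_natCard _ hk)
  obtain ⟨y, y1, k, y2, y3⟩ := L1.exists_y h.xp h.x1 h.p3
  obtain ⟨P, c1, c2, c3, c4⟩ := L1.abs hp (O := pPrimeCore 2 D) (a := a') (b := b') xc (Subtype.ext h.xp)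
    (fun e => h.x1 (congrArg Subtype.val e)) tt oO
    (H44.le_pPrimeCore zn (by
      rw [Nat.card_zpowers, ← Subgroup.orderOf_coe]
      exact Nat.coprime_two_right.2 (ox.symm ▸ po)) (mem_zpowers x'))
    (fun g => H44.le_pPrimeCore hN (Nat.coprime_two_right.2 oN) (hz g))
    (fun k hk e => mz.2 (h.odd_mem hp (congrArg Subtype.val e) (mD.1 k.2) (oe k hk)
      (oe (k * a' * k⁻¹ * a'⁻¹) (by
        have := mul_mem hk ((pPrimeCore_normal 2 D).conj_mem _ (inv_mem hk) a')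
        simpa only [mul_assoc] using this))))
    (fun k e => mz.2 (by
      let K := centralizer ({t, x} : Set G)
      have mK : ∀ {g : G}, g ∈ K ↔ t * g = g * t ∧ x * g = g * x := by
        intro g; simp [K, mem_centralizer_iff]
      have xK : zpowers x ≤ K := zpowers_le.2 (mK.2 ⟨h.tx.symm, rfl⟩)
      have : ((zpowers x).subgroupOf K).Normal := ⟨by
        rintro u ⟨i, hi⟩ g
        refine mem_subgroupOf.2 ?_
        have e : (u : G) = x ^ i := hi.symm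
        rw [coe_mul, coe_mul, coe_inv, e, (Commute.zpow_right (mK.1 g.2).2.symm i).eq, mul_inv_cancel_right]
        exact zpow_mem_zpowers _ _⟩
      have hi : ((zpowers x).subgroupOf K).index = 24 := by
        have := ((zpowers x).subgroupOf K).index_mul_card
        rw [Nat.card_congr (subgroupOfEquivOfLe xK).toEquiv, Nat.card_zpowers, ox, h.card_K hp] at this
        exact Nat.eq_of_mul_eq_mul_right hF.pos this
      have := ((zpowers x).subgroupOf K).pow_index_mem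
        ⟨k, mK.2 ⟨(congrArg Subtype.val e).symm, (mD.1 k.2).symm⟩⟩
      rw [hi] at this
      exact mem_subgroupOf.1 this))
    (Subtype.ext h.ta) (Subtype.ext h.tb) (Subtype.ext h.ba)
    ⟨⟨y, mD.2 y1⟩, k, Subtype.ext y2, fun e => y3 (mz.1 e)⟩
    (fun e => h.p4 (e.trans (card_subgroup_dvd_card D)))
  have mS : ∀ {s : G}, s ∈ P.map D.subtype ↔ s * x = x * s ∧ s ^ p = 1 := by
    intro s
    refine ⟨?_, fun e => ⟨⟨s, mD.2 e.1⟩, (c2 _).2 (Subtype.ext e.2), rfl⟩⟩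
    rintro ⟨s, hs, rfl⟩
    exact ⟨mD.1 s.2, congrArg Subtype.val ((c2 s).1 hs)⟩
  refine ⟨P.map D.subtype, (card_map_of_injective D.subtype_injective).trans c1, mS.2 ⟨rfl, h.xp⟩,
    fun s hs => (mS.1 hs).1, fun g hg s hs => mS.2 ⟨?_, by rw [conj_pow, (mS.1 hs).2]; group⟩,
    fun s hs => (mS.1 hs).2, ?_, ?_, fun y h1 h2 => mS.2 ⟨h1, h2⟩⟩
  · obtain ⟨i, hi⟩ := L1.gen h.xp hg (by simpa using h.x1)
    have : Commute (g * s * g⁻¹) (g * x * g⁻¹) := by
      change _ * _ = _ * _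
      rw [conj_mul, conj_mul, (mS.1 hs).1]
    have := (this.zpow_right i).eq
    change (g * x * g⁻¹) ^ i = x at hi
    rwa [hi] at this
  · rintro _ ⟨s, hs, rfl⟩
    exact mz.1 (c3 s hs)
  · rintro _ ⟨s, hs, rfl⟩ _ ⟨s', hs', rfl⟩
    exact mz.1 (c4 s hs s' hs')

end Cfsg.Agent.RV
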