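import Cfsg.Agent.RV.Defs2

/-! Fixed points of the involution `d a` on the Sylow subgroup `S`. -/

set_option autoImplicit false
set_option linter.unusedSectionVars false

namespace Cfsg.Agent.RV

open Subgroup

namespace L2

variable {p : ℕ} [Fact p.Prime] {G : Type*} [Group G] [Finite G] {t x a b r d : G} {S : Subgroup G}

theorem eq_one_of_sq (hp : 5 ≤ p) {s : G} (h1 : s ^ p = 1) (h2 : s * s = 1) : s = 1 := by
  have hc : Nat.Coprime p 2 := (Nat.coprime_primes Fact.out Nat.prime_two).2 (by omega)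
  have := pow_gcd_eq_one.2 ⟨h1, (pow_two s).trans h2⟩
  rwa [hc, pow_one] at this

theorem eq_pow_sq (hp : 5 ≤ p) {s : G} (h1 : s ^ p = 1) : s = (s * s) ^ ((p + 1) / 2) := by
  have ho : Odd p := (Fact.out : p.Prime).odd_of_ne_two (by omega)
  obtain ⟨m, hm⟩ := ho
  rw [← pow_two, ← pow_mul, show 2 * ((p + 1) / 2) = p + 1 by omega, pow_succ, h1, one_mul]

theorem inv_zp {j z : G} (hj : j * x * j⁻¹ = x⁻¹) (hz : z ∈ zpowers x) : j * z * j⁻¹ = z⁻¹ := by
  obtain ⟨i, rfl⟩ := mem_zpowers_iff.1 hz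
  rw [← conj_zpow, hj, inv_zpow]

theorem comm_zp {s z : G} (hs : s * x = x * s) (hz : z ∈ zpowers x) : s * z = z * s := by
  obtain ⟨i, rfl⟩ := mem_zpowers_iff.1 hz
  exact (Commute.zpow_right hs i).eq

theorem fix_sq {j s z : G} (hj : j * x * j⁻¹ = x⁻¹) (hs : s * x = x * s) (hz : z ∈ zpowers x)
    (e : j * s * j⁻¹ = s * z) : j * (s * s * z) * j⁻¹ = s * s * z := by
  rw [← conj_mul, ← conj_mul, e, inv_zp hj hz]
  have := comm_zp hs hz
  calc s * z * (s * z) * z⁻¹ = s * (z * s) := by group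
    _ = _ := by rw [← this, mul_assoc]

theorem card_cent_conj (g j : G) :
    Nat.card (centralizer ({g * j * g⁻¹} : Set G)) = Nat.card (centralizer ({j} : Set G)) := by
  refine Nat.card_congr
    ⟨fun c => ⟨g⁻¹ * c * g, ?_⟩, fun c => ⟨g * c * g⁻¹, ?_⟩, fun c => ?_, fun c => ?_⟩
  · have := mem_centralizer_singleton_iff.1 c.2
    rw [mem_centralizer_singleton_iff]
    calc g⁻¹ * c * g * j = g⁻¹ * (c * (g * j * g⁻¹)) * g := by group
      _ = _ := by rw [this]; group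
  · have := mem_centralizer_singleton_iff.1 c.2
    rw [mem_centralizer_singleton_iff]
    calc g * c * g⁻¹ * (g * j * g⁻¹) = g * (c * j) * g⁻¹ := by group
      _ = _ := by rw [this]; group
  · exact Subtype.ext (by show g * (g⁻¹ * c * g) * g⁻¹ = c; group)
  · exact Subtype.ext (by show g⁻¹ * (g * c * g⁻¹) * g = c; group)

theorem card_fix (h : LH p t x a b r d) (hS : LS p t x S) {j : G} (h1 : j * j = 1)
    (h2 : j * x * j⁻¹ = x⁻¹) : Nat.card ↥(S ⊓ centralizer ({j} : Set G)) ≤ p := by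
  obtain ⟨g, hg⟩ := isConj_iff.1 (h.fus j h1 h2)
  have hn : ¬ p ^ 2 ∣ Nat.card (centralizer ({j} : Set G)) := by
    rw [← card_cent_conj g j, hg]; exact h.pt
  have hd : Nat.card ↥(S ⊓ centralizer ({j} : Set G)) ∣ p ^ 3 :=
    hS.card ▸ card_dvd_of_le inf_le_left
  obtain ⟨k, -, hk⟩ := (Nat.dvd_prime_pow Fact.out).1 hd
  have hk2 : k ≤ 1 := by
    by_contra hh
    exact hn ((pow_dvd_pow p (by omega)).trans (hk ▸ card_dvd_of_le inf_le_right))
  rw [hk]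
  calc p ^ k ≤ p ^ 1 := Nat.pow_le_pow_right (Fact.out : p.Prime).pos hk2
    _ = p := pow_one p

theorem conj_into {H : Type*} [Group H] [Finite H] (hn : ¬ p ^ 2 ∣ Nat.card H) {y v : H}
    (hy : y ^ p = 1) (hy1 : y ≠ 1) (hv : v ^ p = 1) : ∃ c : H, c * v * c⁻¹ ∈ zpowers y := by
  have pg : ∀ w : H, w ^ p = 1 → IsPGroup p (zpowers w) := fun w hw q => ⟨1, Subtype.ext (by
    obtain ⟨i, hi⟩ := mem_zpowers_iff.1 q.2
    show (q : H) ^ p ^ 1 = 1
    rw [← hi, pow_one, ← zpow_natCast, ← zpow_mul, mul_comm, zpow_mul, zpow_natCast, hw, one_zpow])⟩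
  obtain ⟨Q1, h1⟩ := (pg y hy).exists_le_sylow
  obtain ⟨Q2, h2⟩ := (pg v hv).exists_le_sylow
  obtain ⟨c, hc⟩ := MulAction.exists_smul_eq H Q2 Q1
  obtain ⟨k, hk⟩ := IsPGroup.iff_card.1 Q1.isPGroup'
  have hk2 : k ≤ 1 := by
    by_contra hh
    exact hn ((pow_dvd_pow p (by omega)).trans (hk ▸ card_subgroup_dvd_card _))
  have e : zpowers y = Q1 := eq_of_le_of_card_ge h1 (by
    rw [hk, Nat.card_zpowers, orderOf_eq_prime hy hy1]
    calc p ^ k ≤ p ^ 1 := Nat.pow_le_pow_right (Fact.out : p.Prime).pos hk2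
      _ = p := pow_one p)
  refine ⟨c, ?_⟩
  rw [e, ← hc, Sylow.coe_subgroup_smul]
  exact smul_mem_pointwise_smul _ _ _ (h2 (mem_zpowers v))

theorem exists_fix (h : LH p t x a b r d) (hp : 5 ≤ p) (hS : LS p t x S) {j : G} (h1 : j * j = 1)
    (h2 : j * x * j⁻¹ = x⁻¹) (h3 : j * t = t * j) : ∃ u ∈ S, u ≠ 1 ∧ j * u * j⁻¹ = u := by
  by_contra hno
  push Not at hno
  have hno' : ∀ u ∈ S, j * u * j⁻¹ = u → u = 1 := fun u hu e => by
    by_contra hh; exact hno u hu hh e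
  have hX : zpowers x ≤ S := zpowers_le.2 hS.xS
  have ji : j⁻¹ = j := inv_eq_of_mul_eq_one_right h1
  have jS : ∀ s ∈ S, j * s * j⁻¹ ∈ S := hS.nm j (h2 ▸ inv_mem (mem_zpowers x))
  have tS : ∀ s ∈ S, t * s * t⁻¹ ∈ S :=
    hS.nm t (by rw [← h.tx, mul_inv_cancel_right]; exact mem_zpowers x)
  have hA : ∀ s ∈ S, s * (j * s * j⁻¹) ∈ zpowers x := fun s hs => by
    have hs' := jS s hs
    have hw := S.mul_mem hs hs'
    have hz := hS.cm _ (inv_mem hs') _ (inv_mem hs)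
    have e : j * (s * (j * s * j⁻¹)) * j⁻¹ = s * (j * s * j⁻¹) *
        ((j * s * j⁻¹)⁻¹ * s⁻¹ * (j * s * j⁻¹)⁻¹⁻¹ * s⁻¹⁻¹) := by
      calc j * (s * (j * s * j⁻¹)) * j⁻¹ = j * s * j⁻¹ * ((j * j) * s * (j * j)⁻¹) := by group
        _ = _ := by rw [h1]; group
    have := hno' _ (S.mul_mem (S.mul_mem hw hw) (hX hz)) (fix_sq h2 (hS.cen _ hw) hz e)
    rw [eq_pow_sq hp (hS.ex _ hw), eq_inv_of_mul_eq_one_left this]
    exact pow_mem (inv_mem hz) _
  have k1 : j * t * (j * t) = 1 := by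
    rw [mul_assoc, ← mul_assoc t, ← h3, mul_assoc, h.tt, mul_one, h1]
  have k2 : j * t * x * (j * t)⁻¹ = x⁻¹ := by
    rw [← h2, mul_assoc j t, ← h.tx]; group
  have hB : ∀ s : S, ∃ z : zpowers x, j * t * (s * s * z) * (j * t)⁻¹ = s * s * z := fun s => by
    have m1 := hS.inv s s.2
    have m2 := hA _ (tS s s.2)
    have c := comm_zp (hS.cen s s.2) (inv_mem m1)
    refine ⟨⟨(t * s * t⁻¹ * s)⁻¹ * (t * s * t⁻¹ * (j * (t * s * t⁻¹) * j⁻¹)),
      mul_mem (inv_mem m1) m2⟩, fix_sq k2 (hS.cen s s.2) (mul_mem (inv_mem m1) m2) ?_⟩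
    group
  choose z hz using hB
  let f : S → ↥(S ⊓ centralizer ({j * t} : Set G)) × zpowers x := fun s =>
    (⟨s * s * z s, S.mul_mem (S.mul_mem s.2 s.2) (hX (z s).2),
      mem_centralizer_singleton_iff.2 (mul_inv_eq_iff_eq_mul.1 (hz s)).symm⟩, z s)
  have hf : Function.Injective f := fun s s' e => by
    have e1 : (s : G) * s * z s = s' * s' * z s' := congrArg (fun w => (w.1 : G)) e
    have e2 : z s = z s' := congrArg Prod.snd e
    rw [e2] at e1
    refine Subtype.ext ?_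
    rw [eq_pow_sq hp (hS.ex _ s.2), eq_pow_sq hp (hS.ex _ s'.2), mul_right_cancel e1]
  have hc := Nat.card_le_card_of_injective f hf
  rw [Nat.card_prod, hS.card, Nat.card_zpowers, orderOf_eq_prime h.xp h.x1] at hc
  have := card_fix h hS k1 k2
  have h4 : p ^ 3 ≤ p * p := hc.trans (Nat.mul_le_mul_right _ this)
  have : p * p * 5 ≤ p * p * p := Nat.mul_le_mul_left _ hp
  have h5 : 0 < p * p := by positivity
  rw [show p ^ 3 = p * p * p by ring] at h4
  omega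

end L2

variable {p : ℕ} [Fact p.Prime] {G : Type*} [Group G] [Finite G] {t x a b r d : G} {S : Subgroup G}

theorem LH.exists_u (h : LH p t x a b r d) (hp : 5 ≤ p) (hS : LS p t x S) :
    ∃ u ∈ S, u ∉ zpowers x ∧ d * a * u * (d * a)⁻¹ = u ∧ t * u * t⁻¹ = u⁻¹ ∧
      (∀ s ∈ S, d * a * s * (d * a)⁻¹ = s → s ∈ zpowers u) ∧
      ∃ g : G, g * (d * a) * g⁻¹ = t ∧ g * u * g⁻¹ ∈ zpowers x := by
  have h1 := h.j_sq
  have h2 := h.j_inv
  have h3 : d * a * t = t * (d * a) := by rw [mul_assoc, h.ta, ← mul_assoc, h.td, mul_assoc]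
  generalize d * a = j at h1 h2 h3 ⊢
  obtain ⟨u, hu, hu1, hj⟩ := L2.exists_fix h hp hS h1 h2 h3
  have hX : zpowers x ≤ S := zpowers_le.2 hS.xS
  have triv : ∀ z ∈ zpowers x, j * z * j⁻¹ = z → z = 1 := fun z hz e => by
    rw [L2.inv_zp h2 hz] at e
    exact L2.eq_one_of_sq hp (hS.ex _ (hX hz)) (by nth_rw 1 [← e]; exact inv_mul_cancel z)
  refine ⟨u, hu, fun m => hu1 (triv u m hj), hj, ?_, fun s hs e => ?_, ?_⟩
  · refine eq_inv_of_mul_eq_one_left (triv _ (hS.inv u hu) ?_)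
    calc j * (t * u * t⁻¹ * u) * j⁻¹
        = (j * t) * u * (j * t)⁻¹ * (j * u * j⁻¹) := by group
      _ = t * (j * u * j⁻¹) * t⁻¹ * (j * u * j⁻¹) := by rw [h3]; group
      _ = _ := by rw [hj]
  · have hle : zpowers u ≤ S ⊓ centralizer ({j} : Set G) := zpowers_le.2
      ⟨hu, mem_centralizer_singleton_iff.2 (mul_inv_eq_iff_eq_mul.1 hj).symm⟩
    rw [eq_of_le_of_card_ge hle (by
      rw [Nat.card_zpowers, orderOf_eq_prime (hS.ex u hu) hu1]; exact L2.card_fix h hS h1 h2)]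
    exact ⟨hs, mem_centralizer_singleton_iff.2 (mul_inv_eq_iff_eq_mul.1 e).symm⟩
  · obtain ⟨g, hg⟩ := isConj_iff.1 (h.fus j h1 h2)
    have hv : g * u * g⁻¹ ∈ centralizer ({t} : Set G) := by
      rw [mem_centralizer_singleton_iff, ← hg, conj_mul, conj_mul, mul_inv_eq_iff_eq_mul.1 hj]
    have hx : x ∈ centralizer ({t} : Set G) := mem_centralizer_singleton_iff.2 h.tx
    obtain ⟨c, hc⟩ := L2.conj_into h.pt (y := ⟨x, hx⟩) (v := ⟨_, hv⟩) (Subtype.ext h.xp)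
      (fun e => h.x1 (congrArg Subtype.val e))
      (Subtype.ext (by show (g * u * g⁻¹) ^ p = 1; rw [conj_pow, hS.ex u hu]; group))
    obtain ⟨i, hi⟩ := mem_zpowers_iff.1 hc
    have hi' : x ^ i = c * (g * u * g⁻¹) * (c : G)⁻¹ := by
      simpa using congrArg Subtype.val hi
    refine ⟨c * g, ?_, mem_zpowers_iff.2 ⟨i, by rw [hi']; group⟩⟩
    calc (c : G) * g * j * (c * g)⁻¹ = c * (g * j * g⁻¹) * (c : G)⁻¹ := by group
      _ = t := by rw [hg, mem_centralizer_singleton_iff.1 c.2, mul_inv_cancel_right]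

end Cfsg.Agent.RV
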