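import Cfsg.Agent.RV.L2

/-! The non-abelian case: three directions are fused into the centre. -/

set_option autoImplicit false
set_option linter.unusedSectionVars false

namespace Cfsg.Agent.RV

open Subgroup

namespace L3

variable {p : ℕ} [Fact p.Prime] {G : Type*} [Group G] [Finite G] {t x a b r d : G} {S : Subgroup G}

/-- products `u ^ i v ^ j w` as a monoid -/
def TM (hS : LS p t x S) {u v : G} (hu : u ∈ S) (hv : v ∈ S) : Submonoid G where
  carrier := {g | ∃ i j : ℕ, ∃ w ∈ zpowers x, g = u ^ i * v ^ j * w}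
  one_mem' := ⟨0, 0, 1, one_mem _, by simp⟩
  mul_mem' := by
    rintro _ _ ⟨i, j, w, hw, rfl⟩ ⟨i', j', w', hw', rfl⟩
    have hc := hS.cm _ (inv_mem (pow_mem hv j)) _ (inv_mem (pow_mem hu i'))
    refine ⟨i + i', j + j', _, mul_mem (mul_mem hc hw) hw', ?_⟩
    have e1 := L2.comm_zp (hS.cen _ (pow_mem hv j')) (mul_mem hc hw)
    have e2 := L2.comm_zp (hS.cen _ (pow_mem hu i')) hw
    rw [pow_add, pow_add]
    generalize u ^ i = A at *
    generalize u ^ i' = A' at *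
    generalize v ^ j = B at *
    generalize v ^ j' = B' at *
    calc A * B * w * (A' * B' * w') = A * B * (w * A') * B' * w' := by group
      _ = A * A' * B * ((B⁻¹ * A'⁻¹ * B⁻¹⁻¹ * A'⁻¹⁻¹ * w) * B') * w' := by rw [← e2]; group
      _ = _ := by rw [← e1]; group

theorem TM_le (hS : LS p t x S) {u v : G} (hu : u ∈ S) (hv : v ∈ S) {g : G} (hg : g ∈ TM hS hu hv) :
    g ∈ S := by
  obtain ⟨i, j, w, hw, rfl⟩ := hg
  exact mul_mem (mul_mem (pow_mem hu i) (pow_mem hv j)) (zpowers_le.2 hS.xS hw)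

/-- products `u ^ i v ^ j w` as a group -/
def T (hS : LS p t x S) {u v : G} (hu : u ∈ S) (hv : v ∈ S) : Subgroup G :=
  { TM hS hu hv with
    inv_mem' := fun {g} hg => by
      have e : g⁻¹ = g ^ (p - 1) := inv_eq_of_mul_eq_one_right (by
        rw [← pow_succ', Nat.sub_add_cancel (Fact.out : p.Prime).pos, hS.ex g (TM_le hS hu hv hg)])
      rw [e]; exact pow_mem (S := TM hS hu hv) hg _ }

theorem mem_T (hS : LS p t x S) {u v : G} (hu : u ∈ S) (hv : v ∈ S) {g : G} :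
    g ∈ T hS hu hv ↔ ∃ i j : ℕ, ∃ w ∈ zpowers x, g = u ^ i * v ^ j * w := Iff.rfl

theorem gen (h : LH p t x a b r d) (hS : LS p t x S) {u v : G} (hu : u ∈ S) (hv : v ∈ S)
    (h1 : u ∉ zpowers x) (h2 : v ∉ T hS hu S.one_mem) : T hS hu hv = S := by
  have l0 : zpowers x < T hS hu S.one_mem := lt_of_le_of_ne
    (fun w hw => ⟨0, 0, w, hw, by simp⟩) fun e => h1 (e ▸ ⟨1, 0, 1, one_mem _, by simp⟩)
  have l1 : T hS hu S.one_mem < T hS hu hv := lt_of_le_of_ne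
    (by rintro _ ⟨i, j, w, hw, rfl⟩; exact ⟨i, 0, w, hw, by simp⟩)
    fun e => h2 (e ▸ ⟨0, 1, 1, one_mem _, by simp⟩)
  have l2 : T hS hu hv ≤ S := fun g hg => TM_le hS hu hv hg
  have lt : ∀ {A B : Subgroup G}, A < B → Nat.card A < Nat.card B := fun hlt =>
    lt_of_le_of_ne (card_le_of_le hlt.le) fun e => hlt.ne (eq_of_le_of_card_ge hlt.le e.ge)
  obtain ⟨k1, -, e1⟩ := (Nat.dvd_prime_pow Fact.out).1 (hS.card ▸ card_dvd_of_le (l1.le.trans l2))
  obtain ⟨k2, -, e2⟩ := (Nat.dvd_prime_pow Fact.out).1 (hS.card ▸ card_dvd_of_le l2)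
  have c0 := lt l0
  have c1 := lt l1
  have hp := (Fact.out : p.Prime).one_lt
  rw [Nat.card_zpowers, orderOf_eq_prime h.xp h.x1, e1] at c0
  rw [e1, e2] at c1
  have : 1 < k1 := (Nat.pow_lt_pow_iff_right hp).1 (by rwa [pow_one])
  have : k1 < k2 := (Nat.pow_lt_pow_iff_right hp).1 c1
  refine eq_of_le_of_card_ge l2 ?_
  rw [hS.card, e2]
  exact Nat.pow_le_pow_right hp.le (by omega)

theorem comm_T (hS : LS p t x S) {u v : G} (hu : u ∈ S) (hv : v ∈ S) {c : G} (hc : c ∈ S)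
    (c1 : Commute c u) (c2 : Commute c v) {g : G} (hg : g ∈ T hS hu hv) : Commute c g := by
  obtain ⟨i, j, w, hw, rfl⟩ := hg
  exact ((c1.pow_right i).mul_right (c2.pow_right j)).mul_right (L2.comm_zp (hS.cen c hc) hw)

theorem line (h : LH p t x a b r d) (hS : LS p t x S) (hn : ∃ s ∈ S, ∃ s' ∈ S, s * s' ≠ s' * s)
    {u v : G} (hu : u ∈ S) (hv : v ∈ S) (h1 : u ∉ zpowers x) (hc : Commute u v) :
    ∃ i : ℕ, ∃ w ∈ zpowers x, v = u ^ i * w := by
  have : v ∈ T hS hu S.one_mem := by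
    by_contra h2
    have e := gen h hS hu hv h1 h2
    obtain ⟨s, hs, s', hs', hne⟩ := hn
    refine hne (comm_T hS hu hv hs ?_ ?_ (e.ge hs')).eq
    · exact (comm_T hS hu hv hu (Commute.refl u) hc (e.ge hs)).symm
    · exact (comm_T hS hu hv hv hc.symm (Commute.refl v) (e.ge hs)).symm
  obtain ⟨i, j, w, hw, e⟩ := this
  exact ⟨i, w, hw, by rw [e, one_pow, mul_one]⟩

theorem conj_mem (hS : LS p t x S) {k s : G} (hk : k * x = x * k) (hs : s ∈ S) : k * s * k⁻¹ ∈ S :=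
  hS.nm k (by rw [hk, mul_inv_cancel_right]; exact mem_zpowers x) s hs

theorem conj_fix {k w : G} (hk : k * x = x * k) (hw : w ∈ zpowers x) : k * w * k⁻¹ = w := by
  rw [L2.comm_zp hk hw, mul_inv_cancel_right]

/-- the stabiliser of the line of `u` -/
def N (h : LH p t x a b r d) (hS : LS p t x S) (hn : ∃ s ∈ S, ∃ s' ∈ S, s * s' ≠ s' * s)
    {u : G} (hu : u ∈ S) (h1 : u ∉ zpowers x) : Subgroup G where
  carrier := {k | k * x = x * k ∧ Commute u (k * u * k⁻¹)}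
  one_mem' := ⟨by simp, by simp⟩
  mul_mem' := by
    rintro k k' ⟨e1, e2⟩ ⟨e1', e2'⟩
    refine ⟨by rw [mul_assoc, e1', ← mul_assoc, e1, mul_assoc], ?_⟩
    obtain ⟨i, w, hw, e⟩ := line h hS hn hu (conj_mem hS e1' hu) h1 e2'
    have : k * k' * u * (k * k')⁻¹ = (k * u * k⁻¹) ^ i * w := by
      rw [conj_pow, ← conj_fix e1 hw, conj_mul, ← e]; group
    rw [this]
    exact (e2.pow_right i).mul_right (L2.comm_zp (hS.cen u hu) hw)
  inv_mem' := by
    rintro k ⟨e1, e2⟩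
    refine ⟨(Commute.inv_left e1).eq, ?_⟩
    have := e2.eq
    show u * (k⁻¹ * u * k⁻¹⁻¹) = k⁻¹ * u * k⁻¹⁻¹ * u
    calc u * (k⁻¹ * u * k⁻¹⁻¹) = k⁻¹ * (k * u * k⁻¹ * u) * k := by group
      _ = _ := by rw [← this]; group

theorem not_both (h : LH p t x a b r d) (hp : 5 ≤ p) (hS : LS p t x S)
    (hn : ∃ s ∈ S, ∃ s' ∈ S, s * s' ≠ s' * s) {u : G} (hu : u ∈ S) (h1 : u ∉ zpowers x)
    (ht : t * u * t⁻¹ = u⁻¹) (ha : a ∈ N h hS hn hu h1) (hb : b ∈ N h hS hn hu h1) : False := by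
  obtain ⟨i, w, hw, e⟩ := line h hS hn hu (conj_mem hS ha.1 hu) h1 ha.2
  obtain ⟨i', w', hw', e'⟩ := line h hS hn hu (conj_mem hS hb.1 hu) h1 hb.2
  have c : ∀ z ∈ zpowers x, Commute u z := fun z hz => L2.comm_zp (hS.cen u hu) hz
  have f1 : a * b * u * (a * b)⁻¹ = u ^ (i * i') * (w ^ i' * w') := by
    calc a * b * u * (a * b)⁻¹ = a * (b * u * b⁻¹) * a⁻¹ := by group
      _ = _ := by
        rw [e', ← conj_mul, ← conj_pow, e, conj_fix ha.1 hw', ((c w hw).pow_left i).mul_pow,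
          ← pow_mul, mul_assoc]
  have f2 : b * a * u * (b * a)⁻¹ = u ^ (i * i') * (w' ^ i * w) := by
    calc b * a * u * (b * a)⁻¹ = b * (a * u * a⁻¹) * b⁻¹ := by group
      _ = _ := by
        rw [e, ← conj_mul, ← conj_pow, e', conj_fix hb.1 hw, ((c w' hw').pow_left i').mul_pow,
          ← pow_mul, mul_assoc, mul_comm i']
  have f3 : b * a * u * (b * a)⁻¹ = (a * b * u * (a * b)⁻¹)⁻¹ := by
    calc b * a * u * (b * a)⁻¹ = a * b * (t * u * t⁻¹) * (a * b)⁻¹ := by rw [h.ba]; group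
      _ = _ := by rw [ht]; group
  have hab : a * b * x = x * (a * b) := by rw [mul_assoc, hb.1, ← mul_assoc, ha.1, mul_assoc]
  have hy := conj_mem hS hab hu
  set y := a * b * u * (a * b)⁻¹ with hyd
  have m : y * y ∈ zpowers x := by
    have : y * y = (w' ^ i * w)⁻¹ * (w ^ i' * w') := by
      have g1 : u ^ (i * i') = y⁻¹ * (w' ^ i * w)⁻¹ := by rw [← f3, f2]; group
      have g2 : y = y⁻¹ * (w' ^ i * w)⁻¹ * (w ^ i' * w') := by rw [← g1]; exact f1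
      calc y * y = y * (y⁻¹ * (w' ^ i * w)⁻¹ * (w ^ i' * w')) := by rw [← g2]
        _ = _ := by group
    rw [this]
    exact mul_mem (inv_mem (mul_mem (pow_mem hw' i) hw)) (mul_mem (pow_mem hw i') hw')
  have m2 : y ∈ zpowers x := by rw [L2.eq_pow_sq hp (hS.ex y hy)]; exact pow_mem m _
  refine h1 ?_
  have : u = (a * b)⁻¹ * y * (a * b)⁻¹⁻¹ := by rw [hyd]; group
  rw [this, conj_fix (Commute.inv_left hab).eq m2]
  exact m2

theorem fin (h : LH p t x a b r d) (hS : LS p t x S) {u1 u2 u3 : G} (m1 : u1 ∈ S) (m2 : u2 ∈ S)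
    (m3 : u3 ∈ S) (n12 : ¬ Commute u1 u2) (n13 : ¬ Commute u1 u3) (n23 : ¬ Commute u2 u3)
    (c1 : ∃ w ∈ zpowers x, IsConj u1 w) (c2 : ∃ w ∈ zpowers x, IsConj u2 w)
    (c3 : ∃ w ∈ zpowers x, IsConj u3 w) : ∃ a' b' z : G, Tri p a' b' z := by
  have hz := hS.cm _ (inv_mem m1) _ (inv_mem m2)
  set z := u1⁻¹ * u2⁻¹ * u1⁻¹⁻¹ * u2⁻¹⁻¹ with hzd
  have e : u1 * u2 = u2 * u1 * z := by rw [hzd]; group
  have hz1 : z ≠ 1 := fun e1 => n12 (by rw [e1, mul_one] at e; exact e)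
  have hzp : z ^ p = 1 := hS.ex z (zpowers_le.2 hS.xS hz)
  have hzx : zpowers z = zpowers x := eq_of_le_of_card_ge (zpowers_le.2 hz) (by
    rw [Nat.card_zpowers, Nat.card_zpowers, orderOf_eq_prime h.xp h.x1, orderOf_eq_prime hzp hz1])
  have nat : ∀ w ∈ zpowers x, ∃ n : ℕ, w = z ^ n := fun w hw => by
    rw [← hzx] at hw
    obtain ⟨n, hn⟩ := mem_powers_iff_mem_zpowers.2 hw
    exact ⟨n, hn.symm⟩
  have cj : ∀ u : G, (∃ w ∈ zpowers x, IsConj u w) → ∃ n : ℕ, IsConj u (z ^ n) := by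
    rintro u ⟨w, hw, c⟩
    obtain ⟨n, rfl⟩ := nat w hw
    exact ⟨n, c⟩
  have g := gen h hS m1 m2 (fun m => n12 (Commute.symm (L2.comm_zp (hS.cen _ m2) m)))
    (fun m => n12 (comm_T hS m1 S.one_mem m1 (Commute.refl _) (Commute.one_right _) m))
  obtain ⟨i, j, w, hw, e3⟩ := g.ge m3
  obtain ⟨k, rfl⟩ := nat w hw
  obtain ⟨l, hl⟩ := cj u3 c3
  refine ⟨u1, u2, z, hS.ex _ m1, hS.ex _ m2, hzp, hz1, e, L2.comm_zp (hS.cen _ m1) hz,
    L2.comm_zp (hS.cen _ m2) hz, cj u1 c1, cj u2 c2, i, j, k, l, ?_, ?_, e3 ▸ hl⟩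
  · rintro ⟨n, rfl⟩
    rw [pow_mul, hS.ex _ m1, one_pow, one_mul] at e3
    exact n23 (e3 ▸ ((Commute.refl u2).pow_right j).mul_right (L2.comm_zp (hS.cen _ m2) hw))
  · rintro ⟨n, rfl⟩
    rw [pow_mul, hS.ex _ m2, one_pow, mul_one] at e3
    exact n13 (e3 ▸ ((Commute.refl u1).pow_right i).mul_right (L2.comm_zp (hS.cen _ m1) hw))

end L3

variable {p : ℕ} [Fact p.Prime] {G : Type*} [Group G] [Finite G] {t x a b r d : G} {S : Subgroup G}

theorem LH.tri (h : LH p t x a b r d) (hp : 5 ≤ p) (hS : LS p t x S)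
    (hn : ∃ s ∈ S, ∃ s' ∈ S, s * s' ≠ s' * s) : ∃ a' b' z : G, Tri p a' b' z := by
  obtain ⟨u, hu, h1, -, ht, -, g, -, hg⟩ := h.exists_u hp hS
  have key : ∀ k k' : G, k * x = x * k → k' * x = x * k' → k ∉ L3.N h hS hn hu h1 →
      k' ∉ L3.N h hS hn hu h1 → k⁻¹ * k' ∉ L3.N h hS hn hu h1 → ∃ a' b' z : G, Tri p a' b' z := by
    intro k k' e e' n1 n2 n3
    have cj : ∀ c : G, ∃ w ∈ zpowers x, IsConj (c * u * c⁻¹) w := fun c =>
      ⟨_, hg, isConj_iff.2 ⟨g * c⁻¹, by group⟩⟩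
    refine L3.fin h hS hu (L3.conj_mem hS e hu) (L3.conj_mem hS e' hu) (fun c => n1 ⟨e, c⟩)
      (fun c => n2 ⟨e', c⟩) (fun c => n3 ⟨((Commute.inv_left e).mul_left e').eq, ?_⟩)
      ⟨_, hg, isConj_iff.2 ⟨g, rfl⟩⟩ (cj k) (cj k')
    have := c.eq
    show u * (k⁻¹ * k' * u * (k⁻¹ * k')⁻¹) = k⁻¹ * k' * u * (k⁻¹ * k')⁻¹ * u
    calc u * (k⁻¹ * k' * u * (k⁻¹ * k')⁻¹) = k⁻¹ * (k * u * k⁻¹ * (k' * u * k'⁻¹)) * k := by group
      _ = _ := by rw [this]; group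
  have nb := L3.not_both h hp hS hn hu h1 ht
  set N := L3.N h hS hn hu h1 with hN
  by_cases hr : r ∈ N
  · have hab : a ∈ N ↔ b ∈ N := by
      rw [← h.ra, N.mul_mem_cancel_right (inv_mem hr), N.mul_mem_cancel_left hr]
    have hbc : b ∈ N ↔ a * b ∈ N := by
      rw [← h.rb, N.mul_mem_cancel_right (inv_mem hr), N.mul_mem_cancel_left hr]
    have htN : t ∈ N := ⟨h.tx.symm, by rw [ht]; exact (Commute.refl u).inv_right⟩
    refine key a b h.xa.symm h.xb.symm (fun m => nb m (hab.1 m)) (fun m => nb (hab.2 m) m)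
      fun m => ?_
    rw [h.inv_a, mul_assoc, ← h.tb, ← mul_assoc, N.mul_mem_cancel_right htN] at m
    exact nb (hab.2 (hbc.2 m)) (hbc.2 m)
  · refine key r (r * r) h.xr.symm ((Commute.mul_left h.xr.symm h.xr.symm).eq) hr (fun m => hr ?_)
      (by rwa [inv_mul_cancel_left])
    have : r = r * r * (r * r) := by
      have := h.r3
      calc r = r ^ 3 * r := by rw [this, one_mul]
        _ = _ := by simp only [pow_succ, pow_zero, one_mul, mul_assoc]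
    rw [this]; exact mul_mem m m

end Cfsg.Agent.RV
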