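import Cfsg.Agent.RV.Defs2

/-! Automorphisms of an elementary abelian group of rank three. -/

set_option autoImplicit false

namespace Cfsg.Agent.RV.L4

open Subgroup

/-- exponent vectors -/
abbrev V3 : Type := ℕ × ℕ × ℕ

/-- matrices, by columns -/
abbrev M3 : Type := V3 × V3 × V3

/-- reduction -/
def md (p : ℕ) (v : V3) : V3 := (v.1 % p, v.2.1 % p, v.2.2 % p)

/-- matrix times vector -/
def app (p : ℕ) (M : M3) (v : V3) : V3 := md p (v.1 • M.1 + v.2.1 • M.2.1 + v.2.2 • M.2.2)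

/-- product -/
def mul (p : ℕ) (M N : M3) : M3 := (app p M N.1, app p M N.2.1, app p M N.2.2)

/-- the identity -/
def I3 : M3 := ((1, 0, 0), (0, 1, 0), (0, 0, 1))

/-- powers -/
def pw (p : ℕ) (M : M3) : ℕ → M3
  | 0 => I3
  | k + 1 => mul p M (pw p M k)

/-- linear combination with the identity -/
def comb (p α β : ℕ) (M : M3) : M3 :=
  (md p (α • I3.1 + β • M.1), md p (α • I3.2.1 + β • M.2.1), md p (α • I3.2.2 + β • M.2.2))

variable {A : Type*} [CommGroup A] {p : ℕ} {e0 e1 e2 : A}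

/-- the element with given exponents -/
def ps (e0 e1 e2 : A) (v : V3) : A := e0 ^ v.1 * e1 ^ v.2.1 * e2 ^ v.2.2

theorem ps_add (v w : V3) : ps e0 e1 e2 (v + w) = ps e0 e1 e2 v * ps e0 e1 e2 w := by
  simp only [ps, Prod.fst_add, Prod.snd_add, pow_add]; ac_rfl

theorem ps_smul (n : ℕ) (v : V3) : ps e0 e1 e2 (n • v) = ps e0 e1 e2 v ^ n := by
  simp only [ps, Prod.smul_fst, Prod.smul_snd, smul_eq_mul, mul_pow, ← pow_mul, mul_comm n]

theorem ps_md (ex : ∀ s : A, s ^ p = 1) (v : V3) : ps e0 e1 e2 (md p v) = ps e0 e1 e2 v := by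
  simp only [ps, md, ← pow_eq_pow_mod _ (ex _)]

theorem ps0 : ps e0 e1 e2 I3.1 = e0 := by simp [ps, I3]
theorem ps1 : ps e0 e1 e2 I3.2.1 = e1 := by simp [ps, I3]
theorem ps2 : ps e0 e1 e2 I3.2.2 = e2 := by simp [ps, I3]

/-- `f` has the matrix `M` -/
def Rep (e0 e1 e2 : A) (f : A → A) (M : M3) : Prop :=
  f e0 = ps e0 e1 e2 M.1 ∧ f e1 = ps e0 e1 e2 M.2.1 ∧ f e2 = ps e0 e1 e2 M.2.2

theorem Rep.app (ex : ∀ s : A, s ^ p = 1) {f : MulAut A} {M : M3} (h : Rep e0 e1 e2 f M) (v : V3) :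
    f (ps e0 e1 e2 v) = ps e0 e1 e2 (app p M v) := by
  rw [L4.app, ps_md ex, ps_add, ps_add, ps_smul, ps_smul, ps_smul, ← h.1, ← h.2.1, ← h.2.2, ps, map_mul, map_mul,
    map_pow, map_pow, map_pow]

theorem Rep.mul (ex : ∀ s : A, s ^ p = 1) {f g : MulAut A} {M N : M3} (h : Rep e0 e1 e2 f M)
    (k : Rep e0 e1 e2 g N) : Rep e0 e1 e2 (f * g : MulAut A) (mul p M N) :=
  ⟨(congrArg f k.1).trans (h.app ex _), (congrArg f k.2.1).trans (h.app ex _), (congrArg f k.2.2).trans (h.app ex _)⟩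

theorem Rep.pow (ex : ∀ s : A, s ^ p = 1) {f : MulAut A} {M : M3} (h : Rep e0 e1 e2 f M) (k : ℕ) :
    Rep e0 e1 e2 (f ^ k : MulAut A) (pw p M k) := by
  induction k with
  | zero => exact ⟨ps0.symm, ps1.symm, ps2.symm⟩
  | succ k ih => rw [pow_succ']; exact h.mul ex ih

theorem Rep.comb (ex : ∀ s : A, s ^ p = 1) {f : A → A} {M : M3} (h : Rep e0 e1 e2 f M) (α β : ℕ) :
    Rep e0 e1 e2 (fun s => s ^ α * f s ^ β) (comb p α β M) := by
  refine ⟨?_, ?_, ?_⟩ <;> simp only [L4.comb, ps_md ex, ps_add, ps_smul, ps0, ps1, ps2, ← h.1, ← h.2.1, ← h.2.2]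

theorem Rep.ext (gen : ∀ s, ∃ v, s = ps e0 e1 e2 v) {f g : A →* A} {M : M3} (h : Rep e0 e1 e2 f M)
    (k : Rep e0 e1 e2 g M) (s : A) : f s = g s := by
  obtain ⟨v, rfl⟩ := gen s
  simp only [ps, map_mul, map_pow]
  rw [h.1, h.2.1, h.2.2, k.1, k.2.1, k.2.2]

theorem fin [Finite A] (hp : p = 5 ∨ p = 13) (hc : Nat.card A = p ^ 3) (ex : ∀ s : A, s ^ p = 1) (h1 : e1 ≠ 1)
    {T D B P n : MulAut A} {Γ : Subgroup (MulAut A)} (mD : D ∈ Γ) (mB : B ∈ Γ) (mP : P ∈ Γ) (mn : n ∈ Γ)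
    {io : ℕ} (T0 : T e0 = e0) (T1 : T e1 = e1⁻¹) (T2 : T e2 = e2⁻¹) (D0 : D e0 = e0⁻¹) (D1 : D e1 = e1 ^ io)
    (D2 : D e2 = e2 ^ io) (DD : D * D = T) (B0 : B e0 = e0) (B1 : B e1 = e2) (B2 : B e2 = e1⁻¹)
    (P0 : P e0 = e2) (P1 : P e1 = e1) (P2 : P e2 = e0⁻¹) (hn : n * T * n⁻¹ = D * B) : p ∣ Nat.card Γ := by
  have hF : Fact p.Prime := ⟨by rcases hp with rfl | rfl <;> norm_num⟩
  have p0 : 0 < p := hF.out.pos
  have h2 : e2 ≠ 1 := fun e => h1 (B.injective (by rw [B1, e, map_one]))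
  have h0 : e0 ≠ 1 := fun e => h2 (by rw [← P0, e, map_one])
  have dv : ∀ {s : A} {k : ℕ}, s ≠ 1 → s ^ k = 1 → p ∣ k := fun {s k} s1 e =>
    orderOf_eq_prime (ex s) s1 ▸ orderOf_dvd_of_pow_eq_one e
  have dv2 : ∀ {s : A} {k : ℕ}, s ≠ 1 → s ^ k * s ^ k = 1 → p ∣ k := fun {s k} s1 e => by
    have := dv s1 (show s ^ (2 * k) = 1 by rw [two_mul, pow_add, e])
    refine ((Nat.Prime.dvd_mul hF.out).1 this).resolve_left fun h => ?_
    have := Nat.le_of_dvd (by norm_num) h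
    omega
  have z : ∀ {s : A} {k : ℕ}, p ∣ k → s ^ k = 1 := by
    rintro s _ ⟨c, rfl⟩; rw [pow_mul, ex, one_pow]
  have iv : ∀ s : A, s⁻¹ = s ^ (p - 1) := fun s =>
    inv_eq_of_mul_eq_one_right (by rw [← pow_succ', Nat.sub_add_cancel p0, ex])
  have inj : ∀ v : V3, ps e0 e1 e2 v = 1 → p ∣ v.1 ∧ p ∣ v.2.1 ∧ p ∣ v.2.2 := by
    rintro ⟨i, j, k⟩ e
    simp only [ps] at e ⊢
    have a1 := congrArg T e
    simp only [map_mul, map_pow, T0, T1, T2, map_one, inv_pow] at a1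
    have i0 : p ∣ i := dv2 h0 (by
      calc _ = e0 ^ i * e1 ^ j * e2 ^ k * (e0 ^ i * (e1 ^ j)⁻¹ * (e2 ^ k)⁻¹) := by
            rw [mul_mul_mul_comm, mul_mul_mul_comm (e0 ^ i) (e1 ^ j), mul_inv_cancel, mul_inv_cancel, mul_one,
              mul_one]
        _ = 1 := by rw [e, a1, one_mul])
    rw [z i0, one_mul] at e
    have a2 := congrArg P (congrArg P e)
    simp only [map_mul, map_pow, P0, P1, P2, map_one, inv_pow, map_inv] at a2
    have j0 : p ∣ j := dv2 h1 (by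
      calc _ = e1 ^ j * e2 ^ k * (e1 ^ j * (e2 ^ k)⁻¹) := by rw [mul_mul_mul_comm, mul_inv_cancel, mul_one]
        _ = 1 := by rw [e, a2, one_mul])
    rw [z j0, one_mul] at e
    exact ⟨i0, j0, dv h2 e⟩
  have gen : ∀ s, ∃ v, s = ps e0 e1 e2 v := by
    let f : Fin p × Fin p × Fin p → A := fun v => ps e0 e1 e2 (v.1, v.2.1, v.2.2)
    have fi : Function.Injective f := by
      rintro ⟨i, j, k⟩ ⟨i', j', k'⟩ e
      have := inj (((i : ℕ), (j : ℕ), (k : ℕ)) + (p - 1) • ((i' : ℕ), (j' : ℕ), (k' : ℕ))) (by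
        rw [ps_add, ps_smul, ← iv]; exact mul_inv_eq_one.2 e)
      simp only [Prod.fst_add, Prod.snd_add, Prod.smul_fst, Prod.smul_snd, smul_eq_mul] at this
      have a := i.2; have b := j.2; have c := k.2; have a' := i'.2; have b' := j'.2; have c' := k'.2
      refine Prod.ext (Fin.ext ?_) (Prod.ext (Fin.ext ?_) (Fin.ext ?_)) <;> dsimp only <;>
        rcases hp with rfl | rfl <;> omega
    intro s
    obtain ⟨v, rfl⟩ := (fi.bijective_of_nat_card_le (by simp [hc, pow_succ, mul_assoc])).2 s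
    exact ⟨_, rfl⟩
  have hio : p ∣ io * io + 1 := dv h1 (by
    have := congrArg (fun f : MulAut A => f e1) DD
    simp only [MulAut.mul_apply, D1, map_pow, T1] at this
    rw [pow_succ, pow_mul, this, inv_mul_cancel])
  have rT : Rep e0 e1 e2 T ((1, 0, 0), (0, p - 1, 0), (0, 0, p - 1)) := by simp [Rep, ps, T0, T1, T2, iv]
  have rD : Rep e0 e1 e2 D ((p - 1, 0, 0), (0, io % p, 0), (0, 0, io % p)) := by
    simp [Rep, ps, D0, D1, D2, iv, ← pow_eq_pow_mod _ (ex _)]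
  have rB : Rep e0 e1 e2 B ((1, 0, 0), (0, 0, 1), (0, p - 1, 0)) := by simp [Rep, ps, B0, B1, B2, iv]
  have rP : Rep e0 e1 e2 P ((0, 0, 1), (0, 1, 0), (p - 1, 0, 0)) := by simp [Rep, ps, P0, P1, P2, iv]
  have rF : ∀ α β : ℕ, comb p α β ((1, 0, 0), (0, p - 1, 0), (0, 0, p - 1)) =
      ((p - 1, 0, 0), (0, io % p, 0), (0, 0, io % p)) → Rep e0 e1 e2 (n * D * n⁻¹ : MulAut A)
      (comb p α β (mul p ((p - 1, 0, 0), (0, io % p, 0), (0, 0, io % p)) ((1, 0, 0), (0, 0, 1), (0, p - 1, 0)))) := by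
    intro α β e
    have k1 := rT.comb ex α β
    rw [e] at k1
    have k2 : ∀ s, D s = s ^ α * T s ^ β := fun s => by
      have := Rep.ext gen (f := D.toMonoidHom)
        (g := MonoidHom.mk' (fun s => s ^ α * T s ^ β) fun a b => by
          simp only [map_mul, mul_pow]; exact mul_mul_mul_comm _ _ _ _) rD k1 s
      exact this
    have k3 : ((n * D * n⁻¹ : MulAut A) : A → A) = fun s => s ^ α * (D * B : MulAut A) s ^ β := by
      funext s
      rw [← hn]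
      simp only [MulAut.mul_apply, k2, map_mul, map_pow, MulAut.apply_inv_self]
    rw [k3]
    exact (rD.mul ex rB).comb ex α β
  have fin : ∀ {y : MulAut A} {M : M3}, y ∈ Γ → Rep e0 e1 e2 y M → pw p M p = I3 → ¬ p ∣ M.1.2.1 →
      p ∣ Nat.card Γ := by
    intro y M hy r e ne
    have y1 : y ^ p = 1 := by
      have k := r.pow ex p
      rw [e] at k
      exact MulEquiv.ext (Rep.ext gen (f := (y ^ p).toMonoidHom) (g := MonoidHom.id A) k
        ⟨ps0.symm, ps1.symm, ps2.symm⟩)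
    have y2 : y ≠ 1 := by
      rintro rfl
      have := (inj (M.1 + (p - 1) • I3.1) (by
        rw [ps_add, ps_smul, ← iv, ps0, ← r.1]; exact mul_inv_cancel e0)).2.1
      exact ne (by simpa [I3] using this)
    exact orderOf_eq_prime y1 y2 ▸ orderOf_dvd_natCard Γ hy
  have mF : n * D * n⁻¹ ∈ Γ := mul_mem (mul_mem mn mD) (inv_mem mn)
  have mW := pow_mem (mul_mem mF mP) 3
  have lt : io % p < p := Nat.mod_lt _ p0
  have hio' : (io % p * (io % p) + 1) % p = 0 := by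
    rw [Nat.add_mod, ← Nat.mul_mod, ← Nat.add_mod]; exact Nat.mod_eq_zero_of_dvd hio
  generalize io % p = c at rD rF lt hio'
  rcases hp with rfl | rfl
  · obtain rfl | rfl : c = 2 ∨ c = 3 := (by decide : ∀ c < 5, (c * c + 1) % 5 = 0 → c = 2 ∨ c = 3) c lt hio'
    · exact fin (mul_mem mW mD) ((((rF 3 1 (by decide)).mul ex rP).pow ex 3).mul ex rD)
        (by decide +kernel) (by decide +kernel)
    · exact fin (mul_mem mW mD) ((((rF 1 3 (by decide)).mul ex rP).pow ex 3).mul ex rD)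
        (by decide +kernel) (by decide +kernel)
  · obtain rfl | rfl : c = 5 ∨ c = 8 := (by decide : ∀ c < 13, (c * c + 1) % 13 = 0 → c = 5 ∨ c = 8) c lt hio'
    · have r := ((((rF 2 10 (by decide +kernel)).mul ex rP).pow ex 3).mul ex rB).pow ex 12
      have m := pow_mem (mul_mem mW mB) 12
      exact fin m r (by decide +kernel) (by decide +kernel)
    · have r := ((((rF 10 2 (by decide +kernel)).mul ex rP).pow ex 3).mul ex rB).pow ex 12
      have m := pow_mem (mul_mem mW mB) 12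
      exact fin m r (by decide +kernel) (by decide +kernel)

end Cfsg.Agent.RV.L4
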