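import Cfsg.Agent.RV.L0
import Cfsg.Agent.RV.L2
import Cfsg.Agent.RV.L4a

/-! The normal Sylow subgroup of `C(x)` is not abelian. -/

set_option autoImplicit false
set_option linter.unusedSectionVars false

namespace Cfsg.Agent.RV

open Subgroup

variable {p : ℕ} [Fact p.Prime] {G : Type*} [Group G] [Finite G] {t x a b r d : G} {S : Subgroup G}

namespace L4

theorem gen {x z : G} (xp : x ^ p = 1) (hz : z ∈ zpowers x) (z1 : z ≠ 1) : x ∈ zpowers z := by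
  have x1 : x ≠ 1 := by rintro rfl; exact z1 (by simpa using hz)
  obtain ⟨i, hi⟩ := mem_zpowers_of_prime_card (G := zpowers x) (p := p)
    (by rw [Nat.card_zpowers, orderOf_eq_prime xp x1]) (g := ⟨z, hz⟩) (g' := ⟨x, mem_zpowers x⟩)
    (fun e => z1 (congrArg Subtype.val e))
  exact ⟨i, congrArg Subtype.val hi⟩

theorem fixz {y u w : G} (h : y * u * y⁻¹ = u) (hw : w ∈ zpowers u) : y * w * y⁻¹ = w := by
  obtain ⟨i, rfl⟩ := hw
  change y * u ^ i * y⁻¹ = u ^ i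
  rw [← conj_zpow, h]

theorem invz {y u w : G} (h : y * u * y⁻¹ = u⁻¹) (hw : w ∈ zpowers u) : y * w * y⁻¹ = w⁻¹ := by
  obtain ⟨i, rfl⟩ := hw
  change y * u ^ i * y⁻¹ = (u ^ i)⁻¹
  rw [← conj_zpow, h, inv_zpow]

theorem half (hp : 5 ≤ p) {s : G} (hs : s ^ p = 1) : s ∈ zpowers (s * s) := by
  obtain ⟨m, hm⟩ := (Fact.out : p.Prime).odd_of_ne_two (by omega)
  refine ⟨(m + 1 : ℕ), ?_⟩
  change (s * s) ^ ((m + 1 : ℕ) : ℤ) = s
  rw [zpow_natCast, ← pow_two, ← pow_mul, show 2 * (m + 1) = 2 * m + 1 + 1 by ring, pow_succ, ← hm, hs, one_mul]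

theorem exists_q (h : LH p t x a b r d) (hp : 5 ≤ p) {y : G} (yy : y * y = 1) (yt : y * t * y⁻¹ = t)
    (yx : y * x * y⁻¹ = x⁻¹) (ne : y * a * y⁻¹ ≠ a) : ∃ q, q * x = x * q ∧ q * q = t ∧ y * q * y⁻¹ = q⁻¹ := by
  have e1 : y * a * y⁻¹ * x = x * (y * a * y⁻¹) := by
    have : Commute (y * a * y⁻¹) (y * x * y⁻¹) := by
      change _ * _ = _ * _
      rw [conj_mul, conj_mul, h.xa]
    rw [yx] at this
    exact (Commute.inv_right_iff.1 this).eq
  have e2 : y * a * y⁻¹ * (y * a * y⁻¹) = t := by rw [conj_mul, h.aa, yt]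
  have e3 : y * (y * a * y⁻¹) * y⁻¹ = a := by
    calc _ = y * y * a * (y * y)⁻¹ := by group
      _ = a := by rw [yy]; group
  have key : y * a * y⁻¹ * a = a * (y * a * y⁻¹) * t → y * a * y⁻¹ * t = t * (y * a * y⁻¹) →
      ∃ q, q * x = x * q ∧ q * q = t ∧ y * q * y⁻¹ = q⁻¹ := fun k1 k2 => by
    refine ⟨a * (y * a * y⁻¹), by rw [mul_assoc, e1, ← mul_assoc, ← h.xa, mul_assoc x], ?_, ?_⟩
    · generalize y * a * y⁻¹ = c at e2 k1 k2
      calc _ = a * (c * a) * c := by group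
        _ = a * a * (c * t) * c := by rw [k1]; group
        _ = t := by rw [h.aa, k2, ← mul_assoc, h.tt, one_mul, e2]
    · rw [← conj_mul, e3]
      generalize y * a * y⁻¹ = c at e2 k1 k2
      refine eq_inv_of_mul_eq_one_right ?_
      calc _ = a * (c * c) * a := by group
        _ = 1 := by rw [e2, h.ta, mul_assoc, h.aa, h.tt]
  have tt' : ∀ g : G, g * t * t = g := fun g => by rw [mul_assoc, h.tt, mul_one]
  have abt : a * b * t = t * (a * b) := by rw [mul_assoc, h.tb, ← mul_assoc, h.ta, mul_assoc]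
  rcases h.sq_t hp e1 e2 with e | e | e | e | e | e
  · exact absurd e ne
  · exact ⟨a, h.xa.symm, h.aa, e.trans h.inv_a.symm⟩
  · exact key (by rw [e, h.ba]) (by rw [e, h.tb])
  · exact key (by rw [e, mul_assoc, ← h.ta, ← mul_assoc, h.ba, mul_assoc a]) (by rw [e, ← mul_assoc, h.tb])
  · exact key (by rw [e, mul_assoc, h.ba, ← mul_assoc]) (by rw [e, abt])
  · exact key (by rw [e, mul_assoc, ← h.ta, ← mul_assoc, mul_assoc a b, h.ba, mul_assoc a])
      (by rw [e, ← mul_assoc, ← abt])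

end L4

open L4

theorem LH.not_ab (h : LH p t x a b r d) (hp : p = 5 ∨ p = 13) (hS : LS p t x S) :
    ∃ s ∈ S, ∃ s' ∈ S, s * s' ≠ s' * s := by
  by_contra hab
  push Not at hab
  have hp5 : 5 ≤ p := by omega
  obtain ⟨u, uS, ux, ju, tu, Cj, g, gj, gu⟩ := h.exists_u hp5 hS
  obtain ⟨u1, uS1, ux1, -, -, -, g1, gj1, gu1⟩ := h.rot.exists_u hp5 hS
  have nrm : ∀ {u g : G}, u ∈ S → u ∉ zpowers x → g * u * g⁻¹ ∈ zpowers x → g ∈ normalizer (S : Set G) := by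
    intro u g uS ux gu
    refine mem_normalizer_fintype fun s hs => hS.uniq _ ?_ (by rw [conj_pow, hS.ex s hs]; group)
    have := fixz (y := g * s * g⁻¹) (u := g * u * g⁻¹) (by
      rw [conj_mul, hab s hs u uS]; group) (gen h.xp gu (by
        intro e; exact ux (by rw [show u = 1 by simpa using e]; exact one_mem _)))
    exact mul_inv_eq_iff_eq_mul.1 this
  have nx : ∀ {k : G}, k * x = x * k → k ∈ normalizer (S : Set G) := fun {k} e =>
    mem_normalizer_fintype (hS.nm k (by rw [e, mul_inv_cancel_right]; exact mem_zpowers x))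
  have cj : ∀ {k s : G}, k ∈ normalizer (S : Set G) → s ∈ S → k * s * k⁻¹ ∈ S := fun {k s} hk hs =>
    (mem_normalizer_iff.1 hk s).1 hs
  have gN := nrm uS ux gu
  have gN1 := nrm uS1 ux1 gu1
  have tN := nx h.tx.symm
  have aN := nx h.xa.symm
  have bN := nx h.xb.symm
  have dN : d ∈ normalizer (S : Set G) :=
    mem_normalizer_fintype (hS.nm d (by rw [h.dx]; exact inv_mem (mem_zpowers x)))
  have u1' : u ≠ 1 := by rintro rfl; exact ux (one_mem _)
  have Ct : ∀ s ∈ S, t * s * t⁻¹ = s → s ∈ zpowers x := fun s hs e => by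
    have := hS.inv s hs
    rw [e] at this
    exact zpowers_le.2 this (half hp5 (hS.ex s hs))
  have txt : t * x * t⁻¹ = x := by rw [← h.tx, mul_inv_cancel_right]
  have ti : t⁻¹ = t := inv_eq_of_mul_eq_one_right h.tt
  have tj : t * (d * a) = d * a * t := by rw [← mul_assoc, ← h.td, mul_assoc, ← h.ta, mul_assoc]
  have yy : g * t * g⁻¹ * (g * t * g⁻¹) = 1 := by rw [conj_mul, h.tt]; group
  have yt : g * t * g⁻¹ * t * (g * t * g⁻¹)⁻¹ = t := by
    nth_rewrite 2 [← gj]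
    rw [conj_mul, tj, ← conj_mul, gj, mul_inv_cancel_right]
  have xg : x ∈ zpowers (g * u * g⁻¹) := gen h.xp gu (by simpa using u1')
  have yx : g * t * g⁻¹ * x * (g * t * g⁻¹)⁻¹ = x⁻¹ := invz (by
    calc _ = g * (t * u * t⁻¹) * g⁻¹ := by group
      _ = _ := by rw [tu]; group) xg
  obtain ⟨q, qx, qq, yq⟩ : ∃ q, q * x = x * q ∧ q * q = t ∧ g * t * g⁻¹ * q * (g * t * g⁻¹)⁻¹ = q⁻¹ := by
    by_cases na : g * t * g⁻¹ * a * (g * t * g⁻¹)⁻¹ = a
    swap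
    · exact exists_q h hp5 yy yt yx na
    by_cases nb : g * t * g⁻¹ * b * (g * t * g⁻¹)⁻¹ = b
    swap
    · exact exists_q h.rot hp5 yy yt yx nb
    exfalso
    have wS := cj gN hS.xS
    have yw : g * t * g⁻¹ * (g * x * g⁻¹) * (g * t * g⁻¹)⁻¹ = g * x * g⁻¹ := by
      calc _ = g * (t * x * t⁻¹) * g⁻¹ := by group
        _ = _ := by rw [txt]
    have nc : ∀ k ∈ normalizer (S : Set G), g * t * g⁻¹ * k * (g * t * g⁻¹)⁻¹ = k →
        ∃ i : ℤ, k * (g * x * g⁻¹) * k⁻¹ = (g * x * g⁻¹) ^ i := fun k hk e => by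
      obtain ⟨i, hi⟩ := Ct _ (cj (inv_mem gN) (cj hk wS)) (by
        calc _ = g⁻¹ * (g * t * g⁻¹ * k * (g * t * g⁻¹)⁻¹ *
              (g * t * g⁻¹ * (g * x * g⁻¹) * (g * t * g⁻¹)⁻¹) * (g * t * g⁻¹ * k * (g * t * g⁻¹)⁻¹)⁻¹) * g⁻¹⁻¹ := by
              group
          _ = _ := by rw [e, yw])
      change x ^ i = _ at hi
      exact ⟨i, by rw [conj_zpow, hi]; group⟩
    obtain ⟨i, hi⟩ := nc a aN na
    obtain ⟨j, hj⟩ := nc b bN nb
    have w1 : g * x * g⁻¹ ≠ 1 := by simpa using h.x1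
    generalize g * x * g⁻¹ = w at wS yw hi hj w1
    have e1 : a * b * w * (a * b)⁻¹ = w ^ (i * j) := by
      calc _ = a * (b * w * b⁻¹) * a⁻¹ := by group
        _ = _ := by rw [hj, ← conj_zpow, hi, zpow_mul]
    have e2 : b * a * w * (b * a)⁻¹ = w ^ (i * j) := by
      calc _ = b * (a * w * a⁻¹) * b⁻¹ := by group
        _ = _ := by rw [hi, ← conj_zpow, hj, mul_comm i, zpow_mul]
    have e3 : a * b * (t * w * t⁻¹) * (a * b)⁻¹ = a * b * w * (a * b)⁻¹ := by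
      rw [e1, ← e2, h.ba]; group
    have e4 := invz yx (Ct w wS (by simpa using e3))
    rw [yw] at e4
    have e5 := half hp5 (hS.ex w wS)
    rw [mul_eq_one_iff_eq_inv.2 e4] at e5
    exact w1 (by simpa using e5)
  have qN := nx qx
  have cN : g⁻¹ * q * g ∈ normalizer (S : Set G) := mul_mem (mul_mem (inv_mem gN) qN) gN
  have cu : g⁻¹ * q * g * u * (g⁻¹ * q * g)⁻¹ = u := by
    have := fixz (mul_inv_eq_iff_eq_mul.2 qx) gu
    calc _ = g⁻¹ * (q * (g * u * g⁻¹) * q⁻¹) * g := by group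
      _ = u := by rw [this]; group
  have cc : g⁻¹ * q * g * (g⁻¹ * q * g) = d * a := by
    calc _ = g⁻¹ * (q * q) * g := by group
      _ = _ := by rw [qq, ← gj]; group
  have ct : g⁻¹ * q * g * t * (g⁻¹ * q * g)⁻¹ = t * (d * a) := by
    have qi : q⁻¹ * q⁻¹ = g * (d * a) * g⁻¹ := by rw [← mul_inv_rev, qq, ti, gj]
    have e : q * (g * t * g⁻¹) = g * t * g⁻¹ * q⁻¹ := by
      have := congrArg Inv.inv yq
      rw [inv_inv] at this
      calc _ = (g * t * g⁻¹ * q * (g * t * g⁻¹)⁻¹)⁻¹ * (g * t * g⁻¹) := by rw [this]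
        _ = _ := by group
    calc _ = g⁻¹ * (q * (g * t * g⁻¹) * q⁻¹) * g := by group
      _ = g⁻¹ * (g * t * g⁻¹ * (q⁻¹ * q⁻¹)) * g := by rw [e]; group
      _ = _ := by rw [qi]; group
  generalize g⁻¹ * q * g = c at cN cu cc ct
  have bj : b * (d * a) * b⁻¹ = t * (d * a) := by
    rw [← mul_assoc, ← h.db, mul_assoc d, h.ba, tj, mul_assoc a, h.tb]; group
  have vS := cj bN uS
  have jv : t * (d * a) * (b * u * b⁻¹) * (t * (d * a))⁻¹ = b * u * b⁻¹ := by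
    rw [← bj]
    calc _ = b * (d * a * u * (d * a)⁻¹) * b⁻¹ := by group
      _ = _ := by rw [ju]
  have tv : t * (b * u * b⁻¹) * t⁻¹ = (b * u * b⁻¹)⁻¹ := by
    calc _ = t * b * u * (t * b)⁻¹ := by group
      _ = b * (t * u * t⁻¹) * b⁻¹ := by rw [← h.tb]; group
      _ = _ := by rw [tu]; group
  have bv : b * (b * u * b⁻¹) * b⁻¹ = u⁻¹ := by
    calc _ = b * b * u * (b * b)⁻¹ := by group
      _ = _ := by rw [h.bb, tu]
  have wS := cj (inv_mem cN) vS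
  have tw : t * (c⁻¹ * (b * u * b⁻¹) * c⁻¹⁻¹) * t⁻¹ = c⁻¹ * (b * u * b⁻¹) * c⁻¹⁻¹ := by
    calc _ = c⁻¹ * (c * t * c⁻¹ * (b * u * b⁻¹) * (c * t * c⁻¹)⁻¹) * c⁻¹⁻¹ := by group
      _ = _ := by rw [ct, jv]
  have wx := Ct _ wS tw
  have cw : c * (c⁻¹ * (b * u * b⁻¹) * c⁻¹⁻¹) * c⁻¹ = b * u * b⁻¹ := by group
  have cv : c * (b * u * b⁻¹) * c⁻¹ = (c⁻¹ * (b * u * b⁻¹) * c⁻¹⁻¹)⁻¹ := by
    rw [← invz h.j_inv wx, ← cc]; group
  have dw := invz h.dx wx
  have bw := fixz (mul_inv_eq_iff_eq_mul.2 h.xb.symm) wx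
  obtain ⟨io, du⟩ : ∃ io : ℕ, u ^ io = d * u * d⁻¹ := mem_powers_iff_mem_zpowers.2 (Cj _ (cj dN uS) (by
    calc _ = d * (a * d) * u * (d * (a * d))⁻¹ := by group
      _ = d * (d * a * u * (d * a)⁻¹) * d⁻¹ := by rw [← h.da]; group
      _ = _ := by rw [ju]))
  have dv : d * (b * u * b⁻¹) * d⁻¹ = (b * u * b⁻¹) ^ io := by
    rw [conj_pow, du]
    calc _ = d * b * u * (d * b)⁻¹ := by group
      _ = _ := by rw [h.db]; group
  generalize c⁻¹ * (b * u * b⁻¹) * c⁻¹⁻¹ = w at wS tw cw cv dw bw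
  let _ : CommGroup S := { (inferInstance : Group S) with mul_comm := fun s s' => Subtype.ext (hab s s.2 s' s'.2) }
  let f := S.normalizerMonoidHom
  have key : p ∣ Nat.card f.range := L4.fin (A := S) (e0 := ⟨w, wS⟩) (e1 := ⟨u, uS⟩) (e2 := ⟨_, vS⟩)
    (T := f ⟨t, tN⟩) (D := f ⟨d, dN⟩) (B := f ⟨b, bN⟩) (P := f ⟨c, cN⟩) (n := f ⟨g1⁻¹, inv_mem gN1⟩) (io := io)
    hp hS.card (fun s => Subtype.ext (hS.ex s s.2)) (fun e => u1' (congrArg Subtype.val e))
    ⟨_, rfl⟩ ⟨_, rfl⟩ ⟨_, rfl⟩ ⟨_, rfl⟩ (Subtype.ext tw) (Subtype.ext tu) (Subtype.ext tv) (Subtype.ext dw)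
    (Subtype.ext du.symm) (Subtype.ext dv) ((map_mul f _ _).symm.trans (congrArg f (Subtype.ext h.dd)))
    (Subtype.ext bw) (Subtype.ext rfl) (Subtype.ext bv) (Subtype.ext cw) (Subtype.ext cu) (Subtype.ext cv)
    (by
      rw [← map_inv, ← map_mul, ← map_mul, ← map_mul]
      refine congrArg f (Subtype.ext ?_)
      change g1⁻¹ * t * g1⁻¹⁻¹ = d * b
      rw [← gj1]; group)
  have k2 : p ^ 3 ∣ Nat.card f.ker := by
    rw [← hS.card, ← Nat.card_congr (subgroupOfEquivOfLe (le_normalizer (H := S))).toEquiv]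
    refine card_dvd_of_le ?_
    rw [normalizerMonoidHom_ker]
    exact fun s hs y hy => hab y hy s hs
  refine h.p4 (Dvd.dvd.trans ?_ (card_subgroup_dvd_card (normalizer (S : Set G))))
  rw [← f.ker.card_mul_index, index_ker, pow_succ]
  exact mul_dvd_mul k2 key

end Cfsg.Agent.RV
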