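import Cfsg.Prelude.Def_Transfer
import Mathlib.GroupTheory.SpecificGroups.Alternating
import Mathlib.Tactic.NormNum.Prime

/-! Local data around an involution `z` and an element `x` of order five or thirteen. -/

set_option autoImplicit false

namespace Cfsg.Agent.RV

open Subgroup

/-- the alternating group of degree four -/
abbrev SpA4 : Type := alternatingGroup (Fin 4)

/-- the data in the quotient `C(z) / O₂(C(z))` -/
structure YD (p : ℕ) {Y : Type*} [Group Y] (x n w a h : Y) : Prop where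
  ox : orderOf x = p
  nx : n * x * n⁻¹ = x ^ 2
  wx : w * x * w⁻¹ = x⁻¹
  ax : Commute a x
  hx : Commute h x
  a2 : a ^ 2 = 1
  a1 : a ≠ 1
  h3 : h ^ 3 = 1
  ha3 : (h * a) ^ 3 = 1
  w2 : w ^ 2 = 1
  wa : Commute w a
  wh : Commute w h
  card : Nat.card (centralizer ({x} : Set Y)) ∣ 12 * p
  sq : ¬ p ^ 2 ∣ Nat.card Y

/-- the common centraliser -/
def Lc {G : Type*} [Group G] (z x : G) : Subgroup G := centralizer {z} ⊓ centralizer {x}

theorem mem_Lc {G : Type*} [Group G] {z x g : G} : g ∈ Lc z x ↔ Commute g z ∧ Commute g x := by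
  rw [Lc, mem_inf, mem_centralizer_singleton_iff, mem_centralizer_singleton_iff]; rfl

/-- the data in the group -/
structure Dat (p : ℕ) {G : Type*} [Group G] (z x n w a h : G) : Prop where
  hp : p = 5 ∨ p = 13
  oz : orderOf z = 2
  ox : orderOf x = p
  xz : Commute x z
  nz : Commute n z
  wz : Commute w z
  az : Commute a z
  hz : Commute h z
  nx : n * x * n⁻¹ = x ^ 2
  wx : w * x * w⁻¹ = x⁻¹
  ax : Commute a x
  hx : Commute h x
  a2 : a ^ 2 = 1 ∨ a ^ 2 = z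
  a1 : a ≠ 1
  a1' : a ≠ z
  h3 : h ^ 3 = 1
  ha3 : (h * a) ^ 3 = 1
  w2 : w ^ 2 = 1 ∨ w ^ 2 = z
  wa : Commute w a
  wh : Commute w h
  card : Nat.card (Lc z x) ∣ 24 * p
  sq : ¬ p ^ 2 ∣ Nat.card (centralizer ({z} : Set G))
  p3 : p ^ 3 ∣ Nat.card G
  p4 : ¬ p ^ 4 ∣ Nat.card G
  c1 : ∀ t : G, orderOf t = 2 → Commute t z → Commute t x → IsConj z t
  c2 : ∀ u : G, orderOf u = 2 → Commute u z → u * x * u⁻¹ = x⁻¹ → IsConj z u

/-- `S` is the normal Sylow subgroup of `C(x)`, inverted by `z` modulo `x` -/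
structure SD (p : ℕ) {G : Type*} [Group G] (z x : G) (S : Sylow p G) : Prop where
  card : Nat.card S = p ^ 3
  mem : ∀ g : G, g ∈ S ↔ Commute g x ∧ g ^ p = 1
  dec : ∀ s ∈ S, ∃ (k : ℕ) (e : G), e ∈ S ∧ z * e * z⁻¹ = e⁻¹ ∧ s = x ^ k * e
  comm : ∀ s ∈ S, ∀ t ∈ S, s * t * s⁻¹ * t⁻¹ ∈ zpowers x

/-- an extraspecial Sylow subgroup with three non-central lines fused to the centre -/
def Big (p : ℕ) {G : Type*} [Group G] (T : Sylow p G) : Prop :=
  IsExtraspecial p T ∧ Nat.card T = p ^ 3 ∧ (∀ t ∈ T, t ^ p = 1) ∧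
    ∃ x y₁ y₂ y₃ : G, x ∈ T ∧ x ≠ 1 ∧ (∀ t ∈ T, Commute t x) ∧ y₁ ∈ T ∧ y₂ ∈ T ∧ y₃ ∈ T ∧
      IsConj x y₁ ∧ IsConj x y₂ ∧ IsConj x y₃ ∧ ¬ Commute y₁ y₂ ∧ ¬ Commute y₁ y₃ ∧ ¬ Commute y₂ y₃

namespace Dat

variable {G : Type*} [Group G] {p : ℕ} {z x n w a h : G} (D : Dat p z x n w a h)
include D

theorem prime : p.Prime := by rcases D.hp with rfl | rfl <;> norm_num

theorem odd : Odd p := by rcases D.hp with rfl | rfl <;> decide

theorem zz : z * z = 1 := by rw [← pow_two, ← D.oz, pow_orderOf_eq_one]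

theorem zinv : z⁻¹ = z := inv_eq_of_mul_eq_one_right D.zz

theorem z1 : z ≠ 1 := fun e => by simpa [e] using D.oz

theorem xp : x ^ p = 1 := by rw [← D.ox, pow_orderOf_eq_one]

theorem x1 : x ≠ 1 := fun e => D.prime.one_lt.ne (by simpa [e] using D.ox)

/-- an element killed by `p` and equal to its inverse is trivial -/
theorem eq_one {y : G} (h1 : y ^ p = 1) (h2 : y⁻¹ = y) : y = 1 := by
  obtain ⟨k, hk⟩ := D.odd
  have h3 : y ^ 2 = 1 := by rw [pow_two]; nth_rewrite 1 [← h2]; exact inv_mul_cancel y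
  rwa [hk, pow_succ, pow_mul, h3, one_pow, one_mul] at h1

/-- uniqueness of the decomposition into a power of `x` and an inverted element -/
theorem uniq {e f c : G} (hc : c ∈ zpowers x) (he : z * e * z⁻¹ = e⁻¹) (hf : z * f * z⁻¹ = f⁻¹)
    (hx : Commute e x) (h1 : f = c * e) : c = 1 ∧ f = e := by
  obtain ⟨k, rfl⟩ := mem_zpowers_iff.1 hc
  have h2 : z * x ^ k * z⁻¹ = x ^ k := by rw [← (D.xz.zpow_left k).eq, mul_inv_cancel_right]
  have h3 : x ^ k * e⁻¹ = (x ^ k)⁻¹ * e⁻¹ := by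
    calc x ^ k * e⁻¹ = (z * x ^ k * z⁻¹) * (z * e * z⁻¹) := by rw [h2, he]
      _ = z * f * z⁻¹ := by rw [h1]; group
      _ = e⁻¹ * (x ^ k)⁻¹ := by rw [hf, h1, mul_inv_rev]
      _ = _ := (hx.zpow_right k).inv_left.inv_right.eq
  have h4 : x ^ k = 1 := D.eq_one (by rw [← zpow_natCast, ← zpow_mul, mul_comm, zpow_mul,
    zpow_natCast, D.xp, one_zpow]) (mul_right_cancel h3).symm
  exact ⟨h4, by rw [h1, h4, one_mul]⟩

/-- the product of the three conjugates of `a` -/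
theorem bca : (h * a * h⁻¹) * (h * (h * a * h⁻¹) * h⁻¹) * a = 1 := by
  have e : h⁻¹ * h⁻¹ = h := by
    rw [← mul_inv_rev, inv_eq_iff_mul_eq_one, ← D.h3, pow_succ, pow_two]
  calc _ = h * a * (h * a) * ((h⁻¹ * h⁻¹) * a) := by group
    _ = 1 := by rw [e, ← D.ha3, pow_succ, pow_two]

/-- conjugating `a` by `h` -/
theorem shift : Dat p z x n w (h * a * h⁻¹) h :=
  { D with
    az := (D.hz.mul_left D.az).mul_left D.hz.inv_left
    ax := (D.hx.mul_left D.ax).mul_left D.hx.inv_left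
    a2 := by
      rw [conj_pow]
      rcases D.a2 with e | e <;> rw [e]
      · exact Or.inl (by simp)
      · exact Or.inr (by rw [D.hz.eq, mul_inv_cancel_right])
    a1 := by simpa using D.a1
    a1' := fun e => D.a1' (by
      calc a = h⁻¹ * (h * a * h⁻¹) * h := by group
        _ = z := by rw [e, mul_assoc, ← D.hz.eq, inv_mul_cancel_left])
    ha3 := by
      rw [show h * (h * a * h⁻¹) = h * (h * a) * h⁻¹ by group, conj_pow, D.ha3]; simp
    wa := (D.wh.mul_right D.wa).mul_right D.wh.inv_right }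

theorem sq_b (ha : a ^ 2 = z) : (h * a * h⁻¹) ^ 2 = z := by
  rw [conj_pow, ha, D.hz.eq, mul_inv_cancel_right]

theorem inv_a (ha : a ^ 2 = z) : a⁻¹ = a * z := by
  rw [inv_eq_iff_mul_eq_one, ← mul_assoc, ← pow_two, ha, D.zz]

/-- the quaternion relation -/
theorem q8 (ha : a ^ 2 = z) : a * (h * a * h⁻¹) * a⁻¹ * (h * a * h⁻¹)⁻¹ = z := by
  have hb := D.sq_b ha
  have hc := D.shift.sq_b hb
  have e := D.bca
  have ib := D.shift.inv_a hb
  have bz := D.shift.az
  generalize h * (h * a * h⁻¹) * h⁻¹ = c at *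
  generalize h * a * h⁻¹ = b at *
  have e2 : c = (a * b)⁻¹ := by
    calc c = b⁻¹ * (b * c * a) * a⁻¹ := by group
      _ = _ := by rw [e]; group
  rw [e2, inv_pow, inv_eq_iff_eq_inv, D.zinv] at hc
  rw [ib, D.inv_a ha]
  calc _ = a * b * a * (z * b) * z := by group
    _ = (a * b) ^ 2 * (z * z) := by rw [← bz.eq, pow_two]; group
    _ = z := by rw [hc, D.zz, mul_one]

/-- the quaternion group normalises no cyclic group inverted by `z` -/
theorem not_both (ha : a ^ 2 = z) {y : G} (h1 : y⁻¹ ≠ y) (hy : z * y * z⁻¹ = y⁻¹)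
    (h2 : a * y * a⁻¹ ∈ zpowers y) (h3 : (h * a * h⁻¹) * y * (h * a * h⁻¹)⁻¹ ∈ zpowers y) :
    False := by
  have e := D.q8 ha
  generalize h * a * h⁻¹ = b at *
  obtain ⟨i, hi⟩ := mem_zpowers_iff.1 h2
  obtain ⟨j, hj⟩ := mem_zpowers_iff.1 h3
  have e1 : a * b * y * (a * b)⁻¹ = y ^ (i * j) := by
    calc _ = a * (b * y * b⁻¹) * a⁻¹ := by group
      _ = _ := by rw [← hj, ← conj_zpow, ← hi, zpow_mul]
  have e2 : b * a * y * (b * a)⁻¹ = y ^ (i * j) := by
    calc _ = b * (a * y * a⁻¹) * b⁻¹ := by group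
      _ = _ := by rw [← hi, ← conj_zpow, ← hj, ← zpow_mul, mul_comm j]
  have e3 : z * y ^ (i * j) * z⁻¹ = y ^ (i * j) := by
    calc _ = z * (b * a * y * (b * a)⁻¹) * z⁻¹ := by rw [e2]
      _ = a * b * y * (a * b)⁻¹ := by rw [← e]; group
      _ = _ := e1
  rw [← conj_zpow, hy, inv_zpow, ← e2] at e3
  exact h1 ((MulAut.conj (b * a)).injective (by simpa [mul_assoc] using e3))

/-- transport along an inner automorphism -/
theorem cj (g : G) : Dat p (g * z * g⁻¹) (g * x * g⁻¹) (g * n * g⁻¹) (g * w * g⁻¹) (g * a * g⁻¹)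
    (g * h * g⁻¹) := by
  have c : ∀ {s t : G}, Commute s t → Commute (g * s * g⁻¹) (g * t * g⁻¹) := fun hc =>
    hc.map (MulAut.conj g)
  have c' : ∀ {s t : G}, Commute s (g * t * g⁻¹) → Commute (g⁻¹ * s * g) t := fun hc => by
    simpa [mul_assoc] using hc.map (MulAut.conj g⁻¹)
  have o : ∀ k s : G, orderOf (k * s * k⁻¹) = orderOf s := fun k s => (MulAut.conj k).orderOf_eq s
  have o' : ∀ s : G, orderOf (g⁻¹ * s * g) = orderOf s := fun s => by simpa using o g⁻¹ s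
  have cc : ∀ {t : G}, IsConj z (g⁻¹ * t * g) → IsConj (g * z * g⁻¹) t := fun hc =>
    ((isConj_iff.2 ⟨g, rfl⟩ : IsConj z _).symm.trans hc).trans (isConj_iff.2 ⟨g, by group⟩)
  have eL : Lc (g * z * g⁻¹) (g * x * g⁻¹) = (Lc z x).map (MulAut.conj g).toMonoidHom := by
    ext s
    rw [mem_map_equiv, mem_Lc, mem_Lc]
    exact ⟨fun hs => ⟨c' hs.1, c' hs.2⟩, fun hs => ⟨by simpa [mul_assoc] using c hs.1,
      by simpa [mul_assoc] using c hs.2⟩⟩
  have eC : centralizer ({g * z * g⁻¹} : Set G) =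
      (centralizer ({z} : Set G)).map (MulAut.conj g).toMonoidHom := by
    ext s
    rw [mem_map_equiv, mem_centralizer_singleton_iff, mem_centralizer_singleton_iff]
    exact ⟨fun hs => c' hs, fun hs => by simpa [Commute, SemiconjBy, mul_assoc] using c hs⟩
  refine ⟨D.hp, (o _ _).trans D.oz, (o _ _).trans D.ox, c D.xz, c D.nz, c D.wz, c D.az, c D.hz,
    ?_, ?_, c D.ax, c D.hx, ?_, by simpa using D.a1, by simpa using D.a1', ?_, ?_, ?_, c D.wa,
    c D.wh, ?_, ?_, D.p3, D.p4, fun t h1 h2 h3 => cc (D.c1 _ ((o' t).trans h1) (c' h2) (c' h3)),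
    fun u h1 h2 h3 => cc (D.c2 _ ((o' u).trans h1) (c' h2) ?_)⟩
  · rw [conj_pow, ← D.nx]; group
  · rw [conj_inv (b := g) (a := x), ← D.wx]; group
  · rw [conj_pow]
    exact D.a2.imp (fun e => by rw [e]; simp) fun e => by rw [e]
  · rw [conj_pow, D.h3]; simp
  · rw [conj_mul, conj_pow, D.ha3]; simp
  · rw [conj_pow]
    exact D.w2.imp (fun e => by rw [e]; simp) fun e => by rw [e]
  · rw [eL, card_map_of_injective (MulAut.conj g).injective]; exact D.card
  · rw [eC, card_map_of_injective (MulAut.conj g).injective]; exact D.sq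
  · calc _ = g⁻¹ * (u * (g * x * g⁻¹) * u⁻¹) * g := by group
      _ = _ := by rw [h3]; group

end Dat

end Cfsg.Agent.RV
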