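import Cfsg.Agent.RV.Defs
import Cfsg.Prelude.Def_LieTwisted
import Cfsg.Agent.H63.Tits

set_option autoImplicit false
set_option maxRecDepth 100000

namespace Cfsg.Agent.RV

open Subgroup H63 H63.Tits Matrix

namespace TitsTri

variable {G : Type*} [Group G] {ρ : G →* Matrix (Fin 52) (Fin 52) (ZMod 2)}

/-- `A` is the table of `g` -/
def Tb (ρ : G →* Matrix (Fin 52) (Fin 52) (ZMod 2)) (g : G) (A : ℕ) : Prop :=
  OkM 52 2 1 A ∧ decM 52 2 1 A = (ρ g)ᵀ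

theorem Tb.mul {g h : G} {A B : ℕ} (a : Tb ρ g A) (b : Tb ρ h B) : Tb ρ (g * h) (mu B A) :=
  let ⟨c1, c2⟩ := par.mul.2 b.1 a.1
  ⟨c1, by rw [map_mul, transpose_mul, ← a.2, ← b.2]; exact c2⟩

theorem Tb.one : Tb ρ 1 I := ⟨par.one.1, by rw [map_one, transpose_one]; exact par.one.2⟩

theorem Tb.eq (hρ : ∀ g, ρ g = 1 → g = 1) {g h : G} {A B : ℕ} (a : Tb ρ g A) (b : Tb ρ h B)
    (e : Nat.beq A B = true) : g = h := by
  obtain rfl := Nat.eq_of_beq_eq_true e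
  exact (injective_iff_map_eq_one ρ).2 hρ (transpose_injective (a.2.symm.trans b.2))

theorem Tb.ne {g h : G} {A B : ℕ} (a : Tb ρ g A) (b : Tb ρ h B) (e : Nat.beq A B = false) : g ≠ h := by
  rintro rfl
  exact Nat.ne_of_beq_eq_false e (decM_inj (by decide) a.1 b.1 (a.2.trans b.2.symm))

theorem conj {u a z : G} (h : u * a = z * u) : IsConj a z := isConj_iff.2 ⟨u, by rw [h, mul_inv_cancel_right]⟩

end TitsTri

open TitsTri

theorem tri_tits : ∃ a b z : Lie.TitsGroup, Tri 3 a b z := by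
  obtain ⟨ρ, h1, h2⟩ := smd md
  have k : ∀ A ∈ sL0, ∃ g, Tb ρ g A := fun A hA => let ⟨g, _, e⟩ := h2 A hA; ⟨g, e⟩
  simp only [sL0, List.forall_mem_cons] at k
  obtain ⟨⟨g37, t37⟩, -, -, -, ⟨a, ta⟩, ⟨b, tb⟩, ⟨z, tz⟩, ⟨g30, t30⟩, ⟨g29, t29⟩, ⟨g28, t28⟩, -, ⟨g26, t26⟩, -, -,
    ⟨g23, t23⟩, ⟨g22, t22⟩, -⟩ := k
  refine ⟨a, b, z, ?_, ?_, ?_, tz.ne .one (by decide +kernel),
    (ta.mul tb).eq h1 ((tb.mul ta).mul tz) (by decide +kernel),
    (ta.mul tz).eq h1 (tz.mul ta) (by decide +kernel), (tb.mul tz).eq h1 (tz.mul tb) (by decide +kernel),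
    ⟨2, ?_⟩, ⟨2, ?_⟩, 1, 1, 0, 1, by decide, by decide, ?_⟩
  · rw [pow_three]; exact (ta.mul (ta.mul ta)).eq h1 .one (by decide +kernel)
  · rw [pow_three]; exact (tb.mul (tb.mul tb)).eq h1 .one (by decide +kernel)
  · rw [pow_three]; exact (tz.mul (tz.mul tz)).eq h1 .one (by decide +kernel)
  · have u := t26.mul (ta.mul (t26.mul t30))
    rw [pow_two]; exact conj ((u.mul ta).eq h1 ((tz.mul tz).mul u) (by decide +kernel))
  · have u := t22.mul (t29.mul (t23.mul (t28.mul t37)))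
    rw [pow_two]; exact conj ((u.mul tb).eq h1 ((tz.mul tz).mul u) (by decide +kernel))
  · have u := t23.mul (tz.mul (t23.mul ta))
    rw [pow_one, pow_one, pow_one, pow_zero, mul_one]
    exact conj ((u.mul (ta.mul tb)).eq h1 (tz.mul u) (by decide +kernel))

end Cfsg.Agent.RV
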