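import Cfsg.Agent.RV.Defs
import Cfsg.Prelude.Def_LieTwisted
import Cfsg.Agent.S2369

set_option autoImplicit false
set_option maxRecDepth 100000

namespace Cfsg.Agent.RV

open Subgroup

section
open Cfsg.Lie Cfsg.Agent.H37 Cfsg.Agent.H38 Cfsg.Agent.H40 Cfsg.Agent.H65 Cfsg.Agent.S2369

/-- the centralizer of an involution is conjugate into a parabolic subgroup -/
theorem tw_par {K : Type*} [Field K] {e : ℕ} (θ : Th K 2 e) [Fintype K] [CharP K 2] {a : GL chevF4.Idx K}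
    (ha : a ∈ (TF θ).mt.Fix) (h2 : orderOf a = 2) :
    ∃ j g, ∀ b ∈ (TF θ).mt.Fix, b * a = a * b → g * b * g⁻¹ ∈ Par (TF θ).mt j := by
  obtain ⟨y, hy, g, hg, e⟩ := R4.hcov θ a ha h2
  have key : ∀ b ∈ (TF θ).mt.Fix, b * a = a * b → ∀ g ∈ (TF θ).mt.Fix, ∀ y, g * a * g⁻¹ = y →
      g * b * g⁻¹ ∈ (TF θ).mt.Fix ∧ g * b * g⁻¹ * y = y * (g * b * g⁻¹) := by
    rintro b hb hab g hg _ rfl
    refine ⟨mul_mem (mul_mem hg hb) (inv_mem hg), ?_⟩
    calc _ = g * (b * a) * g⁻¹ := by group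
      _ = _ := by rw [hab]; group
  simp only [R4.Ys, List.mem_cons, List.not_mem_nil, or_false] at hy
  rcases hy with rfl | rfl
  · refine ⟨1, g, fun b hb hab => ?_⟩
    obtain ⟨h1, h3⟩ := key b hb hab g hg _ e
    exact cent_le_Par (TF θ) (by decide) (by decide) (by decide) (hW θ _ Ps_44) h1 h3
  · obtain ⟨g', hg', e'⟩ := run_sound (matRel isChev_F4 K) F4.checked.agree (gx_fix (TF θ) F4.checked.agree R4.hgx)
      (gn_fix (TF θ) R4.hgn) _ _ (by unfold Val; decide) run39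
    refine ⟨0, g' * g, fun b hb hab => ?_⟩
    obtain ⟨h1, h3⟩ := key b hb hab (g' * g) (mul_mem hg' hg) (xw (matRel isChev_F4 K) [39, 45])
      (by rw [← e', ← e]; group)
    exact cent_le_Par (TF θ) (by decide) (by decide) (by decide) (hW θ _ Ps_39) h1 h3

theorem tw_dvd {K : Type*} [Field K] {e : ℕ} (θ : Th K 2 e) [Fintype K] [CharP K 2] {a : twistedF4 K e}
    (h2 : orderOf a = 2) : ∃ j : Fin 2, Nat.card (centralizer ({a} : Set (twistedF4 K e))) ∣
      Nat.card K ^ 12 * (Nat.card K - 1) ^ 2 * (Nat.card K ^ ((j : ℕ) + 1) + 1) := by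
  have hF := Fix_F4 θ
  obtain ⟨i, g, h⟩ := tw_par θ (a := a) (hF.ge a.2) (by rw [orderOf_coe, h2])
  refine ⟨i, card_par θ i ▸ card_dvd_of_injective (((MulAut.conj g).toMonoidHom.comp ((twistedF4 K e).subtype.comp
    (centralizer ({a} : Set (twistedF4 K e))).subtype)).codRestrict _ fun b =>
      h _ (hF.ge b.1.2) (congrArg Subtype.val (mem_centralizer_singleton_iff.1 b.2))) fun x y e => ?_⟩
  exact Subtype.ext (Subtype.ext ((MulAut.conj g).injective (congrArg Subtype.val e)))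

end

theorem inv_cent_tw {j : Lie.twistedF4 (ZMod 2) 1} (hj : orderOf j = 2) :
    ¬ 9 ∣ Nat.card (centralizer ({j} : Set (Lie.twistedF4 (ZMod 2) 1))) := fun h9 => by
  have θ : H40.Th (ZMod 2) 2 1 := H40.mkTh (m := 0) Nat.prime_two (by simp)
  obtain ⟨i, h⟩ := tw_dvd θ hj
  rw [Nat.card_zmod] at h
  have h2 := h9.trans h
  revert h2
  fin_cases i <;> decide

end Cfsg.Agent.RV
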